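import Cfsg.Agent.M12Count.Defs
import Cfsg.Agent.Eq.Def_Spor_Mathieu
import Cfsg.Agent.OrderCounts.Basic
import Cfsg.Agent.SylowToolkit.Counting
import Mathlib

/-!
What the order `95040` and the element-order counts of `M₁₂` give directly: simplicity, the
centralisers of the elements of orders five and eleven, and the involution centralising an element
of order five.
-/

set_option autoImplicit false
set_option linter.style.haveILetI false

namespace CfsgLib.M12Count

open Subgroup

universe u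

variable {G : Type u} [Group G] [Finite G]

theorem cnt_eq (n : ℕ) : cnt G n = Cfsg.Agent.S3995.cnt G n := rfl

theorem cnt_ne_zero_of_orderOf {n : ℕ} {x : G} (hx : orderOf x = n) : cnt G n ≠ 0 :=
  (CfsgLib.OrderCounts.cnt_ne_zero_iff n).mpr ⟨x, hx⟩

/-- The elements of order `n` commuting with an element of prime order `p`, modulo `p`. -/
theorem count_modEq {p : ℕ} [Fact p.Prime] {x : G} (hx : orderOf x = p) (n : ℕ) :
    cnt G n % p = Nat.card {g : G // orderOf g = n ∧ Commute x g} % p := by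
  let ψ : zpowers x →* Equiv.Perm {g : G // orderOf g = n} :=
    { toFun := fun a => (MulAut.conj (a : G)).toEquiv.subtypeEquiv fun g => by
        rw [show orderOf ((MulAut.conj (a : G)).toEquiv g) = orderOf g from
          orderOf_injective (MulAut.conj (a : G)).toMonoidHom (MulAut.conj (a : G)).injective g]
      map_one' := Equiv.ext fun g => Subtype.ext (by simp)
      map_mul' := fun a b => Equiv.ext fun g => Subtype.ext (by simp [mul_assoc]) }
  letI : MulAction (zpowers x) {g : G // orderOf g = n} := MulAction.compHom _ ψ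
  have hp : IsPGroup p (zpowers x) :=
    IsPGroup.of_card (n := 1) (by rw [Nat.card_zpowers, hx, pow_one])
  refine (hp.card_modEq_card_fixedPoints {g : G // orderOf g = n}).trans
    (congrArg (· % p) (Nat.card_congr ?_))
  refine
    { toFun := fun g => ⟨g.1.1, g.1.2, ?_⟩
      invFun := fun g => ⟨⟨g.1, g.2.1⟩, fun a => ?_⟩
      left_inv := fun g => rfl
      right_inv := fun g => rfl }
  · exact mul_inv_eq_iff_eq_mul.1 (congrArg Subtype.val (g.2 ⟨x, mem_zpowers x⟩))
  · obtain ⟨k, hk⟩ := mem_zpowers_iff.1 a.2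
    refine Subtype.ext ?_
    show (a : G) * g.1 * (a : G)⁻¹ = g.1
    rw [← hk]
    exact mul_inv_eq_iff_eq_mul.2 (g.2.2.zpow_left k).eq

theorem centralizer_le_normalizer_zpowers (g : G) :
    centralizer ({g} : Set G) ≤ normalizer (zpowers g : Set G) := by
  refine le_trans (fun a ha => ?_) (centralizer_le_normalizer _)
  refine mem_centralizer_iff.2 fun z hz => ?_
  obtain ⟨k, rfl⟩ := mem_zpowers_iff.1 hz
  exact ((show Commute g a from (mem_centralizer_singleton_iff.1 ha).symm).zpow_left k).eq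

theorem mem_centralizer_of_commute {g y : G} (h : Commute g y) :
    y ∈ centralizer ({g} : Set G) :=
  mem_centralizer_singleton_iff.2 h.eq.symm

theorem commute_of_mem_centralizer {g y : G} (h : y ∈ centralizer ({g} : Set G)) : Commute g y :=
  (mem_centralizer_singleton_iff.1 h).symm

/-- An element of order `p` is a Sylow subgroup when `p` divides the order exactly once. -/
theorem exists_sylow_eq {p m : ℕ} [Fact p.Prime] (hG : Nat.card G = p * m) (hm : ¬ p ∣ m) {g : G}
    (hg : orderOf g = p) : ∃ P : Sylow p G, zpowers g = (P : Subgroup G) := by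
  obtain ⟨P, hP⟩ := (IsPGroup.of_card (n := 1) (show Nat.card (zpowers g) = p ^ 1 by
    rw [Nat.card_zpowers, hg, pow_one])).exists_le_sylow
  exact ⟨P, eq_of_le_of_card_ge hP (by
    rw [CfsgLib.SylowToolkit.card_sylow_subgroup_eq (k := 1) (m := m) (by rw [hG, pow_one]) hm P,
      Nat.card_zpowers, hg, pow_one])⟩

namespace CountHyp

variable (h : CountHyp G)
include h

theorem values {n : ℕ} (hn : cnt G n ≠ 0) : cnt G n = 1 ∨ cnt G n = 891 ∨ cnt G n = 4400 ∨
    cnt G n = 5940 ∨ cnt G n = 9504 ∨ cnt G n = 17280 ∨ cnt G n = 23760 := by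
  simpa [countValues] using h.mem n hn

theorem cnt_two : cnt G 2 = 891 := by
  obtain ⟨n, hn⟩ := h.has891
  match n, hn with
  | 0, hn =>
    haveI : IsEmpty {g : G // orderOf g = 0} := ⟨fun g => (orderOf_pos (g : G)).ne' g.2⟩
    rw [cnt, Nat.card_of_isEmpty] at hn
    omega
  | 1, hn =>
    rw [cnt_eq, CfsgLib.OrderCounts.cnt_one] at hn
    omega
  | 2, hn => exact hn
  | k + 3, hn =>
    have h2 : 2 ∣ Cfsg.Agent.S3995.cnt G (k + 3) :=
      (Nat.totient_even (by omega)).two_dvd.trans (Cfsg.Agent.S3995.totient_dvd_cnt _)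
    rw [← cnt_eq, hn] at h2
    omega

theorem cnt_three : cnt G 3 = 4400 := by
  have hd : 3 ∣ Nat.card G := by rw [h.card]; norm_num
  have h3 := CfsgLib.OrderCounts.cast_prime (G := G) Nat.prime_three hd
  have hne : cnt G 3 ≠ 0 := CfsgLib.OrderCounts.cnt_prime_ne_zero Nat.prime_three hd
  have he : 2 ∣ Cfsg.Agent.S3995.cnt G 3 :=
    (Nat.totient_even (by omega)).two_dvd.trans (Cfsg.Agent.S3995.totient_dvd_cnt _)
  rw [← cnt_eq] at h3 he
  rcases h.values hne with e | e | e | e | e | e | e <;> rw [e] at h3 he <;>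
    first | exact e | omega | exact absurd h3 (by decide)

theorem card_sylow_eleven [Fact (Nat.Prime 11)] : Nat.card (Sylow 11 G) = 1728 := by
  have hmem := CfsgLib.SylowToolkit.card_sylow_mem_candidates (p := 11) (G := G) (k := 1) (m := 8640)
    (by rw [h.card]; norm_num) (by norm_num)
  have key : ∀ n ∈ (8640 : ℕ).divisors.filter (fun n => n % 11 = 1), n * 10 ∈ countValues → n = 1728 := by
    decide +kernel
  refine key _ hmem ?_
  have e : cnt G 11 = Nat.card (Sylow 11 G) * 10 :=
    CfsgLib.SylowToolkit.card_orderOf_eq_prime (m := 8640) (by rw [h.card]) (by norm_num)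
  exact e ▸ h.mem 11 (by rw [e]; exact (Nat.mul_pos Nat.card_pos (by norm_num)).ne')

theorem cnt_eleven [Fact (Nat.Prime 11)] : cnt G 11 = 17280 := by
  rw [cnt, CfsgLib.SylowToolkit.card_orderOf_eq_prime (m := 8640) (by rw [h.card]) (by norm_num),
    h.card_sylow_eleven]

theorem cent_eleven {g : G} (hg : orderOf g = 11) :
    Nat.card (centralizer ({g} : Set G)) = 11 := by
  haveI : Fact (Nat.Prime 11) := ⟨by norm_num⟩
  haveI : Fact (Nat.Prime 5) := ⟨by norm_num⟩
  obtain ⟨P, hP⟩ := exists_sylow_eq (m := 8640) (by rw [h.card]) (by norm_num) hg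
  set C := centralizer ({g} : Set G) with hC
  have hN := CfsgLib.SylowToolkit.card_normalizer_mul P
  rw [h.card_sylow_eleven, h.card] at hN
  have hd := card_dvd_of_le (centralizer_le_normalizer_zpowers g)
  rw [hP, show Nat.card (normalizer ((P : Subgroup G) : Set G)) = 55 by omega, ← hC] at hd
  have hgC : g ∈ C := mem_centralizer_of_commute (Commute.refl g)
  have h11 : 11 ∣ Nat.card C := hg ▸ orderOf_dvd_natCard (s := C) hgC
  obtain ⟨k, hk⟩ := h11
  rw [hk] at hd ⊢
  rcases (Nat.dvd_prime Nat.prime_five).1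
    (Nat.dvd_of_mul_dvd_mul_left (by norm_num : 0 < 11) (by simpa using hd)) with rfl | rfl
  · rfl
  exfalso
  obtain ⟨b, hb⟩ := exists_prime_orderOf_dvd_card' (G := C) 5 (by rw [hk]; norm_num)
  have hb' : orderOf (b : G) = 5 := by rw [Subgroup.orderOf_coe]; exact hb
  have hprod : orderOf (g * b) = 55 := by
    rw [(commute_of_mem_centralizer b.2).orderOf_mul_eq_mul_orderOf_of_coprime
      (by rw [hg, hb']; norm_num), hg, hb']
  haveI : IsCyclic C := isCyclic_of_orderOf_eq_card ⟨g * b, mul_mem hgC b.2⟩ (by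
    rw [Subgroup.orderOf_mk, hprod, hk])
  have h40 : Nat.card {u : G // orderOf u = 55 ∧ Commute g u} = 40 := by
    haveI := Fintype.ofFinite C
    classical
    have := IsCyclic.card_orderOf_eq_totient (α := C) (d := 55)
      (by rw [← Nat.card_eq_fintype_card, hk])
    rw [← Fintype.card_subtype, ← Nat.card_eq_fintype_card, show Nat.totient 55 = 40 by decide] at this
    rw [← this]
    exact Nat.card_congr
      { toFun := fun u => ⟨⟨u.1, mem_centralizer_of_commute u.2.2⟩,
          by rw [Subgroup.orderOf_mk]; exact u.2.1⟩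
        invFun := fun u => ⟨u.1.1, by rw [Subgroup.orderOf_coe]; exact u.2,
          commute_of_mem_centralizer u.1.2⟩
        left_inv := fun u => rfl
        right_inv := fun u => rfl }
  have hmod := count_modEq hg 55
  rw [h40] at hmod
  rcases h.values (cnt_ne_zero_of_orderOf hprod) with e | e | e | e | e | e | e <;>
    rw [e] at hmod <;> norm_num at hmod

/-- An element of order prime to eleven commuting with an element of order eleven is trivial. -/
theorem eq_one_of_commute_eleven {g y : G} (hg : orderOf g = 11) (hy : Commute g y)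
    (hco : Nat.Coprime (orderOf y) 11) : y = 1 := by
  have := orderOf_dvd_natCard (s := centralizer ({g} : Set G)) (mem_centralizer_of_commute hy)
  rw [h.cent_eleven hg] at this
  exact orderOf_eq_one_iff.1 (hco.eq_one_of_dvd this)

theorem card_sylow_five [Fact (Nat.Prime 5)] : Nat.card (Sylow 5 G) = 2376 := by
  have hmem := CfsgLib.SylowToolkit.card_sylow_mem_candidates (p := 5) (G := G) (k := 1) (m := 19008)
    (by rw [h.card]; norm_num) (by norm_num)
  have key : ∀ n ∈ (19008 : ℕ).divisors.filter (fun n => n % 5 = 1), n * 4 ∈ countValues → n = 2376 := by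
    decide +kernel
  refine key _ hmem ?_
  have e : cnt G 5 = Nat.card (Sylow 5 G) * 4 :=
    CfsgLib.SylowToolkit.card_orderOf_eq_prime (m := 19008) (by rw [h.card]) (by norm_num)
  exact e ▸ h.mem 5 (by rw [e]; exact (Nat.mul_pos Nat.card_pos (by norm_num)).ne')

theorem cnt_five : cnt G 5 = 9504 := by
  haveI : Fact (Nat.Prime 5) := ⟨by norm_num⟩
  rw [cnt, CfsgLib.SylowToolkit.card_orderOf_eq_prime (m := 19008) (by rw [h.card]) (by norm_num),
    h.card_sylow_five]

theorem norm_five {g : G} (hg : orderOf g = 5) :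
    Nat.card (normalizer (zpowers g : Set G)) = 40 := by
  haveI : Fact (Nat.Prime 5) := ⟨by norm_num⟩
  obtain ⟨P, hP⟩ := exists_sylow_eq (m := 19008) (by rw [h.card]) (by norm_num) hg
  have hN := CfsgLib.SylowToolkit.card_normalizer_mul P
  rw [h.card_sylow_five, h.card] at hN
  rw [hP]
  omega

/-- Two elements of order five generate conjugate subgroups. -/
theorem conj_five {g g' : G} (hg : orderOf g = 5) (hg' : orderOf g' = 5) :
    ∃ a : G, g' ∈ zpowers (a * g * a⁻¹) ∧ a * g * a⁻¹ ∈ zpowers g' := by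
  haveI : Fact (Nat.Prime 5) := ⟨by norm_num⟩
  obtain ⟨P, hP⟩ := exists_sylow_eq (m := 19008) (by rw [h.card]) (by norm_num) hg
  obtain ⟨Q, hQ⟩ := exists_sylow_eq (m := 19008) (by rw [h.card]) (by norm_num) hg'
  obtain ⟨a, ha⟩ := MulAction.exists_smul_eq G P Q
  have hmem : a * g * a⁻¹ ∈ zpowers g' := by
    rw [hQ, ← ha, Sylow.coe_subgroup_smul]
    exact ⟨g, hP ▸ mem_zpowers g, rfl⟩
  refine ⟨a, ?_, hmem⟩
  rw [eq_of_le_of_card_ge (zpowers_le.2 hmem) (by
    rw [Nat.card_zpowers, Nat.card_zpowers, hg', show orderOf (a * g * a⁻¹) = orderOf g from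
      orderOf_injective (MulAut.conj a).toMonoidHom (MulAut.conj a).injective g, hg])]
  exact mem_zpowers g'

theorem card_commute_const {g g' : G} (hg : orderOf g = 5) (hg' : orderOf g' = 5) (d : ℕ) :
    Nat.card {y : G // orderOf y = d ∧ Commute g y} =
      Nat.card {y : G // orderOf y = d ∧ Commute g' y} := by
  obtain ⟨a, h1, h2⟩ := h.conj_five hg hg'
  refine Nat.card_congr ((MulAut.conj a).toEquiv.subtypeEquiv fun y => ?_)
  show _ ↔ orderOf ((MulAut.conj a) y) = d ∧ Commute g' ((MulAut.conj a) y)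
  rw [MulEquiv.orderOf_eq, MulAut.conj_apply]
  refine and_congr_right fun _ => ⟨fun hy => ?_, fun hy => ?_⟩
  · obtain ⟨k, hk⟩ := mem_zpowers_iff.1 h1
    rw [← hk]
    exact ((Commute.conj_iff a).2 hy).zpow_left k
  · obtain ⟨k, hk⟩ := mem_zpowers_iff.1 h2
    exact (Commute.conj_iff a).1 (hk ▸ hy.zpow_left k)

/-- The elements of order `5 * d` for `d` prime to five. -/
theorem cnt_five_mul {d a b : ℕ} (ha : a % 5 = 1) (had : d ∣ a) (hb : 5 ∣ b) (hbd : b % d = 1)
    (hab : (a + b) % (5 * d) = 1) (hga : 5 * d / Nat.gcd (5 * d) a = 5)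
    (hgb : 5 * d / Nat.gcd (5 * d) b = d) (hd : Nat.Coprime 5 d) {g : G} (hg : orderOf g = 5) :
    cnt G (5 * d) = 9504 * Nat.card {y : G // orderOf y = d ∧ Commute g y} := by
  classical
  haveI := Fintype.ofFinite {x : G // orderOf x = 5}
  let f : (Σ x : {x : G // orderOf x = 5}, {y : G // orderOf y = d ∧ Commute (x : G) y}) →
      {z : G // orderOf z = 5 * d} := fun s => ⟨(s.1 : G) * s.2, by
    rw [s.2.2.2.orderOf_mul_eq_mul_orderOf_of_coprime (by rw [s.1.2, s.2.2.1]; exact hd), s.1.2,
      s.2.2.1]⟩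
  have hf : Function.Bijective f := by
    constructor
    · rintro ⟨⟨x, hx⟩, ⟨y, hy, hxy⟩⟩ ⟨⟨x', hx'⟩, ⟨y', hy', hxy'⟩⟩ e
      have e' : x * y = x' * y' := congrArg Subtype.val e
      have key : ∀ x y : G, orderOf x = 5 → orderOf y = d → Commute x y → (x * y) ^ a = x := by
        intro x y hx hy hxy
        rw [hxy.mul_pow, orderOf_dvd_iff_pow_eq_one.1 (hy.symm ▸ had : orderOf y ∣ a), mul_one,
          ← pow_mod_orderOf, hx, ha, pow_one]
      obtain rfl : x = x' := by rw [← key x y hx hy hxy, e', key x' y' hx' hy' hxy']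
      obtain rfl : y = y' := mul_left_cancel e'
      rfl
    · rintro ⟨z, hz⟩
      have hz0 : 5 * d ≠ 0 := hz ▸ (orderOf_pos z).ne'
      refine ⟨⟨⟨z ^ a, ?_⟩, ⟨z ^ b, ?_, (Commute.refl z).pow_pow a b⟩⟩, Subtype.ext ?_⟩
      · rw [orderOf_pow, hz, hga]
      · rw [orderOf_pow, hz, hgb]
      · show z ^ a * z ^ b = z
        rw [← pow_add, ← pow_mod_orderOf, hz, hab, pow_one]
  show Nat.card {z : G // orderOf z = 5 * d} = _
  rw [← Nat.card_eq_of_bijective f hf, Nat.card_sigma,
    Finset.sum_congr rfl (fun x _ => h.card_commute_const x.2 hg d), Finset.sum_const,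
    Finset.card_univ, smul_eq_mul, ← Nat.card_eq_fintype_card]
  exact congrArg (· * _) h.cnt_five

theorem exists_invol_commute {g : G} (hg : orderOf g = 5) :
    ∃ t : G, orderOf t = 2 ∧ Commute g t := by
  haveI : Fact (Nat.Prime 5) := ⟨by norm_num⟩
  by_contra hno
  haveI : IsEmpty {y : G // orderOf y = 2 ∧ Commute g y} := ⟨fun y => hno ⟨y, y.2⟩⟩
  have := count_modEq hg 2
  rw [h.cnt_two, Nat.card_of_isEmpty] at this
  norm_num at this

theorem subsingleton_invol {g : G} (hg : orderOf g = 5) :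
    Subsingleton {y : G // orderOf y = 2 ∧ Commute g y} := by
  obtain ⟨t, ht, hgt⟩ := h.exists_invol_commute hg
  have e := h.cnt_five_mul (d := 2) (a := 6) (b := 5) (by norm_num) (by norm_num) (by norm_num)
    (by norm_num) (by norm_num) (by norm_num) (by norm_num) (by norm_num) hg
  have hne : cnt G (5 * 2) ≠ 0 := cnt_ne_zero_of_orderOf (x := g * t) (by
    rw [hgt.orderOf_mul_eq_mul_orderOf_of_coprime (by rw [hg, ht]; norm_num), hg, ht])
  haveI : Nonempty {y : G // orderOf y = 2 ∧ Commute g y} := ⟨⟨t, ht, hgt⟩⟩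
  have h1 : Nat.card {y : G // orderOf y = 2 ∧ Commute g y} = 1 := by
    rcases h.values hne with e' | e' | e' | e' | e' | e' | e' <;> rw [e] at e' <;> omega
  exact (Nat.card_eq_one_iff_unique.1 h1).1

theorem invol_unique {g t v : G} (hg : orderOf g = 5) (ht : orderOf t = 2) (hv : orderOf v = 2)
    (h1 : Commute g t) (h2 : Commute g v) : t = v :=
  haveI := h.subsingleton_invol hg
  congrArg Subtype.val (Subsingleton.elim (α := {y : G // orderOf y = 2 ∧ Commute g y})
    ⟨t, ht, h1⟩ ⟨v, hv, h2⟩)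

theorem no_four {g y : G} (hg : orderOf g = 5) (hy : orderOf y = 4) (hgy : Commute g y) : False := by
  have e := h.cnt_five_mul (d := 4) (a := 16) (b := 5) (by norm_num) (by norm_num) (by norm_num)
    (by norm_num) (by norm_num) (by norm_num) (by norm_num) (by norm_num) hg
  haveI : Nontrivial {z : G // orderOf z = 4 ∧ Commute g z} := by
    refine ⟨⟨y, hy, hgy⟩, ⟨y⁻¹, by rw [orderOf_inv, hy], hgy.inv_right⟩, fun e => ?_⟩
    have e' : y = y⁻¹ := congrArg Subtype.val e
    have h2 : y ^ 2 = 1 := by rw [pow_two]; nth_rw 1 [e']; exact inv_mul_cancel y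
    have := orderOf_dvd_of_pow_eq_one h2
    rw [hy] at this
    norm_num at this
  have h2 : 1 < Nat.card {z : G // orderOf z = 4 ∧ Commute g z} := Finite.one_lt_card
  have hne : cnt G (5 * 4) ≠ 0 := cnt_ne_zero_of_orderOf (x := g * y) (by
    rw [hgy.orderOf_mul_eq_mul_orderOf_of_coprime (by rw [hg, hy]; norm_num), hg, hy])
  rcases h.values hne with e' | e' | e' | e' | e' | e' | e' <;> rw [e] at e' <;> omega

theorem cent_five {g : G} (hg : orderOf g = 5) :
    Nat.card (centralizer ({g} : Set G)) = 10 := by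
  haveI : Fact (Nat.Prime 2) := ⟨Nat.prime_two⟩
  obtain ⟨t, ht, hgt⟩ := h.exists_invol_commute hg
  set C := centralizer ({g} : Set G) with hC
  have hd := card_dvd_of_le (centralizer_le_normalizer_zpowers g)
  rw [h.norm_five hg, ← hC] at hd
  have h5 : 5 ∣ Nat.card C :=
    hg ▸ orderOf_dvd_natCard (s := C) (mem_centralizer_of_commute (Commute.refl g))
  have h2 : 2 ∣ Nat.card C := ht ▸ orderOf_dvd_natCard (s := C) (mem_centralizer_of_commute hgt)
  have key : ∀ m ∈ (40 : ℕ).divisors, 5 ∣ m → 2 ∣ m → m = 10 ∨ 4 ∣ m := by decide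
  refine (key _ (Nat.mem_divisors.2 ⟨hd, by norm_num⟩) h5 h2).resolve_right fun h4 => ?_
  obtain ⟨R, hR⟩ := Sylow.exists_subgroup_card_pow_prime (G := C) 2 (n := 2) h4
  have hval : ∀ r : C, r ∈ R → (r : G) = 1 ∨ (r : G) = t := by
    intro r hr
    have hdvd : orderOf (r : G) ∣ 2 ^ 2 := by
      rw [Subgroup.orderOf_coe, ← hR]
      exact orderOf_dvd_natCard (s := R) hr
    obtain ⟨i, hi, e⟩ := (Nat.dvd_prime_pow Nat.prime_two).1 hdvd
    interval_cases i
    · exact Or.inl (orderOf_eq_one_iff.1 e)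
    · exact Or.inr (h.invol_unique hg e ht (commute_of_mem_centralizer r.2) hgt)
    · exact (h.no_four hg e (commute_of_mem_centralizer r.2)).elim
  classical
  have hle := Nat.card_le_card_of_injective (fun r : R => decide (((r : C) : G) = 1))
    (fun r s e => by
      have e' : (((r : C) : G) = 1) ↔ (((s : C) : G) = 1) := by simpa using e
      apply Subtype.ext; apply Subtype.ext
      rcases hval r r.2 with a | a <;> rcases hval s s.2 with b | b <;> simp_all)
  rw [hR, Nat.card_eq_fintype_card, Fintype.card_bool] at hle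
  omega

theorem fiveInv_norm {g t : G} (hg : orderOf g = 5) (ht : orderOf t = 2) (hgt : Commute g t) :
    normalizer (zpowers g : Set G) ≤ centralizer ({t} : Set G) := by
  intro n hn
  have hmem : n⁻¹ * g * n ∈ zpowers g := (mem_normalizer_iff'' (H := zpowers g)).1 hn g |>.1
    (mem_zpowers g)
  obtain ⟨k, hk⟩ := mem_zpowers_iff.1 hmem
  have hc : Commute g (n * t * n⁻¹) := by
    have h1 : Commute (n⁻¹ * g * n) t := hk ▸ hgt.zpow_left k
    simpa [mul_assoc] using (Commute.conj_iff n).2 h1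
  have ho : orderOf (n * t * n⁻¹) = 2 :=
    (orderOf_injective (MulAut.conj n).toMonoidHom (MulAut.conj n).injective t).trans ht
  exact mem_centralizer_singleton_iff.2
    (mul_inv_eq_iff_eq_mul.1 (h.invol_unique hg ho ht hc hgt))

theorem fiveInv_conj {t v : G} (ht : IsFiveInv t) (hv : IsFiveInv v) : IsConj t v := by
  obtain ⟨ht2, g, hg, hgt⟩ := ht
  obtain ⟨hv2, g', hg', hgv⟩ := hv
  obtain ⟨a, h1, -⟩ := h.conj_five hg hg'
  obtain ⟨k, hk⟩ := mem_zpowers_iff.1 h1
  have hc : Commute g' (a * t * a⁻¹) := hk ▸ ((Commute.conj_iff a).2 hgt).zpow_left k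
  exact isConj_iff.2 ⟨a, h.invol_unique hg'
    ((orderOf_injective (MulAut.conj a).toMonoidHom (MulAut.conj a).injective t).trans ht2) hv2 hc hgv⟩

/-- The conjugates of an involution are among the `891` involutions. -/
theorem index_centralizer_le {t : G} (ht : orderOf t = 2) :
    (centralizer ({t} : Set G)).index ≤ 891 := by
  rw [← h.cnt_two]
  refine Nat.card_le_card_of_injective (fun q : G ⧸ centralizer ({t} : Set G) =>
    (⟨q.out * t * q.out⁻¹, (orderOf_injective (MulAut.conj q.out).toMonoidHom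
      (MulAut.conj q.out).injective t).trans ht⟩ : {g : G // orderOf g = 2})) fun q r e => ?_
  have e' : q.out * t * q.out⁻¹ = r.out * t * r.out⁻¹ := congrArg Subtype.val e
  rw [← q.out_eq', ← r.out_eq', QuotientGroup.eq, mem_centralizer_singleton_iff]
  calc q.out⁻¹ * r.out * t = q.out⁻¹ * (r.out * t * r.out⁻¹) * r.out := by group
    _ = q.out⁻¹ * (q.out * t * q.out⁻¹) * r.out := by rw [e']
    _ = t * (q.out⁻¹ * r.out) := by group

theorem fiveInv_cases {t : G} (ht : IsFiveInv t) :
    Nat.card (centralizer ({t} : Set G)) = 240 ∨ Nat.card (centralizer ({t} : Set G)) = 1440 ∨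
      Nat.card (centralizer ({t} : Set G)) = 8640 := by
  haveI : Fact (Nat.Prime 5) := ⟨by norm_num⟩
  obtain ⟨ht2, g, hg, hgt⟩ := ht
  set C := centralizer ({t} : Set G) with hC
  have hNC : normalizer (zpowers g : Set G) ≤ C := h.fiveInv_norm hg ht2 hgt
  have hgC : g ∈ C := hNC (le_normalizer (mem_zpowers g))
  have hCd : Nat.card C ∣ 95040 := h.card ▸ card_subgroup_dvd_card C
  have h11 : ¬ 11 ∣ Nat.card C := by
    haveI : Fact (Nat.Prime 11) := ⟨by norm_num⟩
    intro hd
    obtain ⟨x, hx⟩ := exists_prime_orderOf_dvd_card' (G := C) 11 hd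
    have hx' : orderOf (x : G) = 11 := by rw [Subgroup.orderOf_coe]; exact hx
    have := h.eq_one_of_commute_eleven hx' (commute_of_mem_centralizer x.2).symm
      (by rw [ht2]; norm_num)
    rw [this, orderOf_one] at ht2
    norm_num at ht2
  have h40 : 40 ∣ Nat.card C := h.norm_five hg ▸ card_dvd_of_le hNC
  obtain ⟨m, hm⟩ := h40
  have hm5 : ¬ 5 ∣ 8 * m := by
    intro hd
    have : 5 * 5 ∣ 95040 := (Nat.mul_dvd_mul_left 5 hd).trans (by
      rw [show 5 * (8 * m) = 40 * m by ring, ← hm]; exact hCd)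
    norm_num at this
  obtain ⟨P, hP⟩ := exists_sylow_eq (G := C) (m := 8 * m) (by rw [hm]; ring) hm5
    (g := (⟨g, hgC⟩ : C)) (by rw [Subgroup.orderOf_mk]; exact hg)
  have hnorm : (normalizer ((P : Subgroup C) : Set C)).map C.subtype =
      normalizer (zpowers g : Set G) := by
    rw [← hP]
    have hmem : ∀ y : C, y ∈ zpowers (⟨g, hgC⟩ : C) ↔ (y : G) ∈ zpowers g := fun y => by
      simp only [mem_zpowers_iff, Subtype.ext_iff, Subgroup.coe_zpow]
    ext x
    constructor
    · rintro ⟨y, hy, rfl⟩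
      refine mem_normalizer_iff.2 fun z => ?_
      constructor
      · intro hz
        exact (hmem _).1 ((mem_normalizer_iff.1 hy ⟨z, (zpowers_le.2 hgC) hz⟩).1 ((hmem _).2 hz))
      · intro hz
        have hzC : z ∈ C := by
          have := C.mul_mem (C.mul_mem (C.inv_mem y.2) ((zpowers_le.2 hgC) hz)) y.2
          simpa [mul_assoc] using this
        exact (hmem ⟨z, hzC⟩).1 ((mem_normalizer_iff.1 hy ⟨z, hzC⟩).2 ((hmem _).2 hz))
    · intro hx
      exact ⟨⟨x, hNC hx⟩, mem_normalizer_iff.2 fun z => by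
        rw [hmem, hmem]; exact mem_normalizer_iff.1 hx z, rfl⟩
  have hcard : Nat.card (normalizer ((P : Subgroup C) : Set C)) = 40 := by
    rw [← h.norm_five hg, ← hnorm,
      Nat.card_congr ((normalizer ((P : Subgroup C) : Set C)).equivMapOfInjective C.subtype
        C.subtype_injective).toEquiv]
  have hn := CfsgLib.SylowToolkit.card_normalizer_mul P
  rw [hcard, hm] at hn
  have hmod : m % 5 = 1 := Nat.eq_of_mul_eq_mul_left (by norm_num : 0 < 40) hn ▸
    CfsgLib.SylowToolkit.card_sylow_mod (p := 5) (G := C)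
  have hidx := Subgroup.card_mul_index C
  have hle := h.index_centralizer_le ht2
  rw [← hC] at hle
  rw [h.card, hm] at hidx
  have hm1 : m ≠ 1 := by rintro rfl; omega
  have hmd : m ∣ 2376 := Nat.dvd_of_mul_dvd_mul_left (by norm_num : 0 < 40) (by
    show 40 * m ∣ 40 * 2376
    rw [← hm]; exact hCd)
  have hm11 : ¬ 11 ∣ m := fun hd => h11 (hm ▸ hd.mul_left 40)
  have key : ∀ n ∈ (2376 : ℕ).divisors, n % 5 = 1 → ¬ 11 ∣ n → n = 1 ∨ n = 6 ∨ n = 36 ∨ n = 216 := by
    decide +kernel
  rcases key m (Nat.mem_divisors.2 ⟨hmd, by norm_num⟩) hmod hm11 with e | e | e | e <;> omega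

/-- A normal subgroup of order prime to eleven is trivial. -/
theorem eq_bot_of_normal {N : Subgroup G} [N.Normal] (h11 : ¬ 11 ∣ Nat.card N) : N = ⊥ := by
  haveI : Fact (Nat.Prime 11) := ⟨by norm_num⟩
  by_contra hbot
  obtain ⟨q, hq, hqd⟩ := Nat.exists_prime_and_dvd
    (show Nat.card N ≠ 1 from fun e => hbot (card_eq_one.1 e))
  haveI := Fact.mk hq
  obtain ⟨Q⟩ : Nonempty (Sylow q N) := inferInstance
  set Q' : Subgroup G := (Q : Subgroup N).map N.subtype with hQ'
  have hfr : normalizer (Q' : Set G) ⊔ N = ⊤ := Sylow.normalizer_sup_eq_top Q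
  have hind : 11 ∣ N.index := by
    have := Subgroup.card_mul_index N
    rw [h.card] at this
    exact ((Nat.prime_iff.1 (Fact.out : Nat.Prime 11)).dvd_or_dvd
      (this.symm ▸ (by norm_num : 11 ∣ 95040))).resolve_left h11
  rw [← relIndex_top_right, ← hfr, relIndex_sup_right] at hind
  obtain ⟨x, hx⟩ := exists_prime_orderOf_dvd_card' (G := normalizer (Q' : Set G)) 11
    (hind.trans (relIndex_dvd_card _ _))
  have hx' : orderOf (x : G) = 11 := by rw [Subgroup.orderOf_coe]; exact hx
  have hcardQ : Nat.card Q' = Nat.card (Q : Subgroup N) :=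
    Nat.card_congr ((Q : Subgroup N).equivMapOfInjective N.subtype N.subtype_injective).toEquiv.symm
  -- conjugation by `x` fixes only the identity of `Q'`
  let ψ : zpowers (x : G) →* Equiv.Perm Q' :=
    { toFun := fun a => (MulAut.conj (a : G)).toEquiv.subtypeEquiv fun y =>
        (mem_normalizer_iff.1 ((zpowers_le.2 x.2) a.2) y)
      map_one' := Equiv.ext fun g => Subtype.ext (by simp)
      map_mul' := fun a b => Equiv.ext fun g => Subtype.ext (by simp [mul_assoc]) }
  letI : MulAction (zpowers (x : G)) Q' := MulAction.compHom _ ψ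
  have hpg : IsPGroup 11 (zpowers (x : G)) :=
    IsPGroup.of_card (n := 1) (by rw [Nat.card_zpowers, hx', pow_one])
  have hmod := hpg.card_modEq_card_fixedPoints Q'
  haveI : Unique (MulAction.fixedPoints (zpowers (x : G)) Q') :=
    { default := ⟨1, fun a => Subtype.ext (show (a : G) * 1 * (a : G)⁻¹ = 1 by group)⟩
      uniq := fun y => Subtype.ext (Subtype.ext (by
        have e : (x : G) * (y.1 : G) * (x : G)⁻¹ = y.1 :=
          congrArg Subtype.val (y.2 ⟨(x : G), mem_zpowers _⟩)
        refine h.eq_one_of_commute_eleven hx' (mul_inv_eq_iff_eq_mul.1 e) ?_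
        obtain ⟨z, -, hz⟩ := y.1.2
        refine Nat.Coprime.coprime_dvd_left ?_ (((Fact.out : Nat.Prime 11).coprime_iff_not_dvd.2 h11).symm)
        rw [← hz, orderOf_injective N.subtype N.subtype_injective]
        exact _root_.orderOf_dvd_natCard z)) }
  rw [hcardQ, Nat.card_unique (α := MulAction.fixedPoints (zpowers (x : G)) Q')] at hmod
  have hne : Nat.card (Q : Subgroup N) ≠ 1 := fun e => Q.ne_bot_of_dvd_card hqd (card_eq_one.1 e)
  have hdvd : Nat.card (Q : Subgroup N) ∣ 95040 :=
    ((Q : Subgroup N).card_subgroup_dvd_card.trans N.card_subgroup_dvd_card).trans h.card.dvd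
  obtain ⟨k, hk⟩ := Q.isPGroup'.exists_card_eq
  have hk0 : k ≠ 0 := fun e => hne (by rw [hk, e, pow_zero])
  rw [hk] at hmod hdvd
  have hqd' : q ∣ 2 ^ 6 * 3 ^ 3 * 5 * 11 := (dvd_pow_self q hk0).trans hdvd
  have hq11 : q = 2 ∨ q = 3 ∨ q = 5 := by
    rcases hq.dvd_mul.1 hqd' with hd | hd
    · rcases hq.dvd_mul.1 hd with hd | hd
      · rcases hq.dvd_mul.1 hd with hd | hd
        · exact Or.inl ((Nat.prime_dvd_prime_iff_eq hq Nat.prime_two).1 (hq.dvd_of_dvd_pow hd))
        · exact Or.inr (Or.inl ((Nat.prime_dvd_prime_iff_eq hq Nat.prime_three).1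
            (hq.dvd_of_dvd_pow hd)))
      · exact Or.inr (Or.inr ((Nat.prime_dvd_prime_iff_eq hq Nat.prime_five).1 hd))
    · have e := (Nat.prime_dvd_prime_iff_eq hq (by norm_num)).1 hd
      exact absurd (e ▸ hqd) h11
  have hk6 : k ≤ 6 := by
    by_contra hk6
    have h2 : q ^ 7 ∣ 95040 := (pow_dvd_pow q (by omega)).trans hdvd
    rcases hq11 with rfl | rfl | rfl <;> norm_num at h2
  rcases hq11 with rfl | rfl | rfl <;> interval_cases k <;>
    first | omega | (norm_num [Nat.ModEq] at hmod; done) | norm_num at hdvd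

theorem isSimpleGroup : IsSimpleGroup G := by
  haveI : Fact (Nat.Prime 11) := ⟨by norm_num⟩
  haveI : Nontrivial G := Finite.one_lt_card_iff_nontrivial.1 (by rw [h.card]; norm_num)
  refine IsSimpleGroup.mk fun N hN => ?_
  by_cases h11 : 11 ∣ Nat.card N
  swap
  · exact Or.inl (h.eq_bot_of_normal h11)
  have hNd : Nat.card N ∣ 95040 := h.card ▸ card_subgroup_dvd_card N
  -- all elements of order eleven lie in `N`
  obtain ⟨y, hy⟩ := exists_prime_orderOf_dvd_card' (G := N) 11 h11
  have hall : ∀ g : G, orderOf g = 11 → g ∈ N := by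
    intro g hg
    obtain ⟨P, hP⟩ := exists_sylow_eq (m := 8640) (by rw [h.card]) (by norm_num) hg
    obtain ⟨Q, hQ⟩ := exists_sylow_eq (m := 8640) (by rw [h.card]) (by norm_num)
      (show orderOf (y : G) = 11 by rw [Subgroup.orderOf_coe]; exact hy)
    obtain ⟨a, ha⟩ := MulAction.exists_smul_eq G Q P
    have hgP : g ∈ (P : Subgroup G) := hP ▸ mem_zpowers g
    rw [← ha, Sylow.coe_subgroup_smul] at hgP
    obtain ⟨z, hz, rfl⟩ := hgP
    exact hN.conj_mem z ((zpowers_le.2 y.2) (hQ ▸ hz)) a
  obtain ⟨k, hk⟩ := h11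
  have hk11 : ¬ 11 ∣ k := by
    intro hd
    have : 11 * 11 ∣ 95040 := (Nat.mul_dvd_mul_left 11 hd).trans (hk ▸ hNd)
    norm_num at this
  have hsyl : Nat.card (Sylow 11 N) = 1728 := by
    have e := CfsgLib.SylowToolkit.card_orderOf_eq_prime (G := N) (p := 11) hk hk11
    have e2 : Nat.card {z : N // orderOf z = 11} = cnt G 11 := Nat.card_congr
      { toFun := fun z => ⟨(z.1 : G), by rw [Subgroup.orderOf_coe]; exact z.2⟩
        invFun := fun z => ⟨⟨z.1, hall z.1 z.2⟩, by rw [Subgroup.orderOf_mk]; exact z.2⟩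
        left_inv := fun z => rfl
        right_inv := fun z => rfl }
    rw [e2, h.cnt_eleven] at e
    omega
  have h1728 : 1728 ∣ k := hsyl ▸ CfsgLib.SylowToolkit.card_sylow_dvd (G := N) (p := 11) (k := 1)
    (by rw [hk, pow_one]) hk11
  have hk' : k ∣ 8640 := Nat.dvd_of_mul_dvd_mul_left (by norm_num : 0 < 11) (by
    show 11 * k ∣ 11 * 8640
    rw [← hk]; exact hNd)
  obtain ⟨j, rfl⟩ := h1728
  have hj : j ∣ 5 := Nat.dvd_of_mul_dvd_mul_left (by norm_num : 0 < 1728) (by
    show 1728 * j ∣ 1728 * 5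
    exact hk')
  rcases (Nat.dvd_prime Nat.prime_five).1 hj with rfl | rfl
  swap
  · exact Or.inr (eq_top_of_card_eq N (by rw [hk, h.card]))
  exfalso
  -- order 19008: Burnside transfer gives a normal subgroup of order 1728
  obtain ⟨P⟩ : Nonempty (Sylow 11 N) := inferInstance
  have hPc : Nat.card (P : Subgroup N) = 11 := by
    simpa using CfsgLib.SylowToolkit.card_sylow_subgroup_eq (k := 1) (m := 1728)
      (by rw [hk]; norm_num) (by norm_num) P
  have hNP : Nat.card (normalizer ((P : Subgroup N) : Set N)) = 11 := by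
    have := CfsgLib.SylowToolkit.card_normalizer_mul P
    rw [hsyl, hk] at this
    omega
  have hNeq : (P : Subgroup N) = normalizer ((P : Subgroup N) : Set N) :=
    eq_of_le_of_card_ge le_normalizer (by rw [hNP, hPc])
  haveI : IsCyclic (P : Subgroup N) := isCyclic_of_prime_card hPc
  have hle : normalizer ((P : Subgroup N) : Set N) ≤ centralizer ((P : Subgroup N) : Set N) := by
    rw [← hNeq]
    intro a ha
    refine mem_centralizer_iff.2 fun b hb => ?_
    haveI := IsCyclic.commGroup (α := (P : Subgroup N))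
    exact congrArg Subtype.val (IsCyclic.isMulCommutative.is_comm.comm
      (⟨b, hb⟩ : (P : Subgroup N)) ⟨a, ha⟩)
  set τ := MonoidHom.transferSylow P hle with hτ
  have hcK : Nat.card τ.ker = 1728 := by
    have := (MonoidHom.ker_transferSylow_isComplement' P hle).card_mul
    simp only [hPc, hk, ← hτ] at this
    omega
  haveI : (τ.ker.map N.subtype).Normal := ⟨by
    rintro _ ⟨z, hz, rfl⟩ a
    have hmem : a * (z : G) * a⁻¹ ∈ N := hN.conj_mem _ z.2 a
    refine ⟨⟨_, hmem⟩, MonoidHom.mem_ker.2 ?_, rfl⟩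
    have h1 : orderOf (τ ⟨_, hmem⟩) ∣ 1728 := by
      refine (orderOf_map_dvd τ _).trans ?_
      rw [Subgroup.orderOf_mk, show orderOf (a * (z : G) * a⁻¹) = orderOf (z : G) from
        orderOf_injective (MulAut.conj a).toMonoidHom (MulAut.conj a).injective _,
        Subgroup.orderOf_coe, ← hcK]
      exact Subgroup.orderOf_dvd_natCard (s := τ.ker) hz
    have h2 : orderOf (τ ⟨_, hmem⟩) ∣ 11 :=
      (_root_.orderOf_dvd_natCard (τ ⟨_, hmem⟩)).trans hPc.dvd
    exact orderOf_eq_one_iff.1 (Nat.eq_one_of_dvd_coprimes (by norm_num) h1 h2)⟩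
  have hc : Nat.card (τ.ker.map N.subtype) = 1728 := by
    rw [Nat.card_congr (τ.ker.equivMapOfInjective N.subtype N.subtype_injective).toEquiv.symm, hcK]
  have := h.eq_bot_of_normal (N := τ.ker.map N.subtype) (by rw [hc]; norm_num)
  rw [this, card_bot] at hc
  norm_num at hc

theorem notComm : ¬ IsMulCommutative G :=
  haveI := h.isSimpleGroup
  CfsgLib.SylowToolkit.not_isMulCommutative_of_not_prime (by rw [h.card]; norm_num)

theorem exists_fiveInv : ∃ t : G, IsFiveInv t := by
  haveI : Fact (Nat.Prime 5) := ⟨by norm_num⟩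
  obtain ⟨g, hg⟩ := exists_prime_orderOf_dvd_card' (G := G) 5 (by rw [h.card]; norm_num)
  obtain ⟨t, ht, hgt⟩ := h.exists_invol_commute hg
  exact ⟨t, ht, g, hg, hgt⟩

/-- The facts read off from the counts. -/
theorem setup : Setup G where
  hyp := h
  simple := h.isSimpleGroup
  notComm := h.notComm
  cnt_two := h.cnt_two
  cnt_three := h.cnt_three
  cent_eleven _ hg := h.cent_eleven hg
  cent_five _ hg := h.cent_five hg
  norm_five _ hg := h.norm_five hg
  fiveInv_unique _ _ _ hg ht hv h1 h2 := h.invol_unique hg ht hv h1 h2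
  exists_fiveInv := h.exists_fiveInv
  fiveInv_conj _ _ ht hv := h.fiveInv_conj ht hv
  fiveInv_norm _ _ hg ht hgt := h.fiveInv_norm hg ht hgt
  fiveInv_cases _ ht := h.fiveInv_cases ht

end CountHyp

end CfsgLib.M12Count
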