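import Cfsg.Agent.M12Count.Basic
import Cfsg.Agent.Constrained.Basic

/-!
A bound on the number of involutions of a group with a central element of order three, in which
every involution has a centraliser of order twelve.

This is applied to the centraliser of an element of order three of a group with the counts of
`M₁₂`.
-/

set_option autoImplicit false
set_option linter.style.haveILetI false

namespace CfsgLib.M12Count

open Subgroup

variable {D : Type*} [Group D] [Finite D] {y : D}

theorem normal_zpowers_central (hyc : ∀ d : D, Commute d y) : (zpowers y).Normal := by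
  refine ⟨fun n hn d => ?_⟩
  obtain ⟨k, rfl⟩ := mem_zpowers_iff.mp hn
  rw [((hyc d).zpow_right k).eq, mul_inv_cancel_right]
  exact zpow_mem (mem_zpowers y) k

/-- A normal `3`-subgroup which is abelian modulo `⟨y⟩` lies in `⟨y⟩`, as the three involutions of
a four-group have no fixed point on it outside `⟨y⟩`. -/
theorem normal_le_zpowers {R : Subgroup D} [R.Normal] (hy : orderOf y = 3)
    (hyc : ∀ d : D, Commute d y) (hR : Nat.card R ∣ 27) (hyR : y ∈ R)
    (hcomm : ∀ r ∈ R, ∀ s ∈ R, r * s * r⁻¹ * s⁻¹ ∈ zpowers y) {a b : D} (ha : orderOf a = 2)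
    (hb : orderOf b = 2) (hne : a ≠ b) (hab : Commute a b)
    (hw : ∀ w : D, orderOf w = 2 → Nat.card (centralizer ({w} : Set D)) = 12) :
    R ≤ zpowers y := by
  have hYc : ∀ z ∈ zpowers y, ∀ d : D, Commute d z := fun z hz d => by
    obtain ⟨k, rfl⟩ := mem_zpowers_iff.mp hz
    exact (hyc d).zpow_right k
  have hinv : ∀ w : D, orderOf w = 2 → w⁻¹ = w := fun w h2 =>
    inv_eq_of_mul_eq_one_right (by rw [← pow_two, ← h2, pow_orderOf_eq_one])
  have hfix : ∀ w : D, orderOf w = 2 → ∀ r ∈ R, Commute w r → r ∈ zpowers y := by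
    intro w h2 r hr hwr
    have hle : zpowers y ≤ R ⊓ centralizer ({w} : Set D) :=
      zpowers_le.2 ⟨hyR, mem_centralizer_of_commute (hyc w)⟩
    have h1 : Nat.card (R ⊓ centralizer ({w} : Set D) : Subgroup D) ∣ 27 :=
      (card_dvd_of_le inf_le_left).trans hR
    have h3 : Nat.card (R ⊓ centralizer ({w} : Set D) : Subgroup D) ∣ 12 :=
      hw w h2 ▸ card_dvd_of_le inf_le_right
    rw [eq_of_le_of_card_ge hle (by
      rw [Nat.card_zpowers, hy]; exact Nat.le_of_dvd (by norm_num) (Nat.dvd_gcd h1 h3))]
    exact ⟨hr, mem_centralizer_of_commute hwr⟩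
  have key : ∀ w : D, orderOf w = 2 → ∀ r ∈ R, r * (w * r * w) ∈ zpowers y := by
    intro w h2 r hr
    have hww : w * w = 1 := by rw [← pow_two, ← h2, pow_orderOf_eq_one]
    have hr' : w * r * w ∈ R := by
      have := Normal.conj_mem inferInstance r hr w
      rwa [hinv w h2] at this
    obtain ⟨z, hz, hzq⟩ : ∃ z ∈ zpowers y, r * (w * r * w) = z * (w * r * w * r) :=
      ⟨_, hcomm r hr _ hr', by group⟩
    have hq : w * (r * (w * r * w)) * w = w * r * w * r := by
      simp [mul_assoc, hww]
    have hq' : w * (w * r * w * r) * w = r * (w * r * w) := by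
      calc w * (w * r * w * r) * w = (w * w) * r * w * r * w := by group
        _ = r * (w * r * w) := by rw [hww]; group
    have hzz : w * r * w * r = z * (r * (w * r * w)) := by
      conv_lhs => rw [← hq, hzq]
      calc w * (z * (w * r * w * r)) * w = (w * z) * (w * r * w * r) * w := by group
        _ = (z * w) * (w * r * w * r) * w := by rw [(hYc z hz w).eq]
        _ = z * (w * (w * r * w * r) * w) := by group
        _ = _ := by rw [hq']
    have hz1 : z = 1 := by
      have h4 : z * z = 1 := by
        have : r * (w * r * w) = z * z * (r * (w * r * w)) :=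
          hzq.trans ((congrArg (z * ·) hzz).trans (mul_assoc _ _ _).symm)
        exact right_eq_mul.mp this
      rw [← orderOf_eq_one_iff, ← Nat.dvd_one, show (1 : ℕ) = Nat.gcd 2 3 from rfl]
      refine Nat.dvd_gcd (orderOf_dvd_of_pow_eq_one (by rw [pow_two, h4])) ?_
      exact hy ▸ orderOf_dvd_of_mem_zpowers hz
    rw [hz1, one_mul] at hzz
    refine hfix w h2 _ (mul_mem hr hr') ?_
    show w * (r * (w * r * w)) = r * (w * r * w) * w
    conv_rhs => rw [← hzz, ← hq]
    simp [mul_assoc, hww]
  intro r hr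
  have haa : a * a = 1 := by rw [← pow_two, ← ha, pow_orderOf_eq_one]
  have hbb : b * b = 1 := by rw [← pow_two, ← hb, pow_orderOf_eq_one]
  have hab2 : orderOf (a * b) = 2 := by
    refine orderOf_eq_prime ?_ fun e => hne ?_
    · rw [hab.mul_pow, pow_two, pow_two, haa, hbb, one_mul]
    · rw [← hinv b hb]; exact mul_eq_one_iff_eq_inv.1 e
  set za := r * (a * r * a) with hza
  set zb := r * (b * r * b) with hzb
  have h1 : b * r * b = r⁻¹ * zb := by rw [hzb]; group
  have h2 : a * r⁻¹ * a = za⁻¹ * r := by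
    calc a * r⁻¹ * a = a⁻¹ * r⁻¹ * a⁻¹ := by rw [hinv a ha]
      _ = za⁻¹ * r := by rw [hza]; group
  have h3 : a * b * r * (a * b) = za⁻¹ * r * zb := by
    calc a * b * r * (a * b) = a * b * r * (b * a) := by rw [hab.eq]
      _ = a * (b * r * b) * a := by group
      _ = a * (r⁻¹ * zb) * a := by rw [h1]
      _ = a * r⁻¹ * (zb * a) := by group
      _ = a * r⁻¹ * (a * zb) := by rw [(hYc zb (key b hb r hr) a).eq]
      _ = a * r⁻¹ * a * zb := by group
      _ = za⁻¹ * r * zb := by rw [h2]
  have hrr : r * r ∈ zpowers y := by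
    have e : r * r = za * (r * (a * b * r * (a * b))) * zb⁻¹ := by
      rw [h3]
      calc r * r = za * (za⁻¹ * r) * r := by group
        _ = za * (r * za⁻¹) * r := by rw [(hYc za⁻¹ (inv_mem (key a ha r hr)) r).eq]
        _ = _ := by group
    rw [e]
    exact mul_mem (mul_mem (key a ha r hr) (key _ hab2 r hr)) (inv_mem (key b hb r hr))
  have h27 : r ^ 27 = 1 :=
    orderOf_dvd_iff_pow_eq_one.mp ((R.orderOf_dvd_natCard hr).trans hR)
  have : r = (r * r) ^ 14 := by
    rw [← pow_two, ← pow_mul, show 2 * 14 = 27 + 1 from rfl, pow_succ, h27, one_mul]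
  rw [this]
  exact pow_mem hrr 14

/-- A normal subgroup of order 9 or 27 containing `y` is impossible. -/
theorem no_normal_nine {R : Subgroup D} [R.Normal] (hy : orderOf y = 3)
    (hyc : ∀ d : D, Commute d y) (hR : Nat.card R = 9 ∨ Nat.card R = 27) (hyR : y ∈ R)
    {a b : D} (ha : orderOf a = 2) (hb : orderOf b = 2) (hne : a ≠ b) (hab : Commute a b)
    (hw : ∀ w : D, orderOf w = 2 → Nat.card (centralizer ({w} : Set D)) = 12) : False := by
  haveI : Fact (Nat.Prime 3) := ⟨Nat.prime_three⟩
  haveI := normal_zpowers_central hyc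
  have hd : Nat.card R ∣ 27 := by rcases hR with e | e <;> simp [e]
  have hcomm : ∀ r ∈ R, ∀ s ∈ R, r * s * r⁻¹ * s⁻¹ ∈ zpowers y := by
    intro r hr s hs
    rcases hR with e | e
    · have := IsPGroup.isMulCommutative_of_card_eq_prime_sq (p := 3) (G := R) (by rw [e]; rfl)
      have hc : r * s = s * r := congrArg Subtype.val (this.is_comm.comm ⟨r, hr⟩ ⟨s, hs⟩)
      rw [hc, mul_inv_cancel_right, mul_inv_cancel]
      exact one_mem _
    · have hcard : Nat.card (R.map (QuotientGroup.mk' (zpowers y))) = 9 := by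
        rw [← CfsgLib.Constrained.relIndex_eq_card_map]
        have h := relIndex_mul_relIndex ⊥ (zpowers y) R bot_le (zpowers_le.2 hyR)
        rw [relIndex_bot_left, relIndex_bot_left, Nat.card_zpowers, hy, e] at h
        omega
      have := IsPGroup.isMulCommutative_of_card_eq_prime_sq (p := 3) (by rw [hcard]; rfl)
      have hc : QuotientGroup.mk' (zpowers y) r * QuotientGroup.mk' (zpowers y) s =
          QuotientGroup.mk' (zpowers y) s * QuotientGroup.mk' (zpowers y) r :=
        congrArg Subtype.val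
          (this.is_comm.comm ⟨_, mem_map_of_mem _ hr⟩ ⟨_, mem_map_of_mem _ hs⟩)
      rw [← QuotientGroup.ker_mk' (zpowers y), MonoidHom.mem_ker, map_mul, map_mul, map_mul,
        map_inv, map_inv, hc, mul_inv_cancel_right, mul_inv_cancel]
  have hle := card_dvd_of_le (normal_le_zpowers hy hyc hd hyR hcomm ha hb hne hab hw)
  rw [Nat.card_zpowers, hy] at hle
  have := Nat.le_of_dvd (by norm_num) hle
  omega

theorem card_mul_three (hy : orderOf y = 3) (hyc : ∀ d : D, Commute d y) (U : Finset D)
    (hU : ∀ d ∈ U, d ^ 9 = 1) : U.card + Nat.card {w : D // orderOf w = 2} * 3 ≤ Nat.card D := by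
  classical
  haveI := Fintype.ofFinite D
  let f : {w : D // orderOf w = 2} × Fin 3 → D := fun p => (p.1 : D) * y ^ (p.2 : ℕ)
  have hcube : ∀ p, f p ^ 3 = p.1 := fun p => by
    show ((p.1 : D) * y ^ (p.2 : ℕ)) ^ 3 = _
    have h2 := pow_orderOf_eq_one (p.1 : D)
    rw [p.1.2] at h2
    have h3 := pow_orderOf_eq_one y
    rw [hy] at h3
    rw [((hyc _).pow_right _).mul_pow, ← pow_mul, mul_comm (p.2 : ℕ) 3, pow_mul, h3, one_pow,
      mul_one, pow_succ, h2, one_mul]
  have hf : Function.Injective f := by
    intro p q e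
    have e1 : p.1 = q.1 := Subtype.ext (by rw [← hcube p, ← hcube q, e])
    refine Prod.ext e1 (Fin.ext (pow_injOn_Iio_orderOf (x := y) ?_ ?_ ?_))
    · rw [hy]; exact p.2.isLt
    · rw [hy]; exact q.2.isLt
    · exact mul_left_cancel (e.trans (by show (q.1 : D) * _ = _; rw [e1]))
  have hdis : Disjoint U (Finset.univ.image f) := by
    refine Finset.disjoint_left.mpr fun d hd hd' => ?_
    obtain ⟨p, -, rfl⟩ := Finset.mem_image.mp hd'
    have h9 := hU _ hd
    rw [show 9 = 3 * 3 from rfl, pow_mul, hcube] at h9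
    have := orderOf_dvd_of_pow_eq_one h9
    rw [p.1.2] at this
    norm_num at this
  have := Finset.card_le_univ (U ∪ Finset.univ.image f)
  rw [Finset.card_union_of_disjoint hdis, Finset.card_image_of_injective _ hf, Finset.card_univ,
    Fintype.card_prod, Fintype.card_fin, ← Nat.card_eq_fintype_card, ← Nat.card_eq_fintype_card]
    at this
  exact this

/-- The order of the group is `12`, `36` or `108`. -/
theorem card_cases (hdvd : Nat.card D ∣ 95040) (h5 : ∀ d : D, orderOf d ≠ 5)
    (h11 : ∀ d : D, orderOf d ≠ 11) {a : D} (ha : orderOf a = 2)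
    (hw : ∀ w : D, orderOf w = 2 → Nat.card (centralizer ({w} : Set D)) = 12) :
    Nat.card D = 12 ∨ Nat.card D = 36 ∨ Nat.card D = 108 := by
  haveI : Fact (Nat.Prime 2) := ⟨Nat.prime_two⟩
  haveI : Fact (Nat.Prime 5) := ⟨by norm_num⟩
  haveI : Fact (Nat.Prime 11) := ⟨by norm_num⟩
  have n5 : ¬ 5 ∣ Nat.card D := fun hd =>
    (exists_prime_orderOf_dvd_card' 5 hd).elim fun d hd' => h5 d hd'
  have n11 : ¬ 11 ∣ Nat.card D := fun hd =>
    (exists_prime_orderOf_dvd_card' 11 hd).elim fun d hd' => h11 d hd'
  have n8 : ¬ 2 ^ 3 ∣ Nat.card D := by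
    intro hd
    obtain ⟨P, hP⟩ := Sylow.exists_subgroup_card_pow_prime 2 hd
    haveI : Nontrivial P := Finite.one_lt_card_iff_nontrivial.mp (by rw [hP]; norm_num)
    haveI := (IsPGroup.of_card hP).center_nontrivial
    obtain ⟨k, hk, hk'⟩ := ((IsPGroup.of_card hP).to_subgroup (center P)).nontrivial_iff_card.mp
      inferInstance
    obtain ⟨w, hw2⟩ := exists_prime_orderOf_dvd_card' (G := center P) 2
      (by rw [hk']; exact dvd_pow_self 2 hk.ne')
    have hle : P ≤ centralizer ({((w : P) : D)} : Set D) := fun x hx =>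
      mem_centralizer_singleton_iff.2 (congrArg Subtype.val (mem_center_iff.1 w.2 ⟨x, hx⟩))
    have := card_dvd_of_le hle
    rw [hP, hw _ (by rw [Subgroup.orderOf_coe, Subgroup.orderOf_coe, hw2])] at this
    norm_num at this
  have h12 : 12 ∣ Nat.card D := hw a ha ▸ card_subgroup_dvd_card _
  obtain ⟨k, hk⟩ := h12
  have hk' : k ∣ 7920 := by
    have := hdvd; rw [hk, show (95040 : ℕ) = 12 * 7920 from rfl] at this
    exact (mul_dvd_mul_iff_left (by norm_num)).mp this
  have h2k : ¬ 2 ∣ k := fun ⟨m, e⟩ => n8 ⟨3 * m, by rw [hk, e]; ring⟩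
  have h5k : ¬ 5 ∣ k := fun hd => n5 (hk ▸ dvd_mul_of_dvd_right hd 12)
  have h11k : ¬ 11 ∣ k := fun hd => n11 (hk ▸ dvd_mul_of_dvd_right hd 12)
  have hco : Nat.Coprime k 880 := by
    rw [show (880 : ℕ) = 2 ^ 4 * 5 * 11 from rfl]
    exact Nat.Coprime.mul_right (Nat.Coprime.mul_right
      (((Nat.Prime.coprime_iff_not_dvd Nat.prime_two).mpr h2k).symm.pow_right 4)
      ((Nat.Prime.coprime_iff_not_dvd (by norm_num)).mpr h5k).symm)
      ((Nat.Prime.coprime_iff_not_dvd (by norm_num)).mpr h11k).symm
  have h9 : k ∣ 9 := hco.dvd_of_dvd_mul_left (by simpa using hk')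
  have : k ∈ Nat.divisors 9 := Nat.mem_divisors.mpr ⟨h9, by norm_num⟩
  rw [show Nat.divisors 9 = {1, 3, 9} from by decide] at this
  simp only [Finset.mem_insert, Finset.mem_singleton] at this
  omega

theorem card_invol_le_three (hy : orderOf y = 3) (hyc : ∀ d : D, Commute d y)
    (hdvd : Nat.card D ∣ 95040) (h5 : ∀ d : D, orderOf d ≠ 5) (h11 : ∀ d : D, orderOf d ≠ 11)
    {a b : D} (ha : orderOf a = 2) (hb : orderOf b = 2) (hne : a ≠ b) (hab : Commute a b)
    (hw : ∀ w : D, orderOf w = 2 → Nat.card (centralizer ({w} : Set D)) = 12) :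
    Nat.card {w : D // orderOf w = 2} ≤ 3 := by
  classical
  haveI : Fact (Nat.Prime 3) := ⟨Nat.prime_three⟩
  haveI := Fintype.ofFinite D
  haveI := normal_zpowers_central hyc
  have hY3 : Nat.card (zpowers y) = 3 := by rw [Nat.card_zpowers, hy]
  have hY9 : ∀ d ∈ zpowers y, d ^ 9 = 1 := fun d hd => by
    obtain ⟨k, rfl⟩ := mem_zpowers_iff.mp hd
    rw [← zpow_natCast, ← zpow_mul, mul_comm, zpow_mul, zpow_natCast, show 9 = 3 * 3 from rfl,
      pow_mul, ← hy, pow_orderOf_eq_one, one_pow, one_zpow]
  have hYU : ((zpowers y : Set D).toFinset).card = 3 := by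
    rw [Set.toFinset_card, ← Nat.card_eq_fintype_card]; exact hY3
  rcases card_cases hdvd h5 h11 ha hw with h12 | hbig
  · have := card_mul_three hy hyc (zpowers y : Set D).toFinset fun d hd => hY9 d (by simpa using hd)
    rw [hYU, h12] at this
    omega
  · obtain ⟨e, m, hcard, hm, hm'⟩ : ∃ e m : ℕ, Nat.card D = 3 ^ e * m ∧ m = 4 ∧ (e = 2 ∨ e = 3) := by
      rcases hbig with h | h
      · exact ⟨2, 4, h, rfl, Or.inl rfl⟩
      · exact ⟨3, 4, h, rfl, Or.inr rfl⟩
    subst hm
    have hRcard : ∀ R : Sylow 3 D, Nat.card (R : Subgroup D) = 3 ^ e := fun R =>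
      CfsgLib.SylowToolkit.card_sylow_subgroup_eq hcard (by norm_num) R
    have hyR : ∀ R : Sylow 3 D, y ∈ (R : Subgroup D) := by
      intro R
      obtain ⟨P, hP⟩ := (IsPGroup.of_card (n := 1)
        (show Nat.card (zpowers y) = 3 ^ 1 by rw [hY3]; rfl)).exists_le_sylow
      obtain ⟨g, rfl⟩ := MulAction.exists_smul_eq D P R
      rw [Sylow.coe_subgroup_smul]
      exact ⟨y, hP (mem_zpowers y), by
        show g * y * g⁻¹ = y
        rw [(hyc g).eq, mul_inv_cancel_right]⟩
    obtain ⟨R₀⟩ : Nonempty (Sylow 3 D) := inferInstance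
    have hnonnormal : ∀ R : Sylow 3 D, ¬ (R : Subgroup D).Normal := by
      intro R hn
      refine no_normal_nine hy hyc ?_ (hyR R) ha hb hne hab hw
      rcases hm' with rfl | rfl
      · exact Or.inl (hRcard R)
      · exact Or.inr (hRcard R)
    have hn : Nat.card (Sylow 3 D) = 4 := by
      have hN := CfsgLib.SylowToolkit.card_normalizer_mul R₀
      have hdn : Nat.card (Sylow 3 D) ∣ 4 := by
        have hi : (R₀ : Subgroup D).index = 4 := by
          have := (R₀ : Subgroup D).card_mul_index
          rw [hRcard R₀, hcard] at this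
          exact Nat.eq_of_mul_eq_mul_left (by positivity) this
        exact hi ▸ R₀.card_dvd_index
      have hmod : Nat.card (Sylow 3 D) % 3 = 1 := card_sylow_modEq_one 3 D
      rcases (show Nat.card (Sylow 3 D) = 1 ∨ Nat.card (Sylow 3 D) = 4 by
        have := Nat.le_of_dvd (by norm_num) hdn
        omega) with h1 | h1
      · haveI := (Nat.card_eq_one_iff_unique.mp h1).1
        exact absurd (Sylow.normal_of_subsingleton R₀) (hnonnormal R₀)
      · exact h1
    rcases hm' with rfl | rfl
    · -- order 36: the four Sylow subgroups meet in `⟨y⟩`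
      have hinter : ∀ R R' : Sylow 3 D, R ≠ R' →
          (R : Subgroup D) ⊓ (R' : Subgroup D) = zpowers y := by
        intro R R' hRR
        have hle : zpowers y ≤ (R : Subgroup D) ⊓ (R' : Subgroup D) :=
          zpowers_le.2 ⟨hyR R, hyR R'⟩
        have hd : Nat.card ((R : Subgroup D) ⊓ (R' : Subgroup D) : Subgroup D) ∣ 3 ^ 2 :=
          hRcard R ▸ card_dvd_of_le inf_le_left
        obtain ⟨i, hi, he⟩ := (Nat.dvd_prime_pow Nat.prime_three).mp hd
        refine (eq_of_le_of_card_ge hle ?_).symm
        rw [he, hY3]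
        interval_cases i
        · norm_num
        · norm_num
        · exfalso
          refine hRR (Sylow.ext ?_)
          have e1 : (R : Subgroup D) ⊓ (R' : Subgroup D) = R :=
            eq_of_le_of_card_ge inf_le_left (by rw [he, hRcard R])
          exact eq_of_le_of_card_ge (e1 ▸ inf_le_right) (by rw [hRcard R, hRcard R'])
      haveI := Fintype.ofFinite (Sylow 3 D)
      let Y := (zpowers y : Set D).toFinset
      let S : Sylow 3 D → Finset D := fun R => ((R : Subgroup D) : Set D).toFinset \ Y
      have hS : ∀ R, (S R).card = 6 := fun R => by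
        rw [Finset.card_sdiff_of_subset (by
          intro d hd; simp only [Y, Set.mem_toFinset, SetLike.mem_coe] at hd ⊢
          exact zpowers_le.2 (hyR R) hd), hYU, Set.toFinset_card, ← Nat.card_eq_fintype_card]
        exact congrArg (· - 3) (hRcard R)
      have hpair : ((Finset.univ : Finset (Sylow 3 D)) : Set (Sylow 3 D)).PairwiseDisjoint S := by
        intro R _ R' _ hRR
        refine Finset.disjoint_left.mpr fun d hd hd' => ?_
        simp only [S, Y, Finset.mem_sdiff, Set.mem_toFinset, SetLike.mem_coe] at hd hd'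
        exact hd.2 (hinter R R' hRR ▸ ⟨hd.1, hd'.1⟩)
      have hdisY : Disjoint Y (Finset.univ.biUnion S) := by
        refine Finset.disjoint_left.mpr fun d hd hd' => ?_
        obtain ⟨R, -, hR⟩ := Finset.mem_biUnion.mp hd'
        exact (Finset.mem_sdiff.mp hR).2 hd
      have := card_mul_three hy hyc (Y ∪ Finset.univ.biUnion S) (by
        intro d hd
        rcases Finset.mem_union.mp hd with hd | hd
        · exact hY9 d (by simpa [Y] using hd)
        · obtain ⟨R, -, hR⟩ := Finset.mem_biUnion.mp hd
          have hdR : d ∈ (R : Subgroup D) := Set.mem_toFinset.mp (Finset.mem_sdiff.mp hR).1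
          have hdd := (R : Subgroup D).orderOf_dvd_natCard hdR
          rw [hRcard R] at hdd
          exact orderOf_dvd_iff_pow_eq_one.mp hdd)
      rw [Finset.card_union_of_disjoint hdisY, Finset.card_biUnion hpair, hYU, hcard,
        Finset.sum_congr rfl (fun R _ => hS R), Finset.sum_const, Finset.card_univ,
        ← Nat.card_eq_fintype_card, hn, smul_eq_mul] at this
      omega
    · -- order 108: the kernel of the action on the four Sylow subgroups is too big
      exfalso
      set f := MulAction.toPermHom D (Sylow 3 D) with hf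
      have hK := f.ker.card_mul_index
      have hi : f.ker.index ∣ 24 := by
        rw [index_ker]
        have := card_subgroup_dvd_card f.range
        rwa [Nat.card_perm, hn] at this
      have hyK : y ∈ f.ker := by
        refine MonoidHom.mem_ker.mpr (Equiv.ext fun R => ?_)
        show y • R = R
        exact Sylow.smul_eq_iff_mem_normalizer.mpr (le_normalizer (hyR R))
      have hKN : f.ker ≤ normalizer ((R₀ : Subgroup D) : Set D) := fun d hd => by
        refine Sylow.smul_eq_iff_mem_normalizer.mp ?_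
        exact Equiv.congr_fun (MonoidHom.mem_ker.mp hd) R₀
      have hN := CfsgLib.SylowToolkit.card_normalizer_mul R₀
      rw [hn, hcard] at hN
      have hN27 : Nat.card (normalizer ((R₀ : Subgroup D) : Set D)) = 27 := by
        norm_num at hN ⊢; omega
      have hKd := card_dvd_of_le hKN
      rw [hN27] at hKd
      rw [hcard] at hK
      refine no_normal_nine (R := f.ker) hy hyc ?_ hyK ha hb hne hab hw
      obtain ⟨i, hi', hKe⟩ := (Nat.dvd_prime_pow Nat.prime_three).mp
        (show Nat.card f.ker ∣ 3 ^ 3 by simpa using hKd)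
      have hle24 := Nat.le_of_dvd (by norm_num) hi
      rw [hKe] at hK ⊢
      interval_cases i <;> norm_num at hK ⊢ <;> omega

end CfsgLib.M12Count
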