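import Cfsg.Agent.M12Count.Pairs
import Cfsg.Agent.M12Count.InvolBound

/-!
The centraliser of the `2`-central involution: its `2`-core has order `32`, with quotient `S₃`, and
the centraliser of a Sylow `3`-subgroup in the core is generated by the involution.
-/

set_option autoImplicit false
set_option linter.style.haveILetI false

namespace CfsgLib.M12Count

open Subgroup

section Local

variable {H : Type*} [Group H] [Finite H]

theorem normal_le_sylow {p : ℕ} [Fact p.Prime] {N : Subgroup H} [N.Normal] (hN : IsPGroup p N)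
    (P : Sylow p H) : N ≤ P := by
  obtain ⟨Q, hQ⟩ := hN.exists_le_sylow
  obtain ⟨g, rfl⟩ := MulAction.exists_smul_eq H Q P
  intro x hx
  rw [Sylow.coe_subgroup_smul]
  refine ⟨g⁻¹ * x * g, hQ (by simpa using Normal.conj_mem (H := N) inferInstance x hx g⁻¹), ?_⟩
  show g * (g⁻¹ * x * g) * g⁻¹ = x
  group

/-- A group of order `192` has `2`-core of order `64`, or of order `32` with quotient `S₃`. -/
theorem core_cases (hH : Nat.card H = 192) :
    Nat.card (Cfsg.pCore 2 H) = 64 ∨
      (Nat.card (Cfsg.pCore 2 H) = 32 ∧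
        Nonempty ((H ⧸ Cfsg.pCore 2 H) ≃* Equiv.Perm (Fin 3))) := by
  haveI : Fact (Nat.Prime 2) := ⟨Nat.prime_two⟩
  have hP : ∀ P : Sylow 2 H, Nat.card (P : Subgroup H) = 64 := fun P =>
    CfsgLib.SylowToolkit.card_sylow_subgroup_eq (k := 6) (m := 3) (by rw [hH]; rfl) (by norm_num) P
  have hcore : ∀ P : Sylow 2 H, Cfsg.pCore 2 H ≤ P := fun P =>
    normal_le_sylow CfsgLib.Constrained.isPGroup_pCore P
  obtain ⟨P₀⟩ : Nonempty (Sylow 2 H) := inferInstance
  have hidx : (P₀ : Subgroup H).index = 3 := by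
    have := (P₀ : Subgroup H).card_mul_index
    rw [hP, hH] at this
    omega
  rcases (Nat.dvd_prime Nat.prime_three).mp (hidx ▸ P₀.card_dvd_index) with h1 | h3
  · left
    haveI := (Nat.card_eq_one_iff_unique.mp h1).1
    rw [le_antisymm (hcore P₀) (CfsgLib.Constrained.le_pCore (Sylow.normal_of_subsingleton P₀) P₀.2),
      hP]
  · right
    set f := MulAction.toPermHom H (Sylow 2 H) with hf
    have hN : Nat.card (normalizer ((P₀ : Subgroup H) : Set H)) = 64 := by
      have := CfsgLib.SylowToolkit.card_normalizer_mul P₀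
      rw [h3, hH] at this
      omega
    have hker : f.ker = Cfsg.pCore 2 H := by
      refine le_antisymm ?_ fun x hx => MonoidHom.mem_ker.mpr (Equiv.ext fun P => ?_)
      · refine CfsgLib.Constrained.le_pCore inferInstance (P₀.2.to_le ?_)
        have he : (P₀ : Subgroup H) = normalizer ((P₀ : Subgroup H) : Set H) :=
          eq_of_le_of_card_ge le_normalizer (by rw [hN, hP])
        intro x hx
        rw [he]
        exact Sylow.smul_eq_iff_mem_normalizer.mp (Equiv.congr_fun (MonoidHom.mem_ker.mp hx) P₀)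
      · exact Sylow.smul_eq_iff_mem_normalizer.mpr (le_normalizer (hcore P hx))
    have hr : Nat.card f.range ∣ 6 := by
      have := card_subgroup_dvd_card f.range
      rwa [Nat.card_perm, h3] at this
    have hm : Nat.card f.ker * Nat.card f.range = 192 := by
      rw [← index_ker, card_mul_index, hH]
    have hk : Nat.card f.ker ∣ 64 := hP P₀ ▸ card_dvd_of_le (hker.le.trans (hcore P₀))
    have hr6 : Nat.card f.range = 6 := by
      have hne : Nat.card f.ker ≠ 64 := fun e => by
        have he : f.ker = (P₀ : Subgroup H) :=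
          eq_of_le_of_card_ge (hker.le.trans (hcore P₀)) (by rw [e, hP])
        haveI : (P₀ : Subgroup H).Normal := he ▸ inferInstance
        rw [normalizer_eq_top_iff.mpr inferInstance, card_top, hH] at hN
        omega
      have : Nat.card f.range ∈ Nat.divisors 6 := Nat.mem_divisors.mpr ⟨hr, by norm_num⟩
      rw [show Nat.divisors 6 = {1, 2, 3, 6} from by decide] at this
      simp only [Finset.mem_insert, Finset.mem_singleton] at this
      rcases this with e | e | e | e <;> rw [e] at hm
      · have := Nat.le_of_dvd (by norm_num) hk; omega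
      · have := Nat.le_of_dvd (by norm_num) hk; omega
      · omega
      · exact e
    refine ⟨?_, ⟨?_⟩⟩
    · rw [← hker]; rw [hr6] at hm; omega
    · have hsurj : Function.Surjective f := MonoidHom.range_eq_top.mp (eq_of_le_of_card_ge le_top (by
        rw [card_top, Nat.card_perm, h3, hr6]; rfl))
      exact ((QuotientGroup.quotientMulEquivOfEq hker.symm).trans
        (QuotientGroup.quotientKerEquivOfSurjective f hsurj)).trans
        (Finite.equivFinOfCardEq h3).permCongrHom

/-- With sixteen Sylow `3`-subgroups, the `2`-core meets each of their normalisers in two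
elements. -/
theorem card_core_inf_normalizer (hH : Nat.card H = 192) (h16 : Nat.card (Sylow 3 H) = 16)
    (hQ : Nat.card (Cfsg.pCore 2 H) = 32) (e : (H ⧸ Cfsg.pCore 2 H) ≃* Equiv.Perm (Fin 3))
    (X : Sylow 3 H) :
    Nat.card (Cfsg.pCore 2 H ⊓ normalizer ((X : Subgroup H) : Set H) : Subgroup H) = 2 := by
  classical
  haveI : Fact (Nat.Prime 3) := ⟨Nat.prime_three⟩
  have hX : Nat.card (X : Subgroup H) = 3 := by
    simpa using CfsgLib.SylowToolkit.card_sylow_subgroup_eq (k := 1) (m := 64) (by rw [hH]; rfl)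
      (by norm_num) X
  have hN : Nat.card (normalizer ((X : Subgroup H) : Set H)) = 12 := by
    have := CfsgLib.SylowToolkit.card_normalizer_mul X
    rw [h16, hH] at this
    omega
  set N := normalizer ((X : Subgroup H) : Set H) with hNdef
  let φ : H →* Equiv.Perm (Fin 3) := e.toMonoidHom.comp (QuotientGroup.mk' _)
  have hφker : φ.ker = Cfsg.pCore 2 H := by
    ext x; simp [φ, MonoidHom.mem_ker]
  have hφs : Function.Surjective φ := e.surjective.comp (QuotientGroup.mk'_surjective _)
  let s : H →* ℤˣ := Equiv.Perm.sign.comp φ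
  have hXM : (X : Subgroup H) ≤ s.ker := fun x hx => by
    have h3 : x ^ 3 = 1 := orderOf_dvd_iff_pow_eq_one.mp (hX ▸ (X : Subgroup H).orderOf_dvd_natCard hx)
    have := congrArg s h3
    rw [map_pow, map_one] at this
    rcases Int.units_eq_one_or (s x) with h | h
    · exact h
    · rw [h] at this; exact absurd this (by decide)
  obtain ⟨n, hn, hns⟩ : ∃ n ∈ N, s n = -1 := by
    by_contra hne
    push Not at hne
    have hle : N ≤ s.ker := fun n hn => (Int.units_eq_one_or (s n)).resolve_right (hne n hn)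
    have htop : N ⊔ s.ker = ⊤ := Sylow.normalizer_sup_eq_top' X hXM
    rw [sup_of_le_right hle] at htop
    obtain ⟨g, hg⟩ := hφs (Equiv.swap 0 1)
    have hg1 : s g = 1 := htop.ge (mem_top g)
    simp only [s, MonoidHom.comp_apply, hg] at hg1
    rw [Equiv.Perm.sign_swap (by decide)] at hg1
    exact absurd hg1 (by decide)
  let ψ : N →* Equiv.Perm (Fin 3) := φ.comp N.subtype
  have hr6 : Nat.card ψ.range = 6 := by
    have hd : Nat.card ψ.range ∣ 6 := by
      have := card_subgroup_dvd_card ψ.range
      rwa [Nat.card_perm, Nat.card_fin] at this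
    have h2 : 2 ∣ Nat.card ψ.range := by
      rcases Nat.even_or_odd (orderOf (φ n)) with he | ho
      · exact he.two_dvd.trans (ψ.range.orderOf_dvd_natCard ⟨⟨n, hn⟩, rfl⟩)
      · have := congrArg Equiv.Perm.sign (pow_orderOf_eq_one (φ n))
        rw [map_pow, map_one, show Equiv.Perm.sign (φ n) = -1 from hns, ho.neg_one_pow] at this
        exact absurd this (by decide)
    have h3 : 3 ∣ Nat.card ψ.range := by
      obtain ⟨x, hx⟩ := exists_prime_orderOf_dvd_card' (G := (X : Subgroup H)) 3 (by rw [hX])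
      have hx' : orderOf (x : H) = 3 := by rw [Subgroup.orderOf_coe, hx]
      have hne : φ x ≠ 1 := fun h1 => by
        have hxQ : (x : H) ∈ Cfsg.pCore 2 H := hφker ▸ h1
        have := (Cfsg.pCore 2 H).orderOf_dvd_natCard hxQ
        rw [hx', hQ] at this
        norm_num at this
      have : orderOf (φ x) = 3 := by
        rcases (Nat.dvd_prime Nat.prime_three).mp (hx' ▸ orderOf_map_dvd φ (x : H)) with h | h
        · exact absurd (orderOf_eq_one_iff.mp h) hne
        · exact h
      have hd3 : orderOf (φ x) ∣ Nat.card ψ.range :=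
        ψ.range.orderOf_dvd_natCard ⟨⟨x, le_normalizer x.2⟩, rfl⟩
      rwa [this] at hd3
    exact Nat.dvd_antisymm hd (Nat.Coprime.mul_dvd_of_dvd_of_dvd (by norm_num) h2 h3)
  have hk : Nat.card ψ.ker = 2 := by
    have := ψ.ker.card_mul_index
    rw [index_ker, hr6, hN] at this
    omega
  have he : ψ.ker.map N.subtype = Cfsg.pCore 2 H ⊓ N := by
    ext x
    constructor
    · rintro ⟨y, hy, rfl⟩
      exact ⟨hφker ▸ (hy : φ (y : H) = 1), y.2⟩
    · rintro ⟨hx1, hx2⟩
      rw [SetLike.mem_coe, ← hφker] at hx1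
      exact ⟨⟨x, hx2⟩, hx1, rfl⟩
  rw [← he, CfsgLib.Constrained.card_map_of_injective _ (subtype_injective N), hk]

/-- If the `2`-core is a Sylow subgroup then the centraliser of an element of order three has
order twelve. -/
theorem card_centralizer_three (hH : Nat.card H = 192) (h16 : Nat.card (Sylow 3 H) = 16)
    (hT : Nat.card (Cfsg.pCore 2 H) = 64) {y : H} (hy : orderOf y = 3) :
    Nat.card (centralizer ({y} : Set H)) = 12 := by
  haveI : Fact (Nat.Prime 3) := ⟨Nat.prime_three⟩
  haveI : Fact (Nat.Prime 2) := ⟨Nat.prime_two⟩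
  haveI : (Cfsg.pCore 2 H).Normal := inferInstance
  obtain ⟨P, hP⟩ := exists_sylow_eq (m := 64) (by rw [hH]) (by norm_num) hy
  have hN : Nat.card (normalizer (zpowers y : Set H)) = 12 := by
    have := CfsgLib.SylowToolkit.card_normalizer_mul P
    rw [← hP, h16, hH] at this
    omega
  have hq : Nat.card (H ⧸ Cfsg.pCore 2 H) = 3 := by
    have := (Cfsg.pCore 2 H).card_mul_index
    rw [hT, hH] at this
    rw [index] at this
    omega
  haveI := isCyclic_of_prime_card hq
  suffices he : normalizer (zpowers y : Set H) = centralizer ({y} : Set H) by rw [← he, hN]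
  refine le_antisymm (fun n hn => ?_) (centralizer_le_normalizer_zpowers y)
  have h1 : n * y * n⁻¹ * y⁻¹ ∈ zpowers y :=
    mul_mem ((mem_normalizer_iff.mp hn y).mp (mem_zpowers y)) (inv_mem (mem_zpowers y))
  have h2 : n * y * n⁻¹ * y⁻¹ ∈ Cfsg.pCore 2 H := by
    rw [← QuotientGroup.ker_mk' (Cfsg.pCore 2 H), MonoidHom.mem_ker, map_mul, map_mul, map_mul,
      map_inv, map_inv]
    have hc := (IsCyclic.isMulCommutative (α := H ⧸ Cfsg.pCore 2 H)).is_comm.comm
      (QuotientGroup.mk' (Cfsg.pCore 2 H) n) (QuotientGroup.mk' (Cfsg.pCore 2 H) y)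
    rw [hc, mul_inv_cancel_right, mul_inv_cancel]
  have hd1 := hy ▸ orderOf_dvd_of_mem_zpowers h1
  have hd2 := hT ▸ (Cfsg.pCore 2 H).orderOf_dvd_natCard h2
  have h0 : n * y * n⁻¹ * y⁻¹ = 1 :=
    orderOf_eq_one_iff.mp (Nat.dvd_one.mp (Nat.dvd_gcd hd1 hd2))
  rw [mul_inv_eq_one, mul_inv_eq_iff_eq_mul] at h0
  exact mem_centralizer_singleton_iff.mpr h0

/-- The part of the `2`-core centralising an element of order three. -/
theorem card_core_inf_centralizer (hH : Nat.card H = 192) (h16 : Nat.card (Sylow 3 H) = 16)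
    (hT : Nat.card (Cfsg.pCore 2 H) = 64) {y : H} (hy : orderOf y = 3) :
    Nat.card (Cfsg.pCore 2 H ⊓ centralizer ({y} : Set H) : Subgroup H) = 4 := by
  set T := Cfsg.pCore 2 H
  set A := centralizer ({y} : Set H)
  have hi : T.index = 3 := by
    have := T.card_mul_index
    rw [hT, hH] at this
    omega
  have hm : Nat.card (T ⊓ A : Subgroup H) * T.relIndex A = 12 := by
    rw [← inf_relIndex_right, ← relIndex_bot_left, relIndex_mul_relIndex ⊥ _ A bot_le inf_le_right,
      relIndex_bot_left, card_centralizer_three hH h16 hT hy]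
  have hd : Nat.card (T ⊓ A : Subgroup H) ∣ 64 := hT ▸ card_dvd_of_le inf_le_left
  rcases (Nat.dvd_prime Nat.prime_three).mp (hi ▸ relIndex_dvd_index_of_normal T A)
    with e | e <;> rw [e] at hm
  · rw [mul_one] at hm; rw [hm] at hd; norm_num at hd
  · omega

theorem mem_core_of_order_four (hH : Nat.card H = 192) (hT : Nat.card (Cfsg.pCore 2 H) = 64)
    {v : H} (hv : orderOf v = 4) : v ∈ Cfsg.pCore 2 H := by
  have hq : Nat.card (H ⧸ Cfsg.pCore 2 H) = 3 := by
    have := (Cfsg.pCore 2 H).card_mul_index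
    rw [hT, hH] at this
    rw [index] at this
    omega
  rw [← QuotientGroup.ker_mk' (Cfsg.pCore 2 H), MonoidHom.mem_ker, ← orderOf_eq_one_iff]
  refine Nat.dvd_one.mp (Nat.dvd_gcd (hv ▸ orderOf_map_dvd _ v) ?_ : _ ∣ Nat.gcd 4 3)
  exact hq ▸ _root_.orderOf_dvd_natCard _

/-- An element of order four commuting with an element of order three squares to the central
involution. -/
theorem sq_eq_central (hH : Nat.card H = 192) (h16 : Nat.card (Sylow 3 H) = 16)
    (hT : Nat.card (Cfsg.pCore 2 H) = 64) {c : H} (hc : orderOf c = 2) (hcc : ∀ x : H, Commute x c)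
    {y v : H} (hy : orderOf y = 3) (hv : orderOf v = 4) (hvy : Commute v y) :
    c ∈ Cfsg.pCore 2 H ∧ v ^ 2 = c := by
  haveI : Fact (Nat.Prime 2) := ⟨Nat.prime_two⟩
  have hcT : c ∈ Cfsg.pCore 2 H := CfsgLib.Constrained.le_pCore (normal_zpowers_central hcc)
    (IsPGroup.of_card (n := 1) (show Nat.card (zpowers c) = 2 ^ 1 by
      rw [Nat.card_zpowers, hc]; rfl)) (mem_zpowers c)
  refine ⟨hcT, ?_⟩
  have he : zpowers v = Cfsg.pCore 2 H ⊓ centralizer ({y} : Set H) :=
    eq_of_le_of_card_ge (zpowers_le.2 ⟨mem_core_of_order_four hH hT hv,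
      mem_centralizer_of_commute hvy.symm⟩)
      (by rw [card_core_inf_centralizer hH h16 hT hy, Nat.card_zpowers, hv])
  refine involution_eq_of_mem_zpowers ?_ hc (pow_mem (mem_zpowers v) 2)
    (he ▸ ⟨hcT, mem_centralizer_of_commute (hcc y)⟩)
  rw [orderOf_pow' _ (by norm_num), hv]
  rfl

/-- The property of commuting with an element of order four is the same for all elements of order
three. -/
theorem exists_four_transfer (hH : Nat.card H = 192) {y y' : H} (hy : orderOf y = 3)
    (hy' : orderOf y' = 3) (h : ∃ v : H, orderOf v = 4 ∧ Commute v y) :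
    ∃ v : H, orderOf v = 4 ∧ Commute v y' := by
  haveI : Fact (Nat.Prime 3) := ⟨Nat.prime_three⟩
  obtain ⟨v, hv, hvy⟩ := h
  obtain ⟨P, hP⟩ := exists_sylow_eq (m := 64) (by rw [hH]) (by norm_num) hy
  obtain ⟨P', hP'⟩ := exists_sylow_eq (m := 64) (by rw [hH]) (by norm_num) hy'
  obtain ⟨g, hg⟩ := MulAction.exists_smul_eq H P P'
  have hmem : g * y * g⁻¹ ∈ zpowers y' := by
    rw [hP', ← hg, Sylow.coe_subgroup_smul]
    exact ⟨y, hP ▸ mem_zpowers y, rfl⟩
  have he : zpowers (g * y * g⁻¹) = zpowers y' := eq_of_le_of_card_ge (zpowers_le.2 hmem) (by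
    rw [Nat.card_zpowers, Nat.card_zpowers, hy',
      show orderOf (g * y * g⁻¹) = orderOf y from MulEquiv.orderOf_eq (MulAut.conj g) y, hy])
  obtain ⟨k, hk⟩ := mem_zpowers_iff.mp (he ▸ mem_zpowers y' : y' ∈ zpowers (g * y * g⁻¹))
  exact ⟨g * v * g⁻¹, (MulEquiv.orderOf_eq (MulAut.conj g) v).trans hv,
    hk ▸ (((Commute.conj_iff g).mpr hvy).zpow_right k)⟩

end Local

section Global

universe u

variable {G : Type u} [Group G]

theorem centralizer_card_eq (a x : G) (hx : x ∈ centralizer ({a} : Set G)) :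
    Nat.card (centralizer ({(⟨x, hx⟩ : centralizer ({a} : Set G))} :
      Set (centralizer ({a} : Set G)))) =
      Nat.card (centralizer ({a} : Set G) ⊓ centralizer ({x} : Set G) : Subgroup G) := by
  refine Nat.card_congr
    { toFun := fun z => ⟨z.1.1, z.1.2, mem_centralizer_singleton_iff.mpr
        (congrArg Subtype.val (mem_centralizer_singleton_iff.mp z.2))⟩
      invFun := fun z => ⟨⟨z.1, z.2.1⟩, mem_centralizer_singleton_iff.mpr
        (Subtype.ext (mem_centralizer_singleton_iff.mp z.2.2))⟩
      left_inv := fun _ => rfl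
      right_inv := fun _ => rfl }

theorem card_inf_centralizer_conj (g a b : G) :
    Nat.card (centralizer ({g * a * g⁻¹} : Set G) ⊓ centralizer ({g * b * g⁻¹} : Set G) :
      Subgroup G) =
      Nat.card (centralizer ({a} : Set G) ⊓ centralizer ({b} : Set G) : Subgroup G) := by
  symm
  refine Nat.card_congr ((MulAut.conj g).toEquiv.subtypeEquiv fun x => ?_)
  show x ∈ centralizer ({a} : Set G) ∧ x ∈ centralizer ({b} : Set G) ↔
    g * x * g⁻¹ ∈ centralizer ({g * a * g⁻¹} : Set G) ∧
      g * x * g⁻¹ ∈ centralizer ({g * b * g⁻¹} : Set G)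
  simp only [mem_centralizer_singleton_iff]
  exact and_congr (Commute.conj_iff g).symm (Commute.conj_iff g).symm

variable [Finite G]

theorem card_conjugatesOf_central (h : Setup G) {t c : G} (hl : LocalFacts t c) :
    Nat.card (conjugatesOf c) = 495 := by
  have := card_conjugatesOf_mul c
  rw [hl.card_c, h.hyp.card] at this
  omega

theorem card_three_in_cent {t c : G} (hl : LocalFacts t c) :
    Nat.card {y : centralizer ({c} : Set G) // orderOf y = 3} = 32 := by
  haveI : Fact (Nat.Prime 3) := ⟨Nat.prime_three⟩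
  rw [CfsgLib.SylowToolkit.card_orderOf_eq_prime (m := 64) (by rw [hl.card_c]) (by norm_num),
    hl.sylow_three]

/-- No element of order three in the centraliser commutes with elements of order four: there
would be too many elements of order twelve. -/
theorem not_all_cyclic (h : Setup G) {t c : G} (hl : LocalFacts t c)
    (hT : Nat.card (Cfsg.pCore 2 (centralizer ({c} : Set G))) = 64)
    (hall : ∀ y : centralizer ({c} : Set G), orderOf y = 3 →
      ∃ v, orderOf v = 4 ∧ Commute v y) : False := by
  classical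
  set H := centralizer ({c} : Set G)
  have hcH : c ∈ H := mem_centralizer_singleton_iff.mpr rfl
  let cc : H := ⟨c, hcH⟩
  have hcc : orderOf cc = 2 := by rw [Subgroup.orderOf_mk, hl.c_ord]
  have hcent : ∀ x : H, Commute x cc := fun x =>
    Subtype.ext (mem_centralizer_singleton_iff.mp x.2)
  choose g hg using fun d : conjugatesOf c => isConj_iff.mp d.2
  choose v hv hvy using fun y : {y : H // orderOf y = 3} => hall y y.2
  let w : {y : H // orderOf y = 3} × Bool → H := fun p =>
    p.1.1 * bif p.2 then v p.1 else (v p.1)⁻¹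
  have hw4 : ∀ p : {y : H // orderOf y = 3} × Bool,
      orderOf (bif p.2 then v p.1 else (v p.1)⁻¹) = 4 ∧
        Commute p.1.1 (bif p.2 then v p.1 else (v p.1)⁻¹) := by
    rintro ⟨y, _ | _⟩
    · exact ⟨(orderOf_inv _).trans (hv y), (hvy y).symm.inv_right⟩
    · exact ⟨hv y, (hvy y).symm⟩
  have hord : ∀ p, orderOf (w p) = 12 := fun p => by
    show orderOf (_ * _) = 12
    rw [(hw4 p).2.orderOf_mul_eq_mul_orderOf_of_coprime (by rw [p.1.2, (hw4 p).1]; rfl), p.1.2,
      (hw4 p).1]
  have hfour : ∀ p, w p ^ 4 = p.1.1 := fun p => by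
    show (_ * _) ^ 4 = _
    have h3 := pow_orderOf_eq_one p.1.1
    rw [p.1.2] at h3
    have h4 := pow_orderOf_eq_one (bif p.2 then v p.1 else (v p.1)⁻¹)
    rw [(hw4 p).1] at h4
    rw [(hw4 p).2.mul_pow, h4, mul_one, pow_succ, h3, one_mul]
  have hsix : ∀ p, w p ^ 6 = cc := fun p => by
    show (_ * _) ^ 6 = _
    have h3 := pow_orderOf_eq_one p.1.1
    rw [p.1.2] at h3
    have h2 := (sq_eq_central hl.card_c hl.sylow_three hT hcc hcent p.1.2 (hw4 p).1
      (hw4 p).2.symm).2
    rw [(hw4 p).2.mul_pow, show 6 = 3 * 2 from rfl, pow_mul p.1.1, h3, one_pow, one_mul,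
      mul_comm 3 2, pow_mul, h2, pow_succ, ← hcc, pow_orderOf_eq_one, one_mul]
  let F : conjugatesOf c × ({y : H // orderOf y = 3} × Bool) → {z : G // orderOf z = 12} :=
    fun q => ⟨g q.1 * (w q.2 : G) * (g q.1)⁻¹, by
      refine (MulEquiv.orderOf_eq (MulAut.conj (g q.1)) (w q.2 : G)).trans ?_
      rw [Subgroup.orderOf_coe, hord]⟩
  have hF : Function.Injective F := by
    rintro ⟨d, p⟩ ⟨d', p'⟩ e
    have e0 : g d * (w p : G) * (g d)⁻¹ = g d' * (w p' : G) * (g d')⁻¹ := congrArg Subtype.val e
    have ed : d = d' := by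
      apply Subtype.ext
      rw [← hg d, ← hg d', show c = ((w p : G)) ^ 6 from (congrArg Subtype.val (hsix p)).symm,
        ← conj_pow, e0, conj_pow,
        show ((w p' : G)) ^ 6 = c from congrArg Subtype.val (hsix p'),
        show ((w p : G)) ^ 6 = c from congrArg Subtype.val (hsix p)]
    subst ed
    have ew : w p = w p' := Subtype.ext (mul_left_cancel (mul_right_cancel e0))
    have ey : p.1 = p'.1 := Subtype.ext (by rw [← hfour p, ← hfour p', ew])
    obtain ⟨y, b⟩ := p
    obtain ⟨y', b'⟩ := p'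
    obtain rfl : y = y' := ey
    have eb : (bif b then v y else (v y)⁻¹) = bif b' then v y else (v y)⁻¹ := mul_left_cancel ew
    have hne : v y ≠ (v y)⁻¹ := fun e2 => by
      have : (v y) ^ 2 = 1 := by rw [pow_two]; nth_rw 2 [e2]; exact mul_inv_cancel _
      have := orderOf_dvd_of_pow_eq_one this
      rw [hv y] at this
      norm_num at this
    rcases b with _ | _ <;> rcases b' with _ | _
    · rfl
    · exact absurd eb.symm hne
    · exact absurd eb hne
    · rfl
  have hle := Nat.card_le_card_of_injective F hF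
  rw [Nat.card_prod, Nat.card_prod, card_conjugatesOf_central h hl, card_three_in_cent hl,
    Nat.card_eq_fintype_card (α := Bool), Fintype.card_bool] at hle
  have hne : cnt G 12 ≠ 0 := by rw [cnt]; omega
  have hmem : cnt G 12 ≤ 23760 :=
    (show ∀ n ∈ countValues, n ≤ 23760 by decide) _ (h.hyp.mem 12 hne)
  rw [cnt] at hmem
  omega

/-- In the four-group case an element of order three centralises at most three involutions. -/
theorem three_invol_bound (h : Setup G) {t c : G} (hl : LocalFacts t c)
    (hT : Nat.card (Cfsg.pCore 2 (centralizer ({c} : Set G))) = 64)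
    (hnone : ∀ y : centralizer ({c} : Set G), orderOf y = 3 →
      ¬ ∃ v, orderOf v = 4 ∧ Commute v y)
    {y : G} (hy : orderOf y = 3) (hyc : Commute y c) :
    Nat.card {w : G // orderOf w = 2 ∧ Commute w y} ≤ 3 := by
  classical
  set H := centralizer ({c} : Set G) with hH
  set D := centralizer ({y} : Set G) with hD
  have hyH : y ∈ H := mem_centralizer_singleton_iff.mpr hyc.eq
  let yy : H := ⟨y, hyH⟩
  have hyy : orderOf yy = 3 := by rw [Subgroup.orderOf_mk, hy]
  have hcH : c ∈ H := mem_centralizer_singleton_iff.mpr rfl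
  let cc : H := ⟨c, hcH⟩
  have hcc : orderOf cc = 2 := by rw [Subgroup.orderOf_mk, hl.c_ord]
  -- a second involution in the four-group
  obtain ⟨b, hb2, hbne, hby, hbc⟩ :
      ∃ b : G, orderOf b = 2 ∧ b ≠ c ∧ Commute b y ∧ Commute b c := by
    set V := Cfsg.pCore 2 H ⊓ centralizer ({yy} : Set H) with hV
    have hV4 := card_core_inf_centralizer hl.card_c hl.sylow_three hT hyy
    obtain ⟨x, hx, hxc⟩ : ∃ x ∈ V, x ∉ zpowers cc := by
      by_contra hno
      push Not at hno
      have := card_dvd_of_le (show V ≤ zpowers cc from hno)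
      rw [hV4, Nat.card_zpowers, hcc] at this
      norm_num at this
    have hxo : orderOf x ∣ 4 := hV4 ▸ V.orderOf_dvd_natCard hx
    have hxy : Commute x yy := mem_centralizer_singleton_iff.mp hx.2
    have hx2 : orderOf x = 2 := by
      obtain ⟨i, hi, he⟩ := (Nat.dvd_prime_pow Nat.prime_two).mp (show orderOf x ∣ 2 ^ 2 from hxo)
      interval_cases i
      · exact absurd (by rw [orderOf_eq_one_iff.mp he]; exact one_mem _) hxc
      · exact he
      · exact absurd ⟨x, he, hxy⟩ (hnone yy hyy)
    exact ⟨x, by rw [Subgroup.orderOf_coe, hx2], fun e => hxc (by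
      rw [show x = cc from Subtype.ext e]; exact mem_zpowers cc), congrArg Subtype.val hxy.eq,
      mem_centralizer_singleton_iff.mp x.2⟩
  have hcD : c ∈ D := mem_centralizer_singleton_iff.mpr hyc.symm.eq
  have hbD : b ∈ D := mem_centralizer_singleton_iff.mpr hby.eq
  have hyD : y ∈ D := mem_centralizer_singleton_iff.mpr rfl
  have hbound := card_invol_le_three (D := D) (y := ⟨y, hyD⟩) (by rw [Subgroup.orderOf_mk, hy])
    (fun d => Subtype.ext (mem_centralizer_singleton_iff.mp d.2))
    (h.hyp.card ▸ card_subgroup_dvd_card D) ?_ ?_ (a := ⟨c, hcD⟩) (b := ⟨b, hbD⟩)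
    (by rw [Subgroup.orderOf_mk, hl.c_ord]) (by rw [Subgroup.orderOf_mk, hb2])
    (fun e => hbne (congrArg Subtype.val e).symm) (Subtype.ext hbc.symm.eq) ?_
  · refine le_trans (le_of_eq (Nat.card_congr ?_)) hbound
    exact
      { toFun := fun w => ⟨⟨w.1, mem_centralizer_singleton_iff.mpr w.2.2.eq⟩, by
          rw [Subgroup.orderOf_mk, w.2.1]⟩
        invFun := fun w => ⟨w.1.1, by rw [Subgroup.orderOf_coe, w.2],
          mem_centralizer_singleton_iff.mp w.1.2⟩
        left_inv := fun _ => rfl
        right_inv := fun _ => rfl }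
  · intro d hd
    have hd' : orderOf (d : G) = 5 := by rw [Subgroup.orderOf_coe, hd]
    have hy' : y ∈ centralizer ({(d : G)} : Set G) :=
      mem_centralizer_singleton_iff.mpr (mem_centralizer_singleton_iff.mp d.2).symm
    have := (centralizer ({(d : G)} : Set G)).orderOf_dvd_natCard hy'
    rw [hy, h.cent_five _ hd'] at this
    norm_num at this
  · intro d hd
    have hd' : orderOf (d : G) = 11 := by rw [Subgroup.orderOf_coe, hd]
    have hy' : y ∈ centralizer ({(d : G)} : Set G) :=
      mem_centralizer_singleton_iff.mpr (mem_centralizer_singleton_iff.mp d.2).symm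
    have := (centralizer ({(d : G)} : Set G)).orderOf_dvd_natCard hy'
    rw [hy, h.cent_eleven _ hd'] at this
    norm_num at this
  · rintro ⟨w, hwD⟩ hw
    rw [Subgroup.orderOf_mk] at hw
    refine (centralizer_card_eq y w hwD).trans ?_
    rw [inf_comm]
    have hwy : Commute w y := mem_centralizer_singleton_iff.mp hwD
    rcases hl.classes w hw with hconj | hconj
    · obtain ⟨g, hg⟩ := isConj_iff.mp hconj
      rw [← card_inf_centralizer_conj g w y, hg]
      exact hl.three_t _ ((MulEquiv.orderOf_eq (MulAut.conj g) y).trans hy)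
        (hg ▸ ((Commute.conj_iff g).mpr hwy.symm))
    · obtain ⟨g, hg⟩ := isConj_iff.mp hconj
      have hy1 : g * y * g⁻¹ ∈ H := mem_centralizer_singleton_iff.mpr
        (hg ▸ ((Commute.conj_iff g).mpr hwy.symm)).eq
      rw [← card_inf_centralizer_conj g w y, hg, ← centralizer_card_eq c _ hy1]
      exact card_centralizer_three hl.card_c hl.sylow_three hT (by
        rw [Subgroup.orderOf_mk]
        exact (MulEquiv.orderOf_eq (MulAut.conj g) y).trans hy)

/-- Nor can all of them centralise four-groups: there would be too many of them. -/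
theorem not_all_four (h : Setup G) {t c : G} (hl : LocalFacts t c)
    (hT : Nat.card (Cfsg.pCore 2 (centralizer ({c} : Set G))) = 64)
    (hnone : ∀ y : centralizer ({c} : Set G), orderOf y = 3 →
      ¬ ∃ v, orderOf v = 4 ∧ Commute v y) : False := by
  classical
  set H := centralizer ({c} : Set G)
  choose g hg using fun d : conjugatesOf c => isConj_iff.mp d.2
  let S := Σ y : {y : G // orderOf y = 3}, {w : G // IsConj c w ∧ Commute w (y : G)}
  let F : conjugatesOf c × {y : H // orderOf y = 3} → S := fun p =>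
    ⟨⟨g p.1 * (p.2.1 : G) * (g p.1)⁻¹, (MulEquiv.orderOf_eq (MulAut.conj (g p.1)) (p.2.1 : G)).trans
      (by rw [Subgroup.orderOf_coe, p.2.2])⟩, ⟨p.1.1, p.1.2, by
        have := (Commute.conj_iff (g p.1)).mpr
          (show Commute c (p.2.1 : G) from (mem_centralizer_singleton_iff.mp p.2.1.2).symm)
        rwa [hg] at this⟩⟩
  have hF : Function.Injective F := by
    rintro ⟨d, y⟩ ⟨d', y'⟩ e
    have e1 : g d * (y.1 : G) * (g d)⁻¹ = g d' * (y'.1 : G) * (g d')⁻¹ :=
      congrArg (fun s : S => (s.1 : G)) e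
    obtain rfl : d = d' := Subtype.ext (congrArg (fun s : S => (s.2 : G)) e)
    exact congrArg (Prod.mk d) (Subtype.ext (Subtype.ext (mul_left_cancel (mul_right_cancel e1))))
  have hfib : ∀ y : {y : G // orderOf y = 3},
      Nat.card {w : G // IsConj c w ∧ Commute w (y : G)} ≤ 3 := by
    intro y
    rcases isEmpty_or_nonempty {w : G // IsConj c w ∧ Commute w (y : G)} with he | ⟨⟨w₀, hw₀, hwy⟩⟩
    · rw [Nat.card_of_isEmpty]; exact Nat.zero_le _
    · obtain ⟨a, ha⟩ := isConj_iff.mp hw₀.symm
      have hy' : orderOf (a * y.1 * a⁻¹) = 3 := (MulEquiv.orderOf_eq (MulAut.conj a) y.1).trans y.2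
      refine le_trans (Nat.card_le_card_of_injective
        (fun w : {w : G // IsConj c w ∧ Commute w (y : G)} =>
          (⟨a * w.1 * a⁻¹, ?_, (Commute.conj_iff a).mpr w.2.2⟩ :
            {w : G // orderOf w = 2 ∧ Commute w (a * y.1 * a⁻¹)})) ?_)
        (three_invol_bound h hl hT hnone hy' (ha ▸ ((Commute.conj_iff a).mpr hwy.symm)))
      · obtain ⟨b, hb⟩ := isConj_iff.mp w.2.1
        refine (MulEquiv.orderOf_eq (MulAut.conj a) w.1).trans ?_
        rw [← hb]
        exact (MulEquiv.orderOf_eq (MulAut.conj b) c).trans hl.c_ord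
      · intro w w' e
        exact Subtype.ext (mul_left_cancel (mul_right_cancel (congrArg Subtype.val e)))
  have hle := Nat.card_le_card_of_injective F hF
  rw [Nat.card_prod, card_conjugatesOf_central h hl, card_three_in_cent hl] at hle
  haveI := Fintype.ofFinite {y : G // orderOf y = 3}
  have hS : Nat.card S ≤ 4400 * 3 := by
    rw [Nat.card_sigma]
    refine (Finset.sum_le_card_nsmul _ _ 3 fun y _ => hfib y).trans (le_of_eq ?_)
    rw [Finset.card_univ, ← Nat.card_eq_fintype_card, smul_eq_mul]
    exact congrArg (· * 3) h.cnt_three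
  omega

theorem LocalFacts.core_facts (h : Setup G) {t c : G} (hl : LocalFacts t c) :
    Nat.card (Cfsg.pCore 2 (centralizer ({c} : Set G))) = 32 ∧
      Nonempty ((centralizer ({c} : Set G) ⧸ Cfsg.pCore 2 (centralizer ({c} : Set G))) ≃*
        Equiv.Perm (Fin 3)) ∧
      ∀ X : Sylow 3 (centralizer ({c} : Set G)),
        ((Cfsg.pCore 2 (centralizer ({c} : Set G))).map (centralizer ({c} : Set G)).subtype) ⊓
            centralizer (((X : Subgroup (centralizer ({c} : Set G))).map
              (centralizer ({c} : Set G)).subtype : Subgroup G) : Set G) =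
          zpowers c := by
  classical
  rcases core_cases hl.card_c with hT | ⟨hQ, ⟨e⟩⟩
  · exfalso
    by_cases hex : ∃ y : centralizer ({c} : Set G), orderOf y = 3 ∧
        ∃ v, orderOf v = 4 ∧ Commute v y
    · obtain ⟨y, hy, hv⟩ := hex
      exact not_all_cyclic h hl hT fun y' hy' => exists_four_transfer hl.card_c hy hy' hv
    · exact not_all_four h hl hT fun y hy hv => hex ⟨y, hy, hv⟩
  refine ⟨hQ, ⟨e⟩, ?_⟩
  haveI : Fact (Nat.Prime 2) := ⟨Nat.prime_two⟩
  set H := centralizer ({c} : Set G) with hH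
  intro X
  have hcH : c ∈ H := mem_centralizer_singleton_iff.mpr rfl
  let cc : H := ⟨c, hcH⟩
  have hcc : orderOf cc = 2 := by rw [Subgroup.orderOf_mk, hl.c_ord]
  have hcent : ∀ x : H, Commute x cc := fun x =>
    Subtype.ext (mem_centralizer_singleton_iff.mp x.2)
  have hcQ : cc ∈ Cfsg.pCore 2 H := CfsgLib.Constrained.le_pCore (normal_zpowers_central hcent)
    (IsPGroup.of_card (n := 1) (show Nat.card (zpowers cc) = 2 ^ 1 by
      rw [Nat.card_zpowers, hcc]; rfl)) (mem_zpowers cc)
  have hle : zpowers cc ≤ Cfsg.pCore 2 H ⊓ normalizer ((X : Subgroup H) : Set H) :=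
    zpowers_le.2 ⟨hcQ, centralizer_le_normalizer _
      (mem_centralizer_iff.2 fun x _ => (hcent x).eq)⟩
  have heq := eq_of_le_of_card_ge hle (by
    rw [card_core_inf_normalizer hl.card_c hl.sylow_three hQ e X, Nat.card_zpowers, hcc])
  refine le_antisymm ?_ (zpowers_le.2 ⟨⟨cc, hcQ, rfl⟩, ?_⟩)
  · rintro x ⟨⟨q, hq, rfl⟩, hx⟩
    have hqN : q ∈ normalizer ((X : Subgroup H) : Set H) := centralizer_le_normalizer _
      (mem_centralizer_iff.2 fun z hz => Subtype.ext
        (mem_centralizer_iff.1 hx _ ⟨z, hz, rfl⟩))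
    obtain ⟨k, hk⟩ := mem_zpowers_iff.mp (heq.ge ⟨hq, hqN⟩)
    exact mem_zpowers_iff.mpr ⟨k, by rw [← hk]; simp [cc]⟩
  · refine mem_centralizer_iff.2 fun z hz => ?_
    obtain ⟨z', -, rfl⟩ := hz
    exact mem_centralizer_singleton_iff.mp z'.2

end Global

end CfsgLib.M12Count
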