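import Cfsg.Prelude.Def_Spor_Mathieu
import Mathlib.GroupTheory.Sylow

/-!
Shared definitions for the recognition of `M₁₂` by its order and its element-order counts.
-/

set_option autoImplicit false

namespace CfsgLib.M12Count

universe u

/-- The number of elements of order `n`. -/
noncomputable def cnt (G : Type u) [Group G] (n : ℕ) : ℕ := Nat.card {g : G // orderOf g = n}

/-- The values taken by the element-order counts of `M₁₂`. -/
def countValues : Finset ℕ := {1, 891, 4400, 5940, 9504, 17280, 23760}

/-- The hypothesis on a group with the order and the set of counts of `M₁₂`. -/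
structure CountHyp (G : Type u) [Group G] : Prop where
  card : Nat.card G = 95040
  mem : ∀ n : ℕ, cnt G n ≠ 0 → cnt G n ∈ countValues
  has891 : ∃ n : ℕ, cnt G n = 891

/-- An involution centralising an element of order five. -/
def IsFiveInv {G : Type u} [Group G] (t : G) : Prop :=
  orderOf t = 2 ∧ ∃ g : G, orderOf g = 5 ∧ Commute g t

/-- The facts read off directly from the counts. -/
structure Setup (G : Type u) [Group G] : Prop where
  hyp : CountHyp G
  simple : IsSimpleGroup G
  notComm : ¬ IsMulCommutative G
  cnt_two : cnt G 2 = 891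
  cnt_three : cnt G 3 = 4400
  cent_eleven : ∀ g : G, orderOf g = 11 → Nat.card (Subgroup.centralizer ({g} : Set G)) = 11
  cent_five : ∀ g : G, orderOf g = 5 → Nat.card (Subgroup.centralizer ({g} : Set G)) = 10
  norm_five : ∀ g : G, orderOf g = 5 →
    Nat.card (Subgroup.normalizer (Subgroup.zpowers g : Set G)) = 40
  fiveInv_unique : ∀ g t v : G, orderOf g = 5 → orderOf t = 2 → orderOf v = 2 → Commute g t →
    Commute g v → t = v
  exists_fiveInv : ∃ t : G, IsFiveInv t
  fiveInv_conj : ∀ t v : G, IsFiveInv t → IsFiveInv v → IsConj t v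
  fiveInv_norm : ∀ g t : G, orderOf g = 5 → orderOf t = 2 → Commute g t →
    Subgroup.normalizer (Subgroup.zpowers g : Set G) ≤ Subgroup.centralizer ({t} : Set G)
  fiveInv_cases : ∀ t : G, IsFiveInv t →
    Nat.card (Subgroup.centralizer ({t} : Set G)) = 240 ∨
    Nat.card (Subgroup.centralizer ({t} : Set G)) = 1440 ∨
    Nat.card (Subgroup.centralizer ({t} : Set G)) = 8640

end CfsgLib.M12Count

namespace CfsgLib.M12Count

universe v

/-- The local facts obtained when the centraliser of `t` has order 240. -/
structure LocalFacts {G : Type v} [Group G] (t c : G) : Prop where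
  t_ord : orderOf t = 2
  c_ord : orderOf c = 2
  card_t : Nat.card (Subgroup.centralizer ({t} : Set G)) = 240
  card_c : Nat.card (Subgroup.centralizer ({c} : Set G)) = 192
  classes : ∀ w : G, orderOf w = 2 → IsConj w t ∨ IsConj w c
  not_conj : ¬ IsConj c t
  three_t : ∀ y : G, orderOf y = 3 → Commute y t →
    Nat.card (Subgroup.centralizer ({t} : Set G) ⊓ Subgroup.centralizer ({y} : Set G) : Subgroup G) = 12
  sylow_three : Nat.card (Sylow 3 (Subgroup.centralizer ({c} : Set G))) = 16
  two_part : ∃ (T : Subgroup G) (b : G), Nat.card T = 16 ∧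
    T ≤ Subgroup.centralizer ({t} : Set G) ⊓ Subgroup.centralizer ({c} : Set G) ∧
    t ∈ T ∧ c ∈ ⁅T, T⁆ ∧ b ∈ T ∧ b ≠ c ∧ IsConj b c ∧ IsConj (t * b) t

end CfsgLib.M12Count
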