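import Mathlib.GroupTheory.SpecificGroups.Alternating
import Mathlib.Tactic

/-!
Finite checks in the symmetric group of degree five.
-/

set_option autoImplicit false

namespace CfsgLib.M12Count.FiveData

open Equiv

abbrev S5 := Equiv.Perm (Fin 5)

/-- The chosen double transposition. -/
def z0 : S5 := Equiv.swap 0 1 * Equiv.swap 2 3

/-- A second double transposition commuting with `z0`. -/
def b0 : S5 := Equiv.swap 0 2 * Equiv.swap 1 3

/-- A double transposition: an even involution. -/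
def IsDouble (d : S5) : Prop := d * d = 1 ∧ d ≠ 1 ∧ Equiv.Perm.sign d = 1

instance (d : S5) : Decidable (IsDouble d) := by unfold IsDouble; infer_instance

theorem card_cent_z0 : (Finset.univ.filter fun x : S5 => x * z0 = z0 * x).card = 8 := by decide

theorem comm_cent_z0 : ∀ x : S5, x * z0 = z0 * x → ∀ y : S5, y * z0 = z0 * y →
    x * y * x⁻¹ * y⁻¹ = 1 ∨ x * y * x⁻¹ * y⁻¹ = z0 := by decide +kernel

theorem exists_comm_z0 : ∃ x y : S5, x * z0 = z0 * x ∧ y * z0 = z0 * y ∧
    x * y * x⁻¹ * y⁻¹ = z0 := by decide +kernel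

theorem center_cent_z0 : ∀ w : S5, w * z0 = z0 * w →
    (∀ x : S5, x * z0 = z0 * x → w * x = x * w) → w = 1 ∨ w = z0 := by decide +kernel

theorem b0_facts : IsDouble z0 ∧ IsDouble b0 ∧ b0 ≠ z0 ∧ b0 * z0 = z0 * b0 := by decide

theorem double_even_of_two {d : S5} : d * d = 1 → d ≠ 1 → Equiv.Perm.sign d = 1 → IsDouble d :=
  fun a b c => ⟨a, b, c⟩

theorem sq_double : ∀ d : S5, Equiv.Perm.sign d = 1 → (d * d) * (d * d) = 1 → d * d = 1 := by
  decide +kernel

theorem double_conj : ∀ d : S5, IsDouble d → ∃ h : S5, h * z0 * h⁻¹ = d := by decide +kernel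

theorem card_odd_pairs :
    195 ≤ (Finset.univ.filter fun p : {d : S5 // IsDouble d} × {d : S5 // IsDouble d} =>
      ((p.1.1 * p.2.1) ^ 15 : S5) = 1).card := by decide +kernel

theorem three_comm : ∀ σ : S5, σ * (σ * σ) = 1 → ∃ a : S5, Equiv.Perm.sign a = 1 ∧
    ∃ b : S5, Equiv.Perm.sign b = 1 ∧ a * b * a⁻¹ * b⁻¹ = σ := by decide +kernel

theorem card_cent_three : ∀ σ : S5, σ * (σ * σ) = 1 → σ ≠ 1 →
    (Finset.univ.filter fun x : S5 => x * σ = σ * x).card = 6 := by decide +kernel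

theorem card_three : (Finset.univ.filter fun σ : S5 => σ * (σ * σ) = 1 ∧ σ ≠ 1).card = 20 := by
  decide +kernel

end CfsgLib.M12Count.FiveData
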