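import Cfsg.Agent.M12Count.Pairs
import Cfsg.Agent.ZStar.IsolatedSylow
import Cfsg.Agent.Constrained.Basic
import Cfsg.Agent.Eq.Def_IsolatedElements
import Mathlib

/-!
The centraliser of an involution centralising an element of order five does not have order `8640`.

Its class would have eleven members, and the element of order five fixes only one of them.
-/

set_option autoImplicit false
set_option linter.style.haveILetI false

namespace CfsgLib.M12Count

universe u

variable {G : Type u} [Group G]

/-- The other members of the class of `t` commuting with `u`. -/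
def commPartners (t u : G) : Set G := {v | IsConj t v ∧ v ≠ u ∧ Commute u v}

theorem card_commPartners_conj (t u c : G) :
    Nat.card (commPartners t (c * u * c⁻¹)) = Nat.card (commPartners t u) := by
  symm
  refine Nat.card_congr ((MulAut.conj c).toEquiv.subtypeEquiv fun v => ?_)
  show IsConj t v ∧ v ≠ u ∧ Commute u v ↔
    IsConj t (c * v * c⁻¹) ∧ c * v * c⁻¹ ≠ c * u * c⁻¹ ∧ Commute (c * u * c⁻¹) (c * v * c⁻¹)
  rw [Commute.conj_iff, Ne, Ne, show c * v * c⁻¹ = c * u * c⁻¹ ↔ v = u from
    (mul_left_inj _).trans (mul_right_inj _)]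
  exact and_congr_left fun _ =>
    ⟨fun h => h.trans (isConj_iff.mpr ⟨c, rfl⟩), fun h => h.trans (isConj_iff.mpr ⟨c, rfl⟩).symm⟩

variable [Finite G]

/-- The element of order five permutes the partners of `t` without a fixed point. -/
theorem five_dvd_commPartners {g t : G} (hg : orderOf g = 5) (hgt : Commute g t)
    (huniq : ∀ v : G, IsConj t v → Commute g v → v = t) :
    5 ∣ Nat.card (commPartners t t) := by
  haveI : Fact (Nat.Prime 5) := ⟨by norm_num⟩
  have hcl : ∀ (a : Subgroup.zpowers g) (v : commPartners t t),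
      (a : G) * (v : G) * (a : G)⁻¹ ∈ commPartners t t := by
    rintro ⟨a, ha⟩ ⟨v, hv1, hv2, hv3⟩
    obtain ⟨k, rfl⟩ := Subgroup.mem_zpowers_iff.mp ha
    have hat : g ^ k * t * (g ^ k)⁻¹ = t := by
      rw [(hgt.zpow_left k).eq, mul_inv_cancel_right]
    refine ⟨hv1.trans (isConj_iff.mpr ⟨g ^ k, rfl⟩), fun e => hv2 ?_, ?_⟩
    · exact mul_left_cancel (mul_right_cancel (e.trans hat.symm))
    · have := (Commute.conj_iff (g ^ k)).mpr hv3; rwa [hat] at this
  letI : MulAction (Subgroup.zpowers g) (commPartners t t) :=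
    { smul := fun a v => ⟨(a : G) * (v : G) * (a : G)⁻¹, hcl a v⟩
      one_smul := fun v => Subtype.ext
        (show ((1 : Subgroup.zpowers g) : G) * (v : G) * ((1 : Subgroup.zpowers g) : G)⁻¹ = v by simp)
      mul_smul := fun a b v => Subtype.ext (show ((a * b : Subgroup.zpowers g) : G) * (v : G) *
        ((a * b : Subgroup.zpowers g) : G)⁻¹ = (a : G) * ((b : G) * (v : G) * (b : G)⁻¹) * (a : G)⁻¹ by
          simp [mul_assoc]) }
  have hp : IsPGroup 5 (Subgroup.zpowers g) :=
    IsPGroup.of_card (n := 1) (by rw [Nat.card_zpowers, hg, pow_one])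
  have h0 : IsEmpty (MulAction.fixedPoints (Subgroup.zpowers g) (commPartners t t)) := by
    refine ⟨fun ⟨⟨v, hv⟩, hfix⟩ => hv.2.1 (huniq v hv.1 ?_)⟩
    exact mul_inv_eq_iff_eq_mul.1
      (congrArg Subtype.val (hfix ⟨g, Subgroup.mem_zpowers g⟩))
  have h := hp.card_modEq_card_fixedPoints (commPartners t t)
  rw [Nat.card_of_isEmpty (α := MulAction.fixedPoints (Subgroup.zpowers g) (commPartners t t))] at h
  exact Nat.modEq_zero_iff_dvd.mp h

/-- An odd number of vertices of equal degree force an even degree. -/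
theorem two_dvd_class_mul_partners (t : G) :
    2 ∣ Nat.card (conjugatesOf t) * Nat.card (commPartners t t) := by
  classical
  haveI := Fintype.ofFinite (conjugatesOf t)
  let Γ : SimpleGraph (conjugatesOf t) :=
    { Adj := fun u v => (u : G) ≠ (v : G) ∧ Commute (u : G) (v : G)
      symm := ⟨fun u v h => ⟨h.1.symm, h.2.symm⟩⟩
      loopless := ⟨fun u h => h.1 rfl⟩ }
  have hdeg : ∀ u, Γ.degree u = Nat.card (commPartners t t) := by
    intro u
    obtain ⟨c, hc⟩ := isConj_iff.mp u.2
    rw [← card_commPartners_conj t t c, hc, ← SimpleGraph.card_neighborSet_eq_degree,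
      ← Nat.card_eq_fintype_card]
    exact Nat.card_congr
      { toFun := fun v => ⟨v.1.1, v.1.2, fun e => v.2.1 e.symm, v.2.2⟩
        invFun := fun v => ⟨⟨v.1, v.2.1⟩, fun e => v.2.2.1 e.symm, v.2.2.2⟩
        left_inv := fun v => rfl
        right_inv := fun v => rfl }
  have h := Γ.sum_degrees_eq_twice_card_edges
  simp only [hdeg, Finset.sum_const, Finset.card_univ, smul_eq_mul, ← Nat.card_eq_fintype_card] at h
  exact ⟨_, h⟩

theorem Setup.not_8640 (h : Setup G) {t : G} (ht : IsFiveInv t) :
    Nat.card (Subgroup.centralizer ({t} : Set G)) ≠ 8640 := by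
  classical
  intro h8
  obtain ⟨ht2, g, hg, hgt⟩ := ht
  haveI := h.simple
  have hK : Nat.card (conjugatesOf t) = 11 := by
    have := card_conjugatesOf_mul t
    rw [h8, h.hyp.card] at this
    omega
  have hne : t ≠ 1 := fun e => by rw [e, orderOf_one] at ht2; omega
  -- it is enough that `t` is central
  suffices hc : t ∈ Subgroup.center G by
    refine h.notComm ⟨⟨fun a b => ?_⟩⟩
    have htop : Subgroup.center G = ⊤ :=
      (Subgroup.Normal.eq_bot_or_eq_top inferInstance).resolve_left fun e => hne (by
        rw [e] at hc; exact Subgroup.mem_bot.mp hc)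
    exact (Subgroup.mem_center_iff.mp (htop ▸ Subgroup.mem_top b) a)
  have hord : ∀ v : G, IsConj t v → orderOf v = 2 := fun v hv => by
    obtain ⟨c, rfl⟩ := isConj_iff.mp hv
    exact (MulEquiv.orderOf_eq (MulAut.conj c) t).trans ht2
  have huniq : ∀ v : G, IsConj t v → Commute g v → v = t := fun v hv hgv =>
    (h.fiveInv_unique g t v hg ht2 (hord v hv) hgt hgv).symm
  have hd5 := five_dvd_commPartners hg hgt huniq
  have hd2 := two_dvd_class_mul_partners t
  rw [hK] at hd2
  have hsub : commPartners t t ⊆ conjugatesOf t \ {t} := fun v hv => ⟨hv.1, hv.2.1⟩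
  have h10 : (conjugatesOf t \ {t}).ncard = 10 := by
    have hK' : (conjugatesOf t).ncard = 11 := by rwa [← Nat.card_coe_set_eq]
    rw [Set.ncard_sdiff_singleton_of_mem (show t ∈ conjugatesOf t from IsConj.refl t), hK']
  have hle : Nat.card (commPartners t t) ≤ 10 := by
    rw [Nat.card_coe_set_eq, ← h10]
    exact Set.ncard_le_ncard hsub (Set.toFinite _)
  obtain ⟨m, hm⟩ := hd5
  rcases (show Nat.card (commPartners t t) = 0 ∨ Nat.card (commPartners t t) = 10 by omega) with
    hd | hd
  · -- `t` commutes with no other conjugate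
    have hiso : Cfsg.IsIsolatedInvolution t := ⟨ht2, fun c hc => by
      by_contra hct
      haveI : Nonempty (commPartners t t) := ⟨⟨_, isConj_iff.mpr ⟨c, rfl⟩, hct, hc⟩⟩
      exact (Nat.card_pos (α := commPartners t t)).ne' hd⟩
    have hbot : Cfsg.pPrimeCore 2 G = ⊥ := by
      haveI : Fact (Nat.Prime 2) := ⟨Nat.prime_two⟩
      refine (Subgroup.Normal.eq_bot_or_eq_top inferInstance).resolve_right fun e => ?_
      have h2 := CfsgLib.Constrained.pPrimeCore_not_dvd (p := 2) (G := G)
      rw [e, Subgroup.card_top, h.hyp.card] at h2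
      exact h2 (by norm_num)
    refine Subgroup.mem_center_iff.mpr fun x => ?_
    have := CfsgLib.ZStar.inZStar_of_isolatedInvolution hiso x
    rw [hbot, Subgroup.mem_bot, mul_inv_eq_one, mul_inv_eq_iff_eq_mul] at this
    exact this
  · -- all conjugates commute
    have hall : commPartners t t = conjugatesOf t \ {t} :=
      Set.eq_of_subset_of_ncard_le hsub (by rw [h10, ← Nat.card_coe_set_eq, hd]) (Set.toFinite _)
    have hcom : ∀ u v : G, IsConj t u → IsConj t v → Commute u v := by
      intro u v hu hv
      obtain ⟨c, rfl⟩ := isConj_iff.mp hu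
      have hw : IsConj t (c⁻¹ * v * c) := hv.trans (isConj_iff.mpr ⟨c⁻¹, by rw [inv_inv]⟩)
      have htw : Commute t (c⁻¹ * v * c) := by
        by_cases e : c⁻¹ * v * c = t
        · rw [e]
        · have : c⁻¹ * v * c ∈ conjugatesOf t \ {t} := ⟨hw, e⟩
          rw [← hall] at this
          exact this.2.2
      have := (Commute.conj_iff c).mpr htw
      rwa [show c * (c⁻¹ * v * c) * c⁻¹ = v by group] at this
    have htop : Subgroup.normalClosure ({t} : Set G) = ⊤ :=
      (Subgroup.Normal.eq_bot_or_eq_top inferInstance).resolve_left fun e => hne (by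
        have : t ∈ Subgroup.normalClosure ({t} : Set G) :=
          Subgroup.subset_normalClosure (Set.mem_singleton t)
        rw [e] at this; exact Subgroup.mem_bot.mp this)
    have hle' : Subgroup.normalClosure ({t} : Set G) ≤ Subgroup.centralizer ({t} : Set G) := by
      rw [Subgroup.normalClosure]
      refine (Subgroup.closure_le _).mpr fun v hv => ?_
      obtain ⟨w, hw, hwv⟩ := Group.mem_conjugatesOfSet_iff.mp hv
      rw [Set.mem_singleton_iff.mp hw] at hwv
      exact Subgroup.mem_centralizer_singleton_iff.mpr (hcom v t hwv (IsConj.refl t)).eq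
    refine Subgroup.mem_center_iff.mpr fun x => ?_
    exact Subgroup.mem_centralizer_singleton_iff.mp (hle' (htop ▸ Subgroup.mem_top x))

end CfsgLib.M12Count
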