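import Cfsg.Agent.M12Count.Pairs
import Mathlib.GroupTheory.Perm.Centralizer
import Mathlib.GroupTheory.SpecificGroups.Alternating
import Mathlib.GroupTheory.QuotientGroup.Basic

/-!
The centraliser of an involution commuting with an element of order five does not have order 1440.

The quotient of such a centraliser by the involution would be an extension of `A₆`, and the pairs
of involutions above a class of this quotient would be too many for the double count.
-/

set_option autoImplicit false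
set_option linter.style.haveILetI false

namespace CfsgLib.M12Count.Middle

open Equiv

/-- A product of transpositions of six points. -/
private def wd (l : List (Fin 6 × Fin 6)) : Perm (Fin 6) :=
  (l.map fun p => swap p.1 p.2).prod

private def pa : Perm (Fin 6) := wd [(0, 1), (2, 3)]

private def p1 : Perm (Fin 6) := wd [(0, 1)]

private def p3 : Perm (Fin 6) := wd [(0, 1), (2, 3), (4, 5)]

private def a0g : Fin 45 → List (Fin 6 × Fin 6) :=
  ![[], [(3, 4), (4, 5)], [(3, 5), (4, 5)], [(2, 3), (3, 4)], [(2, 3), (3, 5)], [(2, 4), (3,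
    5)], [(1, 2), (4, 5)], [(1, 2), (3, 4)], [(1, 2), (3, 5)], [(1, 2), (2, 4)], [(1, 2), (2,
    5)], [(1, 2), (2, 4), (3, 5), (4, 5)], [(1, 3), (2, 3)], [(1, 3), (2, 4)], [(1, 3), (2, 5)],
    [(1, 3), (3, 4)], [(1, 3), (3, 5)], [(1, 3), (2, 4), (3, 5), (4, 5)], [(1, 4), (3, 4)], [(1,
    4), (2, 4)], [(1, 4), (2, 4), (3, 5), (4, 5)], [(1, 4), (4, 5)], [(1, 4), (3, 5)], [(1, 4),
    (2, 5)], [(1, 5), (3, 5)], [(1, 5), (2, 5)], [(1, 5), (2, 5), (3, 4), (4, 5)], [(1, 5), (4,
    5)], [(1, 5), (3, 4)], [(1, 5), (2, 4)], [(0, 2), (2, 4)], [(0, 2), (2, 5)], [(0, 1), (1,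
    2), (2, 4), (3, 5)], [(0, 3), (3, 4)], [(0, 3), (3, 5)], [(0, 1), (1, 3), (2, 4), (3, 5)],
    [(0, 1), (1, 4)], [(0, 4), (3, 5)], [(0, 4), (2, 5)], [(0, 1), (1, 5)], [(0, 5), (3, 4)],
    [(0, 5), (2, 4)], [(0, 4), (1, 5)], [(0, 2), (1, 4), (2, 3), (3, 5)], [(0, 2), (1, 5), (2,
    3), (3, 4)]]

private def a0h : Fin 20 → List (Fin 6 × Fin 6) :=
  ![[], [(3, 4), (4, 5)], [(3, 5), (4, 5)], [(2, 3), (3, 4)], [(2, 3), (3, 5)], [(1, 2), (3,
    4)], [(1, 2), (3, 5)], [(1, 2), (2, 4)], [(1, 2), (2, 5)], [(1, 3), (2, 4)], [(1, 3), (2,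
    5)], [(1, 3), (3, 4)], [(1, 3), (3, 5)], [(1, 4), (3, 4)], [(1, 4), (2, 4)], [(1, 4), (4,
    5)], [(1, 4), (3, 5)], [(1, 4), (2, 5)], [(1, 5), (3, 5)], [(1, 5), (2, 5)]]

private def t1g : Fin 15 → List (Fin 6 × Fin 6) :=
  ![[], [(1, 2)], [(1, 3)], [(1, 4)], [(1, 5)], [(0, 2)], [(0, 3)], [(0, 4)], [(0, 5)], [(0, 2),
    (1, 3)], [(0, 2), (1, 4)], [(0, 2), (1, 5)], [(0, 3), (1, 4)], [(0, 3), (1, 5)], [(0, 4),
    (1, 5)]]

private def t1h : Fin 5 → List (Fin 6 × Fin 6) :=
  ![[], [(1, 2)], [(1, 3)], [(1, 4)], [(1, 5)]]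

private def t3g : Fin 15 → List (Fin 6 × Fin 6) :=
  ![[], [(3, 4)], [(3, 5)], [(1, 2)], [(1, 2), (3, 4)], [(1, 2), (3, 5)], [(1, 3)], [(1, 3), (3,
    5)], [(1, 3), (3, 4)], [(1, 4), (3, 4)], [(1, 4), (2, 4)], [(1, 4)], [(1, 5), (3, 5)], [(1,
    5), (2, 5)], [(1, 5)]]

private def t3h : Fin 5 → List (Fin 6 × Fin 6) :=
  ![[], [(1, 2), (3, 4)], [(1, 2), (3, 5)], [(1, 3), (3, 5)], [(1, 3), (3, 4)]]

/-- An indexed family of pairs of conjugates of `a` with product of odd order. -/
structure OddFamily {M : Type*} [Group M] (a : M) (n m : ℕ) where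
  g : Fin n → M
  h : Fin m → M
  g_inj : Function.Injective fun i => g i * a * (g i)⁻¹
  h_inj : Function.Injective fun j => h j * a * (h j)⁻¹
  odd : ∀ j, (a * (h j * a * (h j)⁻¹)) ^ 15 = 1

private theorem a0g_inj : ∀ i j, wd (a0g i) * pa * (wd (a0g i))⁻¹ =
    wd (a0g j) * pa * (wd (a0g j))⁻¹ → i = j := by decide +kernel

private theorem a0h_inj : ∀ i j, wd (a0h i) * pa * (wd (a0h i))⁻¹ =
    wd (a0h j) * pa * (wd (a0h j))⁻¹ → i = j := by decide +kernel

private theorem a0h_odd : ∀ j, (pa * (wd (a0h j) * pa * (wd (a0h j))⁻¹)) ^ 15 = 1 := by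
  decide +kernel

private theorem a0g_even : ∀ i, wd (a0g i) ∈ alternatingGroup (Fin 6) := by
  simp only [Perm.mem_alternatingGroup]; decide +kernel

private theorem a0h_even : ∀ i, wd (a0h i) ∈ alternatingGroup (Fin 6) := by
  simp only [Perm.mem_alternatingGroup]; decide +kernel

private theorem pa_even : pa ∈ alternatingGroup (Fin 6) := by
  simp only [Perm.mem_alternatingGroup]; decide +kernel

private theorem t1g_inj : ∀ i j, wd (t1g i) * p1 * (wd (t1g i))⁻¹ =
    wd (t1g j) * p1 * (wd (t1g j))⁻¹ → i = j := by decide +kernel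

private theorem t1h_inj : ∀ i j, wd (t1h i) * p1 * (wd (t1h i))⁻¹ =
    wd (t1h j) * p1 * (wd (t1h j))⁻¹ → i = j := by decide +kernel

private theorem t1h_odd : ∀ j, (p1 * (wd (t1h j) * p1 * (wd (t1h j))⁻¹)) ^ 15 = 1 := by
  decide +kernel

private theorem t3g_inj : ∀ i j, wd (t3g i) * p3 * (wd (t3g i))⁻¹ =
    wd (t3g j) * p3 * (wd (t3g j))⁻¹ → i = j := by decide +kernel

private theorem t3h_inj : ∀ i j, wd (t3h i) * p3 * (wd (t3h i))⁻¹ =
    wd (t3h j) * p3 * (wd (t3h j))⁻¹ → i = j := by decide +kernel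

private theorem t3h_odd : ∀ j, (p3 * (wd (t3h j) * p3 * (wd (t3h j))⁻¹)) ^ 15 = 1 := by
  decide +kernel

private def paA : alternatingGroup (Fin 6) := ⟨pa, pa_even⟩

private def famA : OddFamily paA 45 20 where
  g i := ⟨wd (a0g i), a0g_even i⟩
  h i := ⟨wd (a0h i), a0h_even i⟩
  g_inj _ _ e := a0g_inj _ _ (congrArg Subtype.val e)
  h_inj _ _ e := a0h_inj _ _ (congrArg Subtype.val e)
  odd j := Subtype.ext (a0h_odd j)

private def fam1 : OddFamily p1 15 5 where
  g i := wd (t1g i)
  h i := wd (t1h i)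
  g_inj _ _ e := t1g_inj _ _ e
  h_inj _ _ e := t1h_inj _ _ e
  odd := t1h_odd

private def fam3 : OddFamily p3 15 5 where
  g i := wd (t3g i)
  h i := wd (t3h i)
  g_inj _ _ e := t3g_inj _ _ e
  h_inj _ _ e := t3h_inj _ _ e
  odd := t3h_odd

private theorem support_p1 : p1.support.card = 2 := by decide +kernel

private theorem support_p3 : p3.support.card = 6 := by decide +kernel

/-- An involution of six points is a product of one, two or three transpositions. -/
private theorem cycleType_involution {b : Perm (Fin 6)} (hb : b * b = 1) (hb1 : b ≠ 1) :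
    ∃ k, b.cycleType = Multiset.replicate k 2 ∧ b.support.card = 2 * k ∧ 1 ≤ k ∧ k ≤ 3 ∧
      Perm.sign b = (-1) ^ k := by
  have ho : orderOf b = 2 := orderOf_eq_prime (by rw [pow_two, hb]) hb1
  obtain ⟨k, hk⟩ := Perm.cycleType_prime_order (by rw [ho]; exact Nat.prime_two)
  rw [ho] at hk
  have hs : b.support.card = 2 * (k + 1) := by
    rw [← Perm.sum_cycleType, hk, Multiset.sum_replicate, smul_eq_mul, mul_comm]
  have hle : b.support.card ≤ 6 := (Finset.card_le_univ _).trans_eq (Fintype.card_fin 6)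
  refine ⟨k + 1, hk, hs, by omega, by omega, ?_⟩
  rw [Perm.sign_of_cycleType, Perm.sum_cycleType, hs, hk, Multiset.card_replicate, pow_add,
    pow_mul, Int.units_sq, one_pow, one_mul]

private theorem cycleType_even {b : Perm (Fin 6)} (hb : b * b = 1) (hb1 : b ≠ 1)
    (hs : Perm.sign b = 1) : b.cycleType = Multiset.replicate 2 2 := by
  obtain ⟨k, h1, h2, h3, h4, h5⟩ := cycleType_involution hb hb1
  rw [hs] at h5
  interval_cases k
  · exact absurd h5 (by decide)
  · exact h1
  · exact absurd h5 (by decide)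

private theorem cycleType_odd {b : Perm (Fin 6)} (hb : b * b = 1) (hs : Perm.sign b = -1) :
    b.cycleType = Multiset.replicate 1 2 ∨ b.cycleType = Multiset.replicate 3 2 := by
  have hb1 : b ≠ 1 := fun e => by rw [e, map_one] at hs; exact absurd hs (by decide)
  obtain ⟨k, h1, h2, h3, h4, h5⟩ := cycleType_involution hb hb1
  rw [hs] at h5
  interval_cases k
  · exact Or.inl h1
  · exact absurd h5 (by decide)
  · exact Or.inr h1

private theorem cycleType_p1 : p1.cycleType = Multiset.replicate 1 2 := by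
  obtain ⟨k, h1, h2, -⟩ := cycleType_involution (b := p1) (by decide +kernel) (by decide +kernel)
  rw [support_p1] at h2
  rwa [show k = 1 by omega] at h1

private theorem cycleType_p3 : p3.cycleType = Multiset.replicate 3 2 := by
  obtain ⟨k, h1, h2, -⟩ := cycleType_involution (b := p3) (by decide +kernel) (by decide +kernel)
  rw [support_p3] at h2
  rwa [show k = 3 by omega] at h1

private theorem isConj_paA {b : alternatingGroup (Fin 6)} (hb : b * b = 1) (hb1 : b ≠ 1) :
    IsConj paA b := by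
  have h1 : (b : Perm (Fin 6)).cycleType = pa.cycleType := by
    rw [cycleType_even (congrArg Subtype.val hb) (fun e => hb1 (Subtype.ext e))
      (Perm.mem_alternatingGroup.mp b.2),
      cycleType_even (b := pa) (by decide +kernel) (by decide +kernel)
        (Perm.mem_alternatingGroup.mp pa_even)]
  obtain ⟨g, hg⟩ := isConj_iff.mp (Perm.isConj_iff_cycleType_eq.mpr h1.symm)
  rcases Int.units_eq_one_or (Perm.sign g) with hs | hs
  · exact isConj_iff.mpr ⟨⟨g, Perm.mem_alternatingGroup.mpr hs⟩, Subtype.ext hg⟩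
  · have hs' : Perm.sign (g * swap 4 5) = 1 := by
      rw [map_mul, hs, Perm.sign_swap (by decide)]; decide
    refine isConj_iff.mpr ⟨⟨g * swap 4 5, Perm.mem_alternatingGroup.mpr hs'⟩, Subtype.ext ?_⟩
    show g * swap 4 5 * pa * (g * swap 4 5)⁻¹ = (b : Perm (Fin 6))
    have h45 : swap (4 : Fin 6) 5 * pa * (swap 4 5)⁻¹ = pa := by decide +kernel
    rw [mul_inv_rev, ← hg]
    calc g * swap 4 5 * pa * ((swap 4 5)⁻¹ * g⁻¹)
        = g * (swap 4 5 * pa * (swap 4 5)⁻¹) * g⁻¹ := by group
      _ = g * pa * g⁻¹ := by rw [h45]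

end CfsgLib.M12Count.Middle

namespace CfsgLib.M12Count

open Equiv Middle

variable {G : Type*} [Group G] [Finite G]

/-- `π` is the quotient of `H` by the central subgroup of order two generated by `t`. -/
structure IsCover {H : Subgroup G} (t : G) {X : Type*} [Group X] (π : H →* X) : Prop where
  ord : orderOf t = 2
  comm : ∀ h ∈ H, Commute h t
  mem : t ∈ H
  surj : Function.Surjective π
  ker : ∀ h : H, π h = 1 ↔ (h : G) = 1 ∨ (h : G) = t

omit [Finite G] in
theorem IsCover.eq_or {H : Subgroup G} {t : G} {X : Type*} [Group X] {π : H →* X}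
    (hc : IsCover t π) {a b : H} (h : π a = π b) : (a : G) = b ∨ (a : G) = (b : G) * t := by
  have h1 : π (b⁻¹ * a) = 1 := by rw [map_mul, map_inv, h, inv_mul_cancel]
  rcases (hc.ker _).mp h1 with h2 | h2 <;> push_cast at h2
  · exact Or.inl (inv_mul_eq_one.mp h2).symm
  · exact Or.inr (inv_mul_eq_iff_eq_mul.mp h2)

omit [Finite G] in
theorem IsCover.map_eq {H : Subgroup G} {t : G} {X : Type*} [Group X] {π : H →* X}
    (hc : IsCover t π) {a b : H} (h : (a : G) = b ∨ (a : G) = (b : G) * t) : π a = π b := by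
  rcases h with h | h
  · rw [Subtype.ext h]
  · rw [show a = b * ⟨t, hc.mem⟩ from Subtype.ext h, map_mul,
      (hc.ker ⟨t, hc.mem⟩).mpr (Or.inr rfl), mul_one]

/-- A family of pairs in the quotient by `⟨t⟩` with odd products gives as many pairs above it. -/
theorem card_le_of_odd_pairs {H : Subgroup G} {t : G} {X : Type*} [Group X] {π : H →* X}
    (hc : IsCover t π) {x : H} (hxK : IsConj t (x : G)) {K' : Set G}
    (hK' : ∀ g y : G, y ∈ K' → g * y * g⁻¹ ∈ K') (hx1 : (x : G) ∈ K') (hx2 : (x : G) * t ∈ K')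
    {ι : Type*} (fa fb : ι → X) (hf : Function.Injective fun i => (fa i, fb i))
    (ha : ∀ i, IsConj (π x) (fa i)) (hb : ∀ i, IsConj (π x) (fb i))
    (ho : ∀ i, (fa i * fb i) ^ 15 = 1) : Nat.card ι ≤ Nat.card K' := by
  classical
  have ht := hc.ord
  have hlift : ∀ a : X, IsConj (π x) a →
      ∃ y : H, π y = a ∧ IsConj (x : G) (y : G) ∧ (y : G) ∈ K' ∧ (y : G) * t ∈ K' := by
    intro a h
    obtain ⟨c, rfl⟩ := isConj_iff.mp h
    obtain ⟨c, rfl⟩ := hc.surj c
    refine ⟨c * x * c⁻¹, by simp, isConj_iff.mpr ⟨c, rfl⟩, hK' _ _ hx1, ?_⟩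
    have hct : (c : G)⁻¹ * t = t * (c : G)⁻¹ := (hc.comm _ (inv_mem c.2)).eq
    have := hK' c _ hx2
    rwa [show (c : G) * ((x : G) * t) * (c : G)⁻¹ = ((c * x * c⁻¹ : H) : G) * t by
      push_cast; rw [mul_assoc _ (c : G)⁻¹ t, hct]; group] at this
  choose L hL1 hL2 hL3 hL4 using hlift
  have htt : t * t = 1 := by rw [← pow_two, ← ht, pow_orderOf_eq_one]
  have key : ∀ i, ∃ y : H, (y : G) ∈ K' ∧ π y = fb i ∧
      t ∈ Subgroup.zpowers ((L _ (ha i) : G) * y) := by
    intro i
    have h1 : π ((L _ (ha i) * L _ (hb i)) ^ 15) = 1 := by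
      rw [map_pow, map_mul, hL1, hL1]; exact ho i
    have h2 := (hc.ker _).mp h1
    push_cast at h2
    rcases mem_zpowers_or (hc.comm _ (mul_mem (L _ (ha i)).2 (L _ (hb i)).2)) ⟨7, rfl⟩ htt h2
      with h | h
    · exact ⟨_, hL3 _ (hb i), hL1 _ (hb i), h⟩
    · refine ⟨⟨_, mul_mem (L _ (hb i)).2 hc.mem⟩, hL4 _ (hb i), ?_, h⟩
      exact (hc.map_eq (Or.inr rfl)).trans (hL1 _ (hb i))
  choose y hy1 hy2 hy3 using key
  refine le_trans (card_le_pairs (K := conjugatesOf t) (K' := K') (t := t)
    (fun i => ((L _ (ha i) : G), (y i : G))) ?_ fun i =>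
      ⟨hxK.trans (hL2 _ (ha i)), hy1 i, hy3 i⟩) (pair_bound_left hK' ht)
  intro i j e
  obtain ⟨e1, e2⟩ := Prod.mk.injEq .. |>.mp e
  apply hf
  show (fa i, fb i) = (fa j, fb j)
  rw [← hL1 _ (ha i), ← hL1 _ (ha j), ← hy2 i, ← hy2 j, Subtype.ext e1, Subtype.ext e2]

/-- The bound for a family in a group mapped injectively to the quotient. -/
theorem card_le_of_family {H : Subgroup G} {t : G} {X : Type*} [Group X] {π : H →* X}
    (hc : IsCover t π) {x : H} (hxK : IsConj t (x : G)) {K' : Set G}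
    (hK' : ∀ g y : G, y ∈ K' → g * y * g⁻¹ ∈ K') (hx1 : (x : G) ∈ K') (hx2 : (x : G) * t ∈ K')
    {M : Type*} [Group M] (ψ : M →* X) (hψ : Function.Injective ψ) {a : M}
    (ha : IsConj (π x) (ψ a)) {n m : ℕ} (F : OddFamily a n m) : n * m ≤ Nat.card K' := by
  have hconj : ∀ g : M, IsConj (π x) (ψ (g * a * g⁻¹)) := fun g =>
    ha.trans (ψ.map_isConj (isConj_iff.mpr ⟨g, rfl⟩))
  refine le_of_eq_of_le (by simp) (card_le_of_odd_pairs (ι := Fin n × Fin m) hc hxK hK' hx1 hx2
    (fun p => ψ (F.g p.1 * a * (F.g p.1)⁻¹))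
    (fun p => ψ ((F.g p.1 * F.h p.2) * a * (F.g p.1 * F.h p.2)⁻¹)) ?_ (fun _ => hconj _)
    (fun _ => hconj _) fun p => ?_)
  · rintro ⟨i, j⟩ ⟨i', j'⟩ e
    obtain ⟨e1, e2⟩ := Prod.mk.injEq .. |>.mp e
    obtain rfl : i = i' := F.g_inj (hψ e1)
    have e3 := hψ e2
    simp only [mul_inv_rev, mul_assoc] at e3
    rw [mul_left_cancel_iff] at e3
    simp only [← mul_assoc, mul_left_inj] at e3
    obtain rfl : j = j' := F.h_inj e3
    rfl
  · have hE : F.g p.1 * a * (F.g p.1)⁻¹ * ((F.g p.1 * F.h p.2) * a * (F.g p.1 * F.h p.2)⁻¹) =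
        F.g p.1 * (a * (F.h p.2 * a * (F.h p.2)⁻¹)) * (F.g p.1)⁻¹ := by group
    rw [← map_mul, ← map_pow, hE, conj_pow, F.odd, mul_one, mul_inv_cancel, map_one]

omit [Finite G] in
/-- A noncommutative simple group has no nontrivial sign character. -/
theorem sign_hom_eq_one (hs : IsSimpleGroup G) (hn : ¬ IsMulCommutative G) (f : G →* ℤˣ) (g : G) :
    f g = 1 := by
  rcases f.normal_ker.eq_bot_or_eq_top with h | h
  · refine absurd ⟨⟨fun a b => (MonoidHom.ker_eq_bot_iff f).mp h ?_⟩⟩ hn
    rw [map_mul, map_mul, mul_comm]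
  · exact MonoidHom.mem_ker.mp (h ▸ Subgroup.mem_top g)

/-- The number of other conjugates of `t` commuting with it. -/
theorem Setup.card_comm_conj (h : Setup G) {t : G} (ht : IsFiveInv t)
    (hC : Nat.card (Subgroup.centralizer ({t} : Set G)) = 1440) :
    Nat.card {x : G // IsConj t x ∧ Commute x t ∧ x ≠ t} ∈ ({5, 25, 45} : Finset ℕ) := by
  classical
  haveI := Fintype.ofFinite G
  haveI := h.simple
  have hK : Fintype.card (conjugatesOf t) = 66 := by
    have h1 := card_conjugatesOf_mul t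
    rw [hC, h.hyp.card, Nat.card_eq_fintype_card] at h1
    omega
  -- the permutation of the class by `t`
  let φ : G →* Perm (conjugatesOf t) := MonoidHom.mk' (fun g =>
    { toFun := fun x => ⟨g * (x : G) * g⁻¹, conjugatesOf_closed t _ _ x.2⟩
      invFun := fun x => ⟨g⁻¹ * (x : G) * g, by
        simpa using conjugatesOf_closed t g⁻¹ _ x.2⟩
      left_inv := fun x => Subtype.ext (by simp [mul_assoc])
      right_inv := fun x => Subtype.ext (by simp [mul_assoc]) })
    fun a b => Equiv.ext fun x => Subtype.ext (by simp [mul_assoc])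
  set σ := φ t
  have htt : t * t = 1 := by rw [← pow_two, ← ht.1, pow_orderOf_eq_one]
  have hti : t⁻¹ = t := inv_eq_of_mul_eq_one_right htt
  have hfix : ∀ x : conjugatesOf t, σ x = x ↔ Commute (x : G) t := fun x => by
    constructor
    · intro e
      have e' : t * (x : G) * t⁻¹ = x := congrArg Subtype.val e
      exact (mul_inv_eq_iff_eq_mul.mp e').symm
    · intro e
      exact Subtype.ext (show t * (x : G) * t⁻¹ = x from mul_inv_eq_iff_eq_mul.mpr e.eq.symm)
  have hσ1 : σ ≠ 1 := fun e => by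
    have hall : ∀ x ∈ conjugatesOf t, Commute x t := fun x hx =>
      (hfix ⟨x, hx⟩).mp (by rw [e]; rfl)
    have hN : Subgroup.normalClosure {t} ≤ Subgroup.centralizer ({t} : Set G) :=
      (Subgroup.closure_le _).mpr fun x hx => Subgroup.mem_centralizer_singleton_iff.mpr
        (hall x (by simpa [Group.conjugatesOfSet] using hx)).eq
    rcases (Subgroup.normalClosure_normal (s := {t})).eq_bot_or_eq_top with h1 | h1
    · have h2 : t ∈ (⊥ : Subgroup G) := h1 ▸ Subgroup.subset_normalClosure rfl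
      have := ht.1
      rw [Subgroup.mem_bot.mp h2, orderOf_one] at this
      omega
    · rw [h1, top_le_iff] at hN
      rw [hN, Subgroup.card_top, h.hyp.card] at hC
      omega
  have hord : orderOf σ = 2 := orderOf_eq_prime (by rw [← map_pow, pow_two, htt, map_one]) hσ1
  obtain ⟨k, hk⟩ := Perm.cycleType_prime_order (by rw [hord]; exact Nat.prime_two)
  rw [hord] at hk
  have hsupp : σ.support.card = 2 * (k + 1) := by
    rw [← Perm.sum_cycleType, hk, Multiset.sum_replicate, smul_eq_mul, mul_comm]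
  have heven : Even (k + 1) := by
    have h1 : Perm.sign σ = 1 := sign_hom_eq_one h.simple h.notComm (Perm.sign.comp φ) t
    rw [Perm.sign_of_cycleType, Perm.sum_cycleType, hsupp, hk, Multiset.card_replicate, pow_add,
      pow_mul, Int.units_sq, one_pow, one_mul] at h1
    exact (neg_one_pow_eq_one_iff_even (by decide)).mp h1
  have hfcard : Nat.card {x : G // IsConj t x ∧ Commute x t ∧ x ≠ t} + 1 =
      (σ.supportᶜ).card := by
    have hmem : (⟨t, IsConj.refl t⟩ : conjugatesOf t) ∈ σ.supportᶜ := by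
      simp [hfix]
    rw [← Finset.card_erase_add_one hmem, ← Nat.card_eq_finsetCard]
    congr 1
    refine Nat.card_congr
      { toFun := fun x => ⟨⟨x.1, x.2.1⟩, by
          simpa [hfix, Subtype.ext_iff] using And.intro x.2.2.2 x.2.2.1⟩
        invFun := fun x => ⟨x.1.1, x.1.2, (hfix x.1).mp
            (Perm.notMem_support.mp (Finset.mem_compl.mp (Finset.mem_erase.mp x.2).2)),
          fun e => (Finset.mem_erase.mp x.2).1 (Subtype.ext e)⟩
        left_inv := fun x => rfl
        right_inv := fun x => rfl }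
  rw [Finset.card_compl, hK, hsupp] at hfcard
  -- an element of order five acts without fixed points
  obtain ⟨g, hg, hgt⟩ := ht.2
  set S := {x : G // IsConj t x ∧ Commute x t ∧ x ≠ t}
  have hact : ∀ x : S, IsConj t (g * x.1 * g⁻¹) ∧ Commute (g * x.1 * g⁻¹) t ∧
      g * x.1 * g⁻¹ ≠ t := by
    intro x
    refine ⟨conjugatesOf_closed t g _ x.2.1, (hgt.mul_left x.2.2.1).mul_left hgt.inv_left,
      fun e => x.2.2.2 ?_⟩
    have h1 : x.1 = g⁻¹ * (g * x.1 * g⁻¹) * g := by group
    rw [h1, e, mul_assoc, ← hgt.eq, inv_mul_cancel_left]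
  let f : Function.End S := fun x => ⟨g * x.1 * g⁻¹, hact x⟩
  have hpow : ∀ (n : ℕ) (x : S), ((f ^ n) x).1 = g ^ n * x.1 * (g ^ n)⁻¹ := by
    intro n
    induction n with
    | zero => intro x; simp; rfl
    | succ n ih =>
      intro x
      rw [pow_succ' f n, pow_succ' g n]
      show g * ((f ^ n) x).1 * g⁻¹ = _
      rw [ih, mul_inv_rev]
      simp only [mul_assoc]
  have h5 : Nat.card S % 5 = 0 := by
    haveI := Fact.mk (show Nat.Prime 5 by decide)
    have hf5 : f ^ 5 ^ 1 = 1 := by
      funext x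
      refine Subtype.ext ?_
      rw [pow_one, hpow, ← hg, pow_orderOf_eq_one, one_mul, inv_one, mul_one]
      rfl
    have h1 := Equiv.Perm.card_fixedPoints_modEq hf5
    have h2 : Fintype.card (Function.fixedPoints f) = 0 := by
      rw [Fintype.card_eq_zero_iff]
      refine ⟨fun x => x.1.2.2.2 ?_⟩
      have hx : g * x.1.1 * g⁻¹ = x.1.1 := congrArg Subtype.val x.2
      have hx2 : orderOf (x.1.1) = 2 := by
        obtain ⟨c, hc⟩ := isConj_iff.mp x.1.2.1
        rw [← hc, ← ht.1]; exact MulEquiv.orderOf_eq (MulAut.conj c) t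
      exact h.fiveInv_unique g _ _ hg hx2 ht.1 (mul_inv_eq_iff_eq_mul.mp hx) hgt
    rw [Nat.card_eq_fintype_card]
    exact h1.trans (by rw [h2])
  obtain ⟨j, hj⟩ := heven
  simp only [Finset.mem_insert, Finset.mem_singleton]
  omega

/-- The odd involutions of six points fall into two classes of fifteen. -/
theorem card_odd_closed (T : Finset (Perm (Fin 6))) (hT : ∀ b ∈ T, b * b = 1 ∧ Perm.sign b = -1)
    (hcl : ∀ b ∈ T, ∀ g : Perm (Fin 6), g * b * g⁻¹ ∈ T) : 15 ∣ T.card ∧ T.card ≤ 30 := by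
  classical
  have hC : ∀ k ∈ ({1, 3} : Finset ℕ), (Finset.univ.filter fun b : Perm (Fin 6) =>
      b.cycleType = Multiset.replicate k 2).card = 15 := by
    intro k hk
    rw [Perm.card_of_cycleType]
    fin_cases hk <;> simp [Multiset.replicate] <;> decide +kernel
  let C := fun k : ℕ => Finset.univ.filter fun b : Perm (Fin 6) =>
    b.cycleType = Multiset.replicate k 2
  have hpart : ∀ k ∈ ({1, 3} : Finset ℕ), 15 ∣ (T ∩ C k).card := by
    intro k hk
    by_cases he : (T ∩ C k) = ∅
    · simp [he]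
    · obtain ⟨b, hb⟩ := Finset.nonempty_iff_ne_empty.mpr he
      obtain ⟨hbT, hbC⟩ := Finset.mem_inter.mp hb
      have : T ∩ C k = C k := by
        refine Finset.inter_eq_right.mpr fun c hc => ?_
        obtain ⟨g, rfl⟩ := isConj_iff.mp (Perm.isConj_iff_cycleType_eq.mpr
          ((Finset.mem_filter.mp hbC).2.trans (Finset.mem_filter.mp hc).2.symm))
        exact hcl b hbT g
      rw [this, hC k hk]
  have hdisj : Disjoint (T ∩ C 1) (T ∩ C 3) := by
    refine Finset.disjoint_left.mpr fun b h1 h3 => ?_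
    have e := (Finset.mem_filter.mp (Finset.mem_inter.mp h1).2).2.symm.trans
      (Finset.mem_filter.mp (Finset.mem_inter.mp h3).2).2
    have := congrArg Multiset.card e
    simp at this
  have hsplit : T = (T ∩ C 1) ∪ (T ∩ C 3) := by
    ext b
    constructor
    · intro hb
      obtain ⟨h2, hs⟩ := hT b hb
      rcases cycleType_odd h2 hs with e | e
      · exact Finset.mem_union_left _
          (Finset.mem_inter.mpr ⟨hb, Finset.mem_filter.mpr ⟨Finset.mem_univ _, e⟩⟩)
      · exact Finset.mem_union_right _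
          (Finset.mem_inter.mpr ⟨hb, Finset.mem_filter.mpr ⟨Finset.mem_univ _, e⟩⟩)
    · intro hb
      rcases Finset.mem_union.mp hb with h1 | h1 <;> exact (Finset.mem_inter.mp h1).1
  rw [hsplit, Finset.card_union_of_disjoint hdisj]
  refine ⟨Nat.dvd_add (hpart 1 (by simp)) (hpart 3 (by simp)), ?_⟩
  have h1 : (T ∩ C 1).card ≤ 15 :=
    (Finset.card_le_card Finset.inter_subset_right).trans_eq (hC 1 (by simp))
  have h3 : (T ∩ C 3).card ≤ 15 :=
    (Finset.card_le_card Finset.inter_subset_right).trans_eq (hC 3 (by simp))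
  omega

/-- The pair counts contradict every shape of the quotient of order 720. -/
theorem Setup.false_of_cover (h : Setup G) {t : G} (ht : IsFiveInv t)
    (hC : Nat.card (Subgroup.centralizer ({t} : Set G)) = 1440) {X : Type*} [Group X] [Finite X]
    {π : Subgroup.centralizer ({t} : Set G) →* X} (hc : IsCover t π) {A : Subgroup X}
    (hA : Nonempty (A ≃* alternatingGroup (Fin 6)))
    (hcase : (∀ x : X, orderOf x = 2 → x ∈ A) ∨ Nonempty (X ≃* Perm (Fin 6))) : False := by
  classical
  haveI := Fintype.ofFinite G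
  have hS := h.card_comm_conj ht hC
  set S := {x : G // IsConj t x ∧ Commute x t ∧ x ≠ t}
  have htt : t * t = 1 := by rw [← pow_two, ← ht.1, pow_orderOf_eq_one]
  have hord : ∀ x : G, IsConj t x → orderOf x = 2 := fun x hx => by
    obtain ⟨c, rfl⟩ := isConj_iff.mp hx
    rw [← ht.1]; exact MulEquiv.orderOf_eq (MulAut.conj c) t
  let j : S → Subgroup.centralizer ({t} : Set G) := fun s =>
    ⟨s.1, Subgroup.mem_centralizer_singleton_iff.mpr s.2.2.1.eq⟩
  have hx2 : ∀ s : S, π (j s) * π (j s) = 1 ∧ π (j s) ≠ 1 := by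
    intro s
    have hss : s.1 * s.1 = 1 := by rw [← pow_two, ← hord _ s.2.1, pow_orderOf_eq_one]
    refine ⟨?_, fun e => ?_⟩
    · rw [← map_mul, show j s * j s = 1 from Subtype.ext hss, map_one]
    · rcases (hc.ker _).mp e with e1 | e1
      · have := hord _ s.2.1
        rw [show s.1 = 1 from e1, orderOf_one] at this
        omega
      · exact s.2.2.2 e1
  -- a class inside the subgroup of index two gives too many pairs
  have heven : ∀ (s : S) (ψ : alternatingGroup (Fin 6) →* X), Function.Injective ψ →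
      ∀ p, ψ p = π (j s) → False := by
    intro s ψ hψ p hp
    have hp2 : p * p = 1 := hψ (by rw [map_mul, hp, (hx2 s).1, map_one])
    have hp1 : p ≠ 1 := fun e => (hx2 s).2 (by rw [← hp, e, map_one])
    have hconj : IsConj (π (j s)) (ψ paA) := hp ▸ ψ.map_isConj (isConj_paA hp2 hp1).symm
    have hx : orderOf (s.1 * t) = 2 := orderOf_eq_prime
      (by
        rw [pow_two, show s.1 * t * (s.1 * t) = s.1 * (t * s.1) * t by group, ← s.2.2.1.eq]
        have hss : s.1 * s.1 = 1 := by rw [← pow_two, ← hord _ s.2.1, pow_orderOf_eq_one]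
        rw [← mul_assoc s.1 s.1 t, hss, one_mul, htt])
      (fun e => s.2.2.2 ((mul_eq_one_iff_eq_inv.mp e).trans
        (inv_eq_of_mul_eq_one_right htt)))
    have := card_le_of_family hc (x := j s) s.2.1 (orderOf_closed 2) (hord _ s.2.1) hx ψ hψ hconj
      famA
    have h2 : Nat.card ({y : G | orderOf y = 2} : Set G) = 891 := h.cnt_two
    omega
  obtain ⟨φ⟩ := hA
  have hSpos : Nonempty S := by
    rw [← Finite.card_pos_iff]
    simp only [Finset.mem_insert, Finset.mem_singleton] at hS
    omega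
  rcases hcase with hall | ⟨⟨e⟩⟩
  · obtain ⟨s⟩ := hSpos
    exact heven s (A.subtype.comp φ.symm.toMonoidHom)
      (Subtype.val_injective.comp φ.symm.injective)
      (φ ⟨π (j s), hall _ (orderOf_eq_prime (by rw [pow_two, (hx2 s).1]) (hx2 s).2)⟩) (by simp)
  by_cases hs : ∃ s : S, Perm.sign (e (π (j s))) = 1
  · obtain ⟨s, hs⟩ := hs
    exact heven s (e.symm.toMonoidHom.comp (alternatingGroup (Fin 6)).subtype)
      (e.symm.injective.comp Subtype.val_injective) ⟨_, Perm.mem_alternatingGroup.mpr hs⟩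
      (e.symm_apply_apply _)
  push Not at hs
  have hodd : ∀ s : S, Perm.sign (e (π (j s))) = -1 := fun s =>
    (Int.units_eq_one_or _).resolve_left (hs s)
  have hb2 : ∀ s : S, e (π (j s)) * e (π (j s)) = 1 := fun s => by
    rw [← map_mul, (hx2 s).1, map_one]
  by_cases hd : ∃ s : S, IsConj t (s.1 * t)
  · -- both lifts are conjugates of `t`
    obtain ⟨s, hd⟩ := hd
    have h66 : Nat.card (conjugatesOf t) = 66 := by
      have h1 := card_conjugatesOf_mul t
      rw [hC, h.hyp.card] at h1
      omega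
    have key : ∀ p : Perm (Fin 6), (e (π (j s))).cycleType = p.cycleType → OddFamily p 15 5 →
        False := by
      intro p hp F
      have hconj : IsConj (π (j s)) (e.symm p) := by
        have := e.symm.toMonoidHom.map_isConj (Perm.isConj_iff_cycleType_eq.mpr hp)
        simpa using this
      have := card_le_of_family hc (x := j s) s.2.1 (conjugatesOf_closed t) s.2.1 hd
        e.symm.toMonoidHom e.symm.injective hconj F
      omega
    rcases cycleType_odd (hb2 s) (hodd s) with hp | hp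
    · exact key p1 (hp.trans cycleType_p1.symm) fam1
    · exact key p3 (hp.trans cycleType_p3.symm) fam3
  push Not at hd
  haveI := Fintype.ofFinite S
  have hinj : Function.Injective fun s : S => e (π (j s)) := fun a b hab => by
    rcases hc.eq_or (e.injective hab) with h1 | h1
    · exact Subtype.ext h1
    · exact absurd (show IsConj t (b.1 * t) from h1 ▸ a.2.1) (hd b)
  set T := Finset.univ.image fun s : S => e (π (j s))
  have hT : T.card = Nat.card S := by
    rw [Finset.card_image_of_injective _ hinj, Finset.card_univ, Nat.card_eq_fintype_card]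
  have h15 := card_odd_closed T (fun b hb => by
      obtain ⟨s, -, rfl⟩ := Finset.mem_image.mp hb
      exact ⟨hb2 s, hodd s⟩)
    fun b hb g => by
      obtain ⟨s, -, rfl⟩ := Finset.mem_image.mp hb
      obtain ⟨c, hcg⟩ := hc.surj (e.symm g)
      have hct : Commute (c : G) t := hc.comm _ c.2
      refine Finset.mem_image.mpr ⟨⟨c * s.1 * (c : G)⁻¹, conjugatesOf_closed t _ _ s.2.1,
        (hct.mul_left s.2.2.1).mul_left hct.inv_left, fun e1 => s.2.2.2 ?_⟩,
        Finset.mem_univ _, ?_⟩
      · have h1 : s.1 = (c : G)⁻¹ * (c * s.1 * (c : G)⁻¹) * c := by group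
        rw [h1, e1, mul_assoc, ← hct.eq, inv_mul_cancel_left]
      · rw [show j ⟨c * s.1 * (c : G)⁻¹, _⟩ = c * j s * c⁻¹ from Subtype.ext rfl]
        simp [hcg]
  rw [hT] at h15
  simp only [Finset.mem_insert, Finset.mem_singleton] at hS
  obtain ⟨hdvd, hle⟩ := h15
  rcases hS with e1 | e1 | e1 <;> rw [e1] at hdvd hle <;> omega

end CfsgLib.M12Count

namespace CfsgLib.M12Count

universe u

variable {G : Type u} [Group G] [Finite G]

/-- The statement about groups of order 720 on which the case of order 1440 rests. -/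
def SixCases : Prop :=
  ∀ {X : Type u} [Group X] [Finite X], Nat.card X = 720 → Nat.card (Sylow 5 X) = 36 →
    (∀ g : X, orderOf g = 5 → Nat.card (Subgroup.centralizer ({g} : Set X)) = 5) →
    ∃ A : Subgroup X, A.index = 2 ∧ Nonempty (A ≃* alternatingGroup (Fin 6)) ∧
      ((∀ x : X, orderOf x = 2 → x ∈ A) ∨ Nonempty (X ≃* Equiv.Perm (Fin 6)))

/-- The centraliser of `t` does not have order 1440, given the groups of order 720. -/
theorem Setup.not_1440_of (hsix : SixCases.{u}) (h : Setup G) {t : G} (ht : IsFiveInv t) :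
    Nat.card (Subgroup.centralizer ({t} : Set G)) ≠ 1440 := by
  intro hC
  set H := Subgroup.centralizer ({t} : Set G) with hH
  have htt : t * t = 1 := by rw [← pow_two, ← ht.1, pow_orderOf_eq_one]
  have hcomm : ∀ a ∈ H, Commute a t := fun a ha => Subgroup.mem_centralizer_singleton_iff.mp ha
  have htH : t ∈ H := Subgroup.mem_centralizer_singleton_iff.mpr rfl
  set N := (Subgroup.zpowers t).subgroupOf H with hNdef
  have hmem : ∀ a : H, a ∈ N ↔ (a : G) = 1 ∨ (a : G) = t := by
    intro a
    rw [hNdef, Subgroup.mem_subgroupOf]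
    constructor
    · intro ha
      obtain ⟨k, hk⟩ := Subgroup.mem_zpowers_iff.mp ha
      rw [← hk]
      rcases Int.even_or_odd k with ⟨j, rfl⟩ | ⟨j, rfl⟩
      · left; rw [← two_mul, zpow_mul, zpow_two, htt, one_zpow]
      · right; rw [zpow_add, zpow_mul, zpow_two, htt, one_zpow, one_mul, zpow_one]
    · rintro (ha | ha) <;> rw [ha]
      exacts [one_mem _, Subgroup.mem_zpowers t]
  haveI : N.Normal := ⟨fun n hn a => (hmem _).mpr (by
    rcases (hmem n).mp hn with e | e <;> push_cast <;> rw [e]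
    · left; simp
    · right; rw [(hcomm _ a.2).eq, mul_inv_cancel_right])⟩
  set π := QuotientGroup.mk' N
  have hc : IsCover t π :=
    ⟨ht.1, hcomm, htH, QuotientGroup.mk'_surjective N,
      fun a => (QuotientGroup.eq_one_iff a).trans (hmem a)⟩
  have hX : Nat.card (H ⧸ N) = 720 := by
    have h1 := Subgroup.card_eq_card_quotient_mul_card_subgroup N
    rw [hC, Nat.card_congr (Subgroup.subgroupOfEquivOfLe
      (Subgroup.zpowers_le.mpr htH)).toEquiv, Nat.card_zpowers, ht.1] at h1
    omega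
  have hcomap : ∀ K : Subgroup (H ⧸ N), Nat.card (K.comap π) = 2 * Nat.card K := by
    intro K
    have h1 := (K.comap π).card_mul_index
    rw [Subgroup.index_comap_of_surjective K hc.surj, hC] at h1
    have h2 := K.card_mul_index
    rw [hX] at h2
    exact Nat.eq_of_mul_eq_mul_right (Nat.pos_of_ne_zero K.index_ne_zero_of_finite) (by linarith)
  -- every element of order five lifts to one
  have hlift : ∀ y : H ⧸ N, orderOf y = 5 → ∃ g : H, π g = y ∧ orderOf (g : G) = 5 := by
    intro y hy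
    obtain ⟨a, rfl⟩ := hc.surj y
    have h5 : π a ^ 5 = 1 := hy ▸ pow_orderOf_eq_one (π a)
    refine ⟨a ^ 6, by rw [map_pow, pow_succ, h5, one_mul], ?_⟩
    have h10 : (a : G) ^ 10 = 1 := by
      rcases (hc.ker (a ^ 5)).mp (by rw [map_pow, h5]) with e | e <;> push_cast at e
      · rw [show 10 = 5 * 2 from rfl, pow_mul, e, one_pow]
      · rw [show 10 = 5 * 2 from rfl, pow_mul, e, pow_two, htt]
    haveI := Fact.mk (show Nat.Prime 5 by decide)
    refine orderOf_eq_prime ?_ fun e => ?_
    · push_cast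
      rw [← pow_mul, show 6 * 5 = 10 * 3 from rfl, pow_mul, h10, one_pow]
    · have h1 : π (a ^ 6) = 1 := by rw [show a ^ 6 = 1 from Subtype.ext e, map_one]
      rw [map_pow, pow_succ, h5, one_mul] at h1
      rw [h1, orderOf_one] at hy
      omega
  -- of the two lifts of an element of order dividing five only one has such order
  have huniq : ∀ a b : H, π a = π b → (a : G) ^ 5 = 1 → (b : G) ^ 5 = 1 → (a : G) = b := by
    intro a b hab ha hb
    rcases hc.eq_or hab with e | e
    · exact e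
    · exfalso
      rw [e, (hcomm _ b.2).mul_pow, hb, one_mul, show 5 = 2 * 2 + 1 from rfl, pow_succ, pow_mul,
        pow_two t, htt, one_pow, one_mul] at ha
      have := ht.1
      rw [ha, orderOf_one] at this
      omega
  have hconj5 : ∀ (a : H) (g : G), g ^ 5 = 1 → ((a : G) * g * (a : G)⁻¹) ^ 5 = 1 := by
    intro a g hg
    rw [conj_pow, hg, mul_one, mul_inv_cancel]
  have hfix : ∀ g : H, orderOf (g : G) = 5 →
      Subgroup.normalizer (Subgroup.zpowers (g : G) : Set G) ≤ H := fun g hg =>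
    h.fiveInv_norm _ _ hg ht.1 (hcomm _ g.2)
  have hcent : ∀ y : H ⧸ N, orderOf y = 5 →
      Nat.card (Subgroup.centralizer ({y} : Set (H ⧸ N))) = 5 := by
    intro y hy
    obtain ⟨g, rfl, hg⟩ := hlift y hy
    have hg5 : (g : G) ^ 5 = 1 := hg ▸ pow_orderOf_eq_one (g : G)
    have h1 : ((Subgroup.centralizer ({π g} : Set (H ⧸ N))).comap π).map H.subtype =
        Subgroup.centralizer ({(g : G)} : Set G) := by
      ext z
      constructor
      · rintro ⟨a, ha, rfl⟩
        rw [SetLike.mem_coe, Subgroup.mem_comap, Subgroup.mem_centralizer_singleton_iff,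
          ← map_mul, ← map_mul] at ha
        refine Subgroup.mem_centralizer_singleton_iff.mpr ?_
        have h2 : π (a * g * a⁻¹) = π g := by
          rw [map_mul, ha, ← map_mul, mul_inv_cancel_right]
        exact mul_inv_eq_iff_eq_mul.mp (huniq _ _ h2 (hconj5 a _ hg5) hg5)
      · intro hz
        have hzH : z ∈ H := hfix g hg (Subgroup.mem_normalizer_fintype fun n hn => by
          obtain ⟨k, rfl⟩ := Subgroup.mem_zpowers_iff.mp hn
          have h2 : Commute z (g : G) := Subgroup.mem_centralizer_singleton_iff.mp hz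
          rw [(h2.zpow_right k).eq, mul_inv_cancel_right]
          exact hn)
        refine ⟨⟨z, hzH⟩, ?_, rfl⟩
        rw [SetLike.mem_coe, Subgroup.mem_comap, Subgroup.mem_centralizer_singleton_iff,
          ← map_mul, ← map_mul]
        exact congrArg π (Subtype.ext (Subgroup.mem_centralizer_singleton_iff.mp hz))
    have h2 := hcomap (Subgroup.centralizer ({π g} : Set (H ⧸ N)))
    rw [← Subgroup.card_map_of_injective H.subtype_injective, h1, h.cent_five _ hg] at h2
    omega
  have hsyl : Nat.card (Sylow 5 (H ⧸ N)) = 36 := by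
    haveI := Fact.mk (show Nat.Prime 5 by decide)
    obtain ⟨y, hy⟩ := exists_prime_orderOf_dvd_card' (G := H ⧸ N) 5 (by rw [hX]; norm_num)
    obtain ⟨g, rfl, hg⟩ := hlift y hy
    have hg5 : (g : G) ^ 5 = 1 := hg ▸ pow_orderOf_eq_one (g : G)
    obtain ⟨P, hP⟩ := (IsPGroup.of_card (p := 5) (n := 1)
      (by rw [Nat.card_zpowers, hy]; rfl) : IsPGroup 5 (Subgroup.zpowers (π g))).exists_le_sylow
    have hP5 : Nat.card P = 5 := by
      obtain ⟨n, hn⟩ := IsPGroup.iff_card.mp P.isPGroup'
      have hd : 5 ^ n ∣ 720 := hn ▸ hX ▸ Subgroup.card_subgroup_dvd_card (P : Subgroup (H ⧸ N))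
      have h1 : 5 ∣ 5 ^ n := by
        have h0 := Subgroup.card_dvd_of_le hP
        rw [Nat.card_zpowers, hy] at h0
        exact h0.trans hn.dvd
      have hn1 : n ≤ 1 := by
        by_contra hc'
        exact absurd ((pow_dvd_pow 5 (show 2 ≤ n by omega)).trans hd) (by norm_num)
      interval_cases n
      · norm_num at h1
      · simpa using hn
    have hPeq : Subgroup.zpowers (π g) = P :=
      Subgroup.eq_of_le_of_card_ge hP (by rw [hP5, Nat.card_zpowers, hy])
    refine P.card_eq_index_normalizer.trans ?_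
    show (Subgroup.normalizer ((P : Subgroup (H ⧸ N)) : Set (H ⧸ N))).index = 36
    rw [← hPeq]
    have h1 : ((Subgroup.normalizer (Subgroup.zpowers (π g) : Set (H ⧸ N))).comap π).map H.subtype =
        Subgroup.normalizer (Subgroup.zpowers (g : G) : Set G) := by
      ext z
      constructor
      · rintro ⟨a, ha, rfl⟩
        refine Subgroup.mem_normalizer_fintype fun n hn => ?_
        obtain ⟨k, rfl⟩ := Subgroup.mem_zpowers_iff.mp hn
        have h2 : π (a * g ^ k * a⁻¹) ∈ Subgroup.zpowers (π g) := by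
          rw [map_mul, map_mul, map_inv]
          exact ((Subgroup.mem_normalizer_iff.mp ha) _).mp
            ((map_zpow π g k).symm ▸ zpow_mem (Subgroup.mem_zpowers _) k)
        obtain ⟨m, hm⟩ := Subgroup.mem_zpowers_iff.mp h2
        have h3 := huniq (a * g ^ k * a⁻¹) (g ^ m) (by rw [map_zpow π g m]; exact hm.symm) ?_ ?_
        · push_cast at h3
          exact Subgroup.mem_zpowers_iff.mpr ⟨m, h3.symm⟩
        · push_cast
          exact hconj5 a _ (by rw [← zpow_natCast, zpow_comm, zpow_natCast, hg5, one_zpow])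
        · push_cast
          rw [← zpow_natCast, zpow_comm, zpow_natCast, hg5, one_zpow]
      · intro hz
        refine ⟨⟨z, hfix g hg hz⟩, ?_, rfl⟩
        refine Subgroup.mem_normalizer_fintype fun n hn => ?_
        obtain ⟨k, rfl⟩ := Subgroup.mem_zpowers_iff.mp hn
        obtain ⟨m, hm⟩ := Subgroup.mem_zpowers_iff.mp
          (((Subgroup.mem_normalizer_iff.mp hz) _).mp
            (zpow_mem (Subgroup.mem_zpowers (g : G)) k))
        refine Subgroup.mem_zpowers_iff.mpr ⟨m, ?_⟩
        rw [← map_zpow π g k, ← map_zpow π g m, ← map_inv π, ← map_mul, ← map_mul]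
        exact congrArg π (Subtype.ext (by push_cast; exact hm))
    have h2 := hcomap (Subgroup.normalizer (Subgroup.zpowers (π g) : Set (H ⧸ N)))
    rw [← Subgroup.card_map_of_injective H.subtype_injective, h1, h.norm_five _ hg] at h2
    have h3 := Subgroup.card_mul_index
      (Subgroup.normalizer (Subgroup.zpowers (π g) : Set (H ⧸ N)))
    rw [hX, show Nat.card (Subgroup.normalizer (Subgroup.zpowers (π g) : Set (H ⧸ N))) = 20 by
      omega] at h3
    omega
  obtain ⟨A, -, hA, hcase⟩ := hsix hX hsyl hcent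
  exact h.false_of_cover ht hC hc hA hcase

end CfsgLib.M12Count
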