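import Cfsg.Agent.M12Count.Defs
import Cfsg.Agent.BaerSuzuki.Basic
import Mathlib.GroupTheory.SpecificGroups.Cyclic
import Mathlib.GroupTheory.GroupAction.ConjAct

/-!
Double counting of pairs whose product has a given involution among its powers.

For conjugation-closed sets `K`, `K'` and an involution `t`, the sets of pairs `(x, y) ∈ K × K'`
with `t ∈ ⟨x * y⟩` are disjoint for different `t`.
-/

set_option autoImplicit false
set_option linter.style.haveILetI false

namespace CfsgLib.M12Count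

variable {G : Type*} [Group G] [Finite G]

/-- The pairs of `K × K'` whose product has `t` among its powers. -/
def pairsThrough (K K' : Set G) (t : G) : Set (G × G) :=
  {p | p.1 ∈ K ∧ p.2 ∈ K' ∧ t ∈ Subgroup.zpowers (p.1 * p.2)}

theorem involution_eq_of_mem_zpowers {z t v : G} (ht : orderOf t = 2) (hv : orderOf v = 2)
    (h1 : t ∈ Subgroup.zpowers z) (h2 : v ∈ Subgroup.zpowers z) : t = v := by
  classical
  haveI := Fintype.ofFinite G
  set Z := Subgroup.zpowers z
  have hd : 2 ∣ Fintype.card Z := by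
    rw [← Nat.card_eq_fintype_card, ← ht, ← Subgroup.orderOf_mk t h1]
    exact orderOf_dvd_natCard _
  have hc := IsCyclic.card_orderOf_eq_totient (α := Z) hd
  rw [Nat.totient_two, Finset.card_eq_one] at hc
  obtain ⟨a, ha⟩ := hc
  have key : ∀ w : G, ∀ hw : w ∈ Z, orderOf w = 2 → (⟨w, hw⟩ : Z) = a := fun w hw h => by
    have : (⟨w, hw⟩ : Z) ∈ ({a} : Finset Z) := ha ▸ Finset.mem_filter.mpr
      ⟨Finset.mem_univ _, by rw [Subgroup.orderOf_mk, h]⟩
    simpa using this
  exact congrArg Subtype.val ((key t h1 ht).trans (key v h2 hv).symm)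

/-- The double count. -/
theorem pair_bound {K K' : Set G} (hK : ∀ g x : G, x ∈ K → g * x * g⁻¹ ∈ K)
    (hK' : ∀ g x : G, x ∈ K' → g * x * g⁻¹ ∈ K') {t : G} (ht : orderOf t = 2) :
    Nat.card (conjugatesOf t) * Nat.card (pairsThrough K K' t) ≤ Nat.card K * Nat.card K' := by
  classical
  rw [← Nat.card_prod, ← Nat.card_prod]
  have hch : ∀ v : conjugatesOf t, ∃ g : G, g * t * g⁻¹ = v := fun v => isConj_iff.mp v.2
  choose g hg using hch
  refine Nat.card_le_card_of_injective
    (fun a : conjugatesOf t × pairsThrough K K' t =>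
      ((⟨g a.1 * (a.2 : G × G).1 * (g a.1)⁻¹, hK _ _ a.2.2.1⟩ : K),
       (⟨g a.1 * (a.2 : G × G).2 * (g a.1)⁻¹, hK' _ _ a.2.2.2.1⟩ : K'))) ?_
  rintro ⟨v, ⟨⟨x, y⟩, hxy⟩⟩ ⟨w, ⟨⟨x', y'⟩, hxy'⟩⟩ h
  simp only [Prod.mk.injEq, Subtype.mk.injEq] at h
  obtain ⟨h1, h2⟩ := h
  have hmem : ∀ (v : conjugatesOf t) (a b : G), t ∈ Subgroup.zpowers (a * b) →
      (v : G) ∈ Subgroup.zpowers (g v * a * (g v)⁻¹ * (g v * b * (g v)⁻¹)) := by
    intro v a b hab
    obtain ⟨k, hk⟩ := Subgroup.mem_zpowers_iff.mp hab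
    refine Subgroup.mem_zpowers_iff.mpr ⟨k, ?_⟩
    rw [show g v * a * (g v)⁻¹ * (g v * b * (g v)⁻¹) = g v * (a * b) * (g v)⁻¹ by group,
      conj_zpow, hk, hg]
  have hord : ∀ v : conjugatesOf t, orderOf (v : G) = 2 := fun v => by
    rw [← hg v, ← ht]; exact MulEquiv.orderOf_eq (MulAut.conj (g v)) t
  have hvw : v = w := by
    have m1 := hmem v x y hxy.2.2
    have m2 := hmem w x' y' hxy'.2.2
    rw [h1, h2] at m1
    exact Subtype.ext (involution_eq_of_mem_zpowers (hord v) (hord w) m1 m2)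
  subst hvw
  simp only [mul_left_inj, mul_right_inj] at h1 h2
  subst h1 h2
  rfl

omit [Finite G] in
theorem conjugatesOf_closed (t : G) : ∀ g x : G, x ∈ conjugatesOf t → g * x * g⁻¹ ∈ conjugatesOf t :=
  fun g _ hx => IsConj.trans hx (isConj_iff.mpr ⟨g, rfl⟩)

omit [Finite G] in
theorem orderOf_closed (n : ℕ) : ∀ g x : G, x ∈ {y : G | orderOf y = n} →
    g * x * g⁻¹ ∈ {y : G | orderOf y = n} :=
  fun g x (hx : orderOf x = n) => (MulEquiv.orderOf_eq (MulAut.conj g) x).trans hx

/-- The double count when the first set is the class of `t` itself. -/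
theorem pair_bound_left {K' : Set G} (hK' : ∀ g x : G, x ∈ K' → g * x * g⁻¹ ∈ K') {t : G}
    (ht : orderOf t = 2) :
    Nat.card (pairsThrough (conjugatesOf t) K' t) ≤ Nat.card K' := by
  have h := pair_bound (conjugatesOf_closed t) hK' ht
  haveI : Nonempty (conjugatesOf t) := ⟨⟨t, IsConj.refl t⟩⟩
  exact Nat.le_of_mul_le_mul_left h Nat.card_pos

/-- Summed over all involutions in the second place. -/
theorem pair_bound_inv {t : G} (ht : orderOf t = 2) :
    Nat.card (pairsThrough (conjugatesOf t) {y : G | orderOf y = 2} t) ≤ cnt G 2 :=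
  pair_bound_left (orderOf_closed 2) ht

/-- A lower bound for the number of pairs from a family of them. -/
theorem card_le_pairs {K K' : Set G} {t : G} {ι : Type*} (f : ι → G × G)
    (hf : Function.Injective f) (h : ∀ i, f i ∈ pairsThrough K K' t) :
    Nat.card ι ≤ Nat.card (pairsThrough K K' t) :=
  Nat.card_le_card_of_injective (fun i => (⟨f i, h i⟩ : pairsThrough K K' t))
    fun _ _ e => hf (congrArg Subtype.val e)

omit [Finite G] in
/-- Of the two lifts of an element of odd order, one has `t` among its powers. -/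
theorem mem_zpowers_or {t x y : G} (hxt : Commute (x * y) t) {m : ℕ} (hm : Odd m) (ht : t * t = 1)
    (h : (x * y) ^ m = 1 ∨ (x * y) ^ m = t) :
    t ∈ Subgroup.zpowers (x * y) ∨ t ∈ Subgroup.zpowers (x * (y * t)) := by
  rcases h with h | h
  · right
    have htm : t ^ m = t := by
      obtain ⟨k, rfl⟩ := hm
      rw [pow_succ, pow_mul, pow_two, ht, one_pow, one_mul]
    refine Subgroup.mem_zpowers_iff.mpr ⟨(m : ℤ), ?_⟩
    rw [zpow_natCast, ← mul_assoc, hxt.mul_pow, h, htm, one_mul]
  · exact Or.inl (Subgroup.mem_zpowers_iff.mpr ⟨(m : ℤ), by rw [zpow_natCast, h]⟩)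

/-- An involution outside `O_2` has at least three conjugates with which it has a product of odd
order. -/
theorem three_odd_products {x : G} (hx : orderOf x = 2) (hO : x ∉ Cfsg.pCore 2 G) :
    3 ≤ Nat.card {y : G // IsConj x y ∧ Odd (orderOf (x * y))} := by
  classical
  obtain ⟨h, h1, hodd, hinv⟩ := BaerSuzuki.involution_inverts_odd hx hO
  have hxx : x * x = 1 := by rw [← pow_two, ← hx, pow_orderOf_eq_one]
  have hxi : x⁻¹ = x := inv_eq_of_mul_eq_one_right hxx
  have hxh : x * h = h⁻¹ * x := by rw [← hinv]; simp [mul_assoc]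
  have hxh' : x * h⁻¹ = h * x := by
    have := congrArg (fun z => h * z * h⁻¹) hxh
    simpa [mul_assoc] using this.symm
  -- an element with square `h`
  obtain ⟨k, hk⟩ : ∃ k : G, k * k = h ∧ x * k = k⁻¹ * x := by
    obtain ⟨j, hj⟩ := hodd
    have hc : SemiconjBy x (h ^ (j + 1)) ((h⁻¹) ^ (j + 1)) := SemiconjBy.pow_right hxh (j + 1)
    refine ⟨h ^ (j + 1), ?_, by rw [hc.eq, inv_pow]⟩
    rw [← pow_add, show j + 1 + (j + 1) = orderOf h + 1 by omega, pow_succ, pow_orderOf_eq_one,
      one_mul]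
  have hc1 : IsConj x (x * h) := isConj_iff.mpr ⟨k⁻¹, by
    rw [inv_inv, ← hk.2, mul_assoc, hk.1]⟩
  have hc2 : IsConj x (x * h⁻¹) := isConj_iff.mpr ⟨k, by
    rw [← hk.1, mul_inv_rev, ← mul_assoc x, show x * k⁻¹ = k * x by
      have := congrArg (fun z => k * z * k⁻¹) hk.2
      simpa [mul_assoc] using this.symm]⟩
  have hne : h ≠ h⁻¹ := fun e => by
    have : h ^ 2 = 1 := by rw [pow_two]; nth_rw 2 [e]; exact mul_inv_cancel h
    have := orderOf_dvd_of_pow_eq_one this
    rcases (Nat.dvd_prime Nat.prime_two).mp this with e1 | e2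
    · exact h1 (orderOf_eq_one_iff.mp e1)
    · rw [e2] at hodd; exact absurd hodd (by decide)
  let f : Fin 3 → {y : G // IsConj x y ∧ Odd (orderOf (x * y))} :=
    ![⟨x, IsConj.refl x, by rw [hxx, orderOf_one]; exact odd_one⟩,
      ⟨x * h, hc1, by rw [← mul_assoc, hxx, one_mul]; exact hodd⟩,
      ⟨x * h⁻¹, hc2, by rw [← mul_assoc, hxx, one_mul, orderOf_inv]; exact hodd⟩]
  have hf : Function.Injective f := by
    intro i j e
    fin_cases i <;> fin_cases j <;> simp [f, h1, hne, hne.symm] at e ⊢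
  simpa using Nat.card_le_card_of_injective f hf

omit [Finite G] in
/-- The class of `t` has as many elements as the index of the centraliser. -/
theorem card_conjugatesOf_mul (t : G) :
    Nat.card (conjugatesOf t) * Nat.card (Subgroup.centralizer ({t} : Set G)) = Nat.card G := by
  have h1 : Nat.card (conjugatesOf t) = (Subgroup.centralizer ({t} : Set G)).index := by
    symm
    refine Nat.card_eq_of_bijective (Quotient.lift
      (fun g => (⟨g * t * g⁻¹, isConj_iff.mpr ⟨g, rfl⟩⟩ : conjugatesOf t)) ?_) ⟨?_, ?_⟩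
    · intro g g' hgg'
      have h1 := Subgroup.mem_centralizer_singleton_iff.mp (QuotientGroup.leftRel_apply.mp hgg')
      refine Subtype.ext ?_
      show g * t * g⁻¹ = g' * t * g'⁻¹
      have h2 : g' * t = g * t * (g⁻¹ * g') := by
        rw [mul_assoc g t, ← h1]; group
      rw [h2]; group
    · rintro ⟨g⟩ ⟨g'⟩ e
      have e' : g * t * g⁻¹ = g' * t * g'⁻¹ := congrArg Subtype.val e
      apply Quotient.sound
      refine QuotientGroup.leftRel_apply.mpr (Subgroup.mem_centralizer_singleton_iff.mpr ?_)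
      calc g⁻¹ * g' * t = g⁻¹ * (g' * t * g'⁻¹) * g' := by group
        _ = g⁻¹ * (g * t * g⁻¹) * g' := by rw [e']
        _ = t * (g⁻¹ * g') := by group
    · rintro ⟨y, hy⟩
      obtain ⟨g, rfl⟩ := isConj_iff.mp hy
      exact ⟨QuotientGroup.mk g, rfl⟩
  rw [h1, mul_comm, Subgroup.card_mul_index]

end CfsgLib.M12Count
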