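import Cfsg.Agent.M12Count.SmallLocal
import Cfsg.Agent.M12Count.Pairs
import Cfsg.Agent.SylowToolkit.Counting

/-!
The centraliser of order 240: the second involution class and the centraliser of order 192.
-/

set_option autoImplicit false
set_option linter.style.haveILetI false

namespace CfsgLib.M12Count

open FiveData

theorem mem_class_finset {G : Type*} [Monoid G] [Fintype G] [DecidableEq G] {v w : G}
    [Fintype (conjugatesOf v)] : w ∈ (conjugatesOf v).toFinset ↔ IsConj v w :=
  Set.mem_toFinset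

variable {G : Type*} [Group G] [Finite G]

/-- The elements of order three commuting with `w`. -/
noncomputable def threeCount (w : G) : ℕ := Nat.card {y : G // orderOf y = 3 ∧ Commute y w}

omit [Finite G] in
theorem threeCount_conj {v w : G} (h : IsConj v w) : threeCount v = threeCount w := by
  obtain ⟨g, rfl⟩ := isConj_iff.mp h
  refine Nat.card_congr ((MulAut.conj g).toEquiv.subtypeEquiv fun y => ?_)
  show orderOf y = 3 ∧ Commute y v ↔ orderOf (g * y * g⁻¹) = 3 ∧ Commute (g * y * g⁻¹) (g * v * g⁻¹)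
  rw [show orderOf (g * y * g⁻¹) = orderOf y from MulEquiv.orderOf_eq (MulAut.conj g) y,
    Commute.conj_iff]

theorem cnt_six_eq_sum [Fintype G] [DecidableEq G] :
    cnt G 6 = ∑ w ∈ (Finset.univ.filter fun w : G => orderOf w = 2), threeCount w := by
  have e1 : {g : G // orderOf g = 6} ≃
      Σ w : {w : G // orderOf w = 2}, {y : G // orderOf y = 3 ∧ Commute y (w : G)} :=
    { toFun := fun g => ⟨⟨g.1 ^ 3, by rw [orderOf_pow, g.2]; rfl⟩,
        ⟨g.1 ^ 4, by rw [orderOf_pow, g.2]; rfl, Commute.pow_pow (Commute.refl g.1) 4 3⟩⟩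
      invFun := fun p => ⟨(p.1 : G) * (p.2 : G), by
        rw [(p.2.2.2.symm).orderOf_mul_eq_mul_orderOf_of_coprime (by rw [p.1.2, p.2.2.1]; norm_num),
          p.1.2, p.2.2.1]⟩
      left_inv := fun g => Subtype.ext (by
        show g.1 ^ 3 * g.1 ^ 4 = g.1
        have h6 : g.1 ^ 6 = 1 := orderOf_dvd_iff_pow_eq_one.mp (dvd_of_eq g.2)
        rw [← pow_add, show 3 + 4 = 6 + 1 from rfl, pow_succ, h6, one_mul])
      right_inv := fun p => by
        obtain ⟨⟨w, hw⟩, ⟨y, hy, hc⟩⟩ := p
        have hw2 : w ^ 2 = 1 := hw ▸ pow_orderOf_eq_one w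
        have hy3 : y ^ 3 = 1 := hy ▸ pow_orderOf_eq_one y
        have h3 : (w * y) ^ 3 = w := by
          rw [hc.symm.mul_pow, hy3, mul_one, pow_succ, hw2, one_mul]
        have h4 : (w * y) ^ 4 = y := by
          rw [hc.symm.mul_pow, show 4 = 2 * 2 from rfl, pow_mul, hw2, one_pow, one_mul,
            show 2 * 2 = 3 + 1 from rfl, pow_succ, hy3, one_mul]
        refine Sigma.subtype_ext (Subtype.ext h3) h4 }
  rw [cnt, Nat.card_congr e1, Nat.card_sigma]
  exact (Finset.sum_subtype _ (by simp) threeCount).symm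

theorem six_split [Fintype G] [DecidableEq G] {t c : G} (ht : orderOf t = 2) (hc : orderOf c = 2)
    (hcl : ∀ w : G, orderOf w = 2 → IsConj w t ∨ IsConj w c) (hne : ¬ IsConj c t) :
    cnt G 6 = Nat.card (conjugatesOf t) * threeCount t +
      Nat.card (conjugatesOf c) * threeCount c := by
  classical
  have hord : ∀ v w : G, IsConj v w → orderOf w = orderOf v := fun v w h => by
    obtain ⟨g, rfl⟩ := isConj_iff.mp h
    exact MulEquiv.orderOf_eq (MulAut.conj g) v
  have hsum : ∀ v : G, ∑ w ∈ (conjugatesOf v).toFinset, threeCount w =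
      Nat.card (conjugatesOf v) * threeCount v := fun v => by
    rw [Finset.sum_congr rfl (fun w hw => (threeCount_conj (mem_class_finset.mp hw)).symm),
      Finset.sum_const, smul_eq_mul, Set.toFinset_card, Nat.card_eq_fintype_card]
  have hu : (Finset.univ.filter fun w : G => orderOf w = 2) =
      (conjugatesOf t).toFinset ∪ (conjugatesOf c).toFinset := by
    ext w
    simp only [Finset.mem_filter, Finset.mem_univ, true_and, Finset.mem_union, mem_class_finset]
    exact ⟨fun h => (hcl w h).imp IsConj.symm IsConj.symm,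
      fun h => h.elim (fun e => (hord t w e).trans ht) fun e => (hord c w e).trans hc⟩
  rw [cnt_six_eq_sum, hu, Finset.sum_union, hsum, hsum]
  rw [Finset.disjoint_left]
  intro w h1 h2
  exact hne ((mem_class_finset.mp h2).trans (mem_class_finset.mp h1).symm)

namespace FiveFrame

variable {t : G} {φ : Subgroup.centralizer ({t} : Set G) →* Equiv.Perm (Fin 5)}
  (hF : FiveFrame t φ)

include hF

omit [Finite G] in
theorem map_three {y : Subgroup.centralizer ({t} : Set G)} (hy : orderOf (y : G) = 3) :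
    φ y * (φ y * φ y) = 1 ∧ φ y ≠ 1 := by
  constructor
  · have h : y ^ 3 = 1 := by rw [← hy, Subgroup.orderOf_coe, pow_orderOf_eq_one]
    rw [← map_mul, ← map_mul, show y * (y * y) = y ^ 3 by rw [pow_succ', pow_two], h, map_one]
  · intro e
    rcases (hF.ker y).mp e with e | e <;> rw [e] at hy
    · simp at hy
    · rw [hF.ord] at hy; norm_num at hy

theorem three_t (y : G) (hy : orderOf y = 3) (hc : Commute y t) :
    Nat.card (Subgroup.centralizer ({t} : Set G) ⊓ Subgroup.centralizer ({y} : Set G) :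
      Subgroup G) = 12 := by
  classical
  set y' : Subgroup.centralizer ({t} : Set G) :=
    ⟨y, Subgroup.mem_centralizer_singleton_iff.mpr hc⟩ with hy'
  have h3 := hF.map_three (y := y') hy
  have key : ∀ x : Subgroup.centralizer ({t} : Set G),
      (x : G) * y = y * x ↔ φ x * φ y' = φ y' * φ x := by
    intro x
    constructor
    · intro e
      rw [← map_mul, ← map_mul]
      exact congrArg φ (Subtype.ext e)
    · intro e
      rcases hF.fiber (x := x * y' * x⁻¹) (y := y') (by
        rw [map_mul, map_mul, map_inv, e, mul_inv_cancel_right]) with h | h <;>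
        simp only [hy', Subgroup.coe_mul, Subgroup.coe_inv] at h
      · exact mul_inv_eq_iff_eq_mul.mp h
      · exfalso
        have h1 : orderOf ((x : G) * y * (x : G)⁻¹) = 3 :=
          (MulEquiv.orderOf_eq (MulAut.conj (x : G)) y).trans hy
        rw [h, hc.orderOf_mul_eq_mul_orderOf_of_coprime (by rw [hy, hF.ord]; norm_num), hy,
          hF.ord] at h1
        norm_num at h1
  have e : (Subgroup.centralizer ({t} : Set G) ⊓ Subgroup.centralizer ({y} : Set G) : Subgroup G) ≃
      {x : Subgroup.centralizer ({t} : Set G) // φ x ∈ {s : S5 | s * φ y' = φ y' * s}} :=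
    { toFun := fun x => ⟨⟨x.1, x.2.1⟩,
        (key _).mp (Subgroup.mem_centralizer_singleton_iff.mp x.2.2)⟩
      invFun := fun x => ⟨x.1.1, x.1.2,
        Subgroup.mem_centralizer_singleton_iff.mpr ((key x.1).mpr x.2)⟩
      left_inv := fun x => rfl
      right_inv := fun x => rfl }
  rw [Nat.card_congr e, hF.card_fiber_set, Nat.card_eq_fintype_card]
  have : Fintype.card {s : S5 | s * φ y' = φ y' * s} = 6 := by
    rw [← Set.toFinset_card, Set.toFinset_ofPred]
    exact card_cent_three _ h3.1 h3.2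
  omega

theorem threeCount_t : threeCount t = 20 := by
  classical
  let f : {y : G // orderOf y = 3 ∧ Commute y t} → {σ : S5 // σ * (σ * σ) = 1 ∧ σ ≠ 1} := fun y =>
    ⟨φ ⟨y.1, Subgroup.mem_centralizer_singleton_iff.mpr y.2.2⟩, hF.map_three y.2.1⟩
  rw [threeCount, Nat.card_eq_of_bijective f ⟨?_, ?_⟩, Nat.card_eq_fintype_card,
    Fintype.card_subtype, card_three]
  · intro a b e
    refine Subtype.ext ?_
    rcases hF.fiber (congrArg Subtype.val e) with h | h
    · exact h
    · exfalso
      have h1 := a.2.1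
      rw [show (a : G) = b * t from h,
        b.2.2.orderOf_mul_eq_mul_orderOf_of_coprime (by rw [b.2.1, hF.ord]; norm_num), b.2.1,
        hF.ord] at h1
      norm_num at h1
  · rintro ⟨σ, hσ, hσ1⟩
    obtain ⟨x, rfl⟩ := hF.surj σ
    have h3 : φ (x ^ 3) = 1 := by rw [map_pow, pow_succ', pow_two, hσ]
    have hx12 : x ^ 6 = 1 := by
      rw [show 6 = 3 * 2 from rfl, pow_mul]
      refine Subtype.ext ?_
      rw [Subgroup.coe_pow, pow_two]
      rcases (hF.ker _).mp h3 with e | e <;> rw [e]
      · exact mul_one _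
      · exact hF.tt
    have hφ : φ (x ^ 4) = φ x := by rw [pow_succ, map_mul, h3, one_mul]
    have hord : orderOf (((x ^ 4 : Subgroup.centralizer ({t} : Set G))) : G) = 3 := by
      refine orderOf_eq_prime ?_ (hF.ne_one_of_map (by rw [hφ]; exact hσ1))
      rw [← Subgroup.coe_pow, ← pow_mul, show 4 * 3 = 6 * 2 from rfl, pow_mul, hx12, one_pow,
        Subgroup.coe_one]
    exact ⟨⟨_, hord, Subgroup.mem_centralizer_singleton_iff.mp (x ^ 4).2⟩, Subtype.ext hφ⟩

/-- The lift of a double transposition in the perfect part. -/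
theorem exists_lift {d : S5} (hd : IsDouble d) :
    ∃ x : Subgroup.centralizer ({t} : Set G), x ∈ hF.core ∧ φ x = d := by
  have : d ∈ hF.core.map φ := by rw [hF.core_map]; exact hd.2.2
  obtain ⟨x, hx, e⟩ := this
  exact ⟨x, hx, e⟩

theorem lift_conj (hG : 64 ∣ Nat.card G) {c x : Subgroup.centralizer ({t} : Set G)}
    (hc : c ∈ hF.core) (hcz : φ c = z0) (hx : x ∈ hF.core) (hd : IsDouble (φ x)) :
    IsConj (c : G) x ∧ IsConj (t * (c : G)) (t * x) := by
  obtain ⟨h, hh⟩ := double_conj _ hd
  obtain ⟨k, rfl⟩ := hF.surj h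
  have h1 : (k * c * k⁻¹)⁻¹ * x = 1 := hF.core_inj hG
    (mul_mem (inv_mem (hF.core_normal.conj_mem c hc k)) hx) (by
      rw [map_mul, map_inv, map_mul, map_mul, map_inv, hcz, hh, inv_mul_cancel])
  have e : (k : G) * c * (k : G)⁻¹ = x := congrArg Subtype.val (inv_mul_eq_one.mp h1)
  refine ⟨isConj_iff.mpr ⟨k, e⟩, isConj_iff.mpr ⟨k, ?_⟩⟩
  rw [← e, show (k : G) * (t * c) * (k : G)⁻¹ = k * t * (c * (k : G)⁻¹) by group, hF.comm k]
  group

theorem pairs_c (hG : 64 ∣ Nat.card G) {c : Subgroup.centralizer ({t} : Set G)}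
    (hc : c ∈ hF.core) (hcz : φ c = z0) (htc : IsConj t (t * (c : G))) :
    195 ≤ Nat.card (conjugatesOf (c : G)) := by
  classical
  refine le_trans ?_ (pair_bound_left (conjugatesOf_closed (c : G)) hF.ord)
  choose l hl hlφ using fun d : {d : S5 // IsDouble d} => hF.exists_lift d.2
  have hconj := fun d : {d : S5 // IsDouble d} =>
    hF.lift_conj hG hc hcz (hl d) (by rw [hlφ]; exact d.2)
  let P := {p : {d : S5 // IsDouble d} × {d : S5 // IsDouble d} //
    ((p.1.1 * p.2.1) ^ 15 : S5) = 1}
  have hP : 195 ≤ Nat.card P := by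
    rw [Nat.card_eq_fintype_card, Fintype.card_subtype]; exact card_odd_pairs
  refine hP.trans (card_le_pairs (fun p : P => (t * (l p.1.1 : G), (l p.1.2 : G))) ?_ ?_)
  · intro p q e
    simp only [Prod.mk.injEq, mul_right_inj] at e
    have h1 := congrArg φ (Subtype.ext e.1 : l p.1.1 = l q.1.1)
    have h2 := congrArg φ (Subtype.ext e.2 : l p.1.2 = l q.1.2)
    rw [hlφ, hlφ] at h1 h2
    exact Subtype.ext (Prod.ext (Subtype.ext h1) (Subtype.ext h2))
  · intro p
    refine ⟨htc.trans (hconj p.1.1).2, (hconj p.1.2).1, Subgroup.mem_zpowers_iff.mpr ⟨15, ?_⟩⟩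
    have hu : (l p.1.1 * l p.1.2) ^ 15 = 1 := hF.core_inj hG (pow_mem (mul_mem (hl _) (hl _)) _)
      (by rw [map_pow, map_mul, hlφ, hlφ]; exact p.2)
    have hcu : Commute t ((l p.1.1 : G) * l p.1.2) :=
      (show Commute t (l p.1.1 : G) from (hF.comm _).symm).mul_right (hF.comm _).symm
    show (t * (l p.1.1 : G) * l p.1.2) ^ (15 : ℤ) = t
    rw [show ((15 : ℤ)) = ((15 : ℕ) : ℤ) from rfl, zpow_natCast, mul_assoc, hcu.mul_pow,
      ← Subgroup.coe_mul, ← Subgroup.coe_pow, hu, Subgroup.coe_one, mul_one,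
      show 15 = 2 * 7 + 1 from rfl, pow_succ, pow_mul, pow_two, hF.tt, one_pow, one_mul]

end FiveFrame

theorem card_centralizer_conj {t v : G} (h : IsConj t v) :
    Nat.card (Subgroup.centralizer ({v} : Set G)) = Nat.card (Subgroup.centralizer ({t} : Set G)) := by
  have h1 := card_conjugatesOf_mul t
  have h2 := card_conjugatesOf_mul v
  rw [h.conjugatesOf_eq] at h1
  have h0 : 0 < Nat.card (conjugatesOf v) := by
    haveI : Nonempty (conjugatesOf v) := ⟨⟨v, IsConj.refl v⟩⟩
    exact Nat.card_pos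
  exact Nat.eq_of_mul_eq_mul_left h0 (h2.trans h1.symm)

theorem Setup.exists_localFacts (h : Setup G) {t : G} (ht : IsFiveInv t)
    (h240 : Nat.card (Subgroup.centralizer ({t} : Set G)) = 240) : ∃ c, LocalFacts t c := by
  classical
  haveI := Fintype.ofFinite G
  obtain ⟨φ, hF⟩ := h.exists_frame ht h240
  have hG : Nat.card G = 95040 := h.hyp.card
  have h64 : 64 ∣ Nat.card G := by rw [hG]; norm_num
  obtain ⟨c, hc, hcz, hco, hcT, hTc, htc, hc64⟩ := hF.exists_c h64
  set C := Subgroup.centralizer ({(c : G)} : Set G)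
  have hne : ¬ IsConj (c : G) t := fun hh => by
    rw [← card_centralizer_conj hh, h240] at hc64
    norm_num at hc64
  have h5 : ¬ 5 ∣ Nat.card C := fun hd => by
    haveI : Fact (Nat.Prime 5) := ⟨by norm_num⟩
    obtain ⟨g, hg⟩ := exists_prime_orderOf_dvd_card' (G := C) 5 hd
    exact hne (h.fiveInv_conj _ t ⟨hco, g, by rw [Subgroup.orderOf_coe, hg],
      Subgroup.mem_centralizer_singleton_iff.mp g.2⟩ ht)
  have h11 : ¬ 11 ∣ Nat.card C := fun hd => by
    haveI : Fact (Nat.Prime 11) := ⟨by norm_num⟩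
    obtain ⟨g, hg⟩ := exists_prime_orderOf_dvd_card' (G := C) 11 hd
    have hmem : (c : G) ∈ Subgroup.centralizer ({(g : G)} : Set G) :=
      Subgroup.mem_centralizer_singleton_iff.mpr
        (Subgroup.mem_centralizer_singleton_iff.mp g.2).symm
    have := Subgroup.orderOf_dvd_natCard _ hmem
    rw [hco, h.cent_eleven _ (by rw [Subgroup.orderOf_coe, hg])] at this
    norm_num at this
  have hcardC : Nat.card C ∣ 64 * 27 := by
    have hd : Nat.card C ∣ 64 * 27 * 55 := by
      have := Subgroup.card_subgroup_dvd_card C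
      rwa [hG] at this
    refine (Nat.Coprime.dvd_mul_right ?_).mp hd
    rw [show 55 = 5 * 11 from rfl]
    exact Nat.Coprime.mul_right (((Nat.Prime.coprime_iff_not_dvd (by norm_num)).mpr h5).symm)
      (((Nat.Prime.coprime_iff_not_dvd (by norm_num)).mpr h11).symm)
  have hKt : Nat.card (conjugatesOf t) = 396 := by
    have := card_conjugatesOf_mul t
    rw [h240, hG] at this
    omega
  set K := Nat.card (conjugatesOf (c : G))
  have hKc : 195 ≤ K := hF.pairs_c h64 hc hcz htc
  have hord : ∀ v : G, IsConj (c : G) v → orderOf v = 2 := fun v hv => by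
    obtain ⟨g, rfl⟩ := isConj_iff.mp hv
    exact (MulEquiv.orderOf_eq (MulAut.conj g) (c : G)).trans hco
  have hordt : ∀ v : G, IsConj t v → orderOf v = 2 := fun v hv => by
    obtain ⟨g, rfl⟩ := isConj_iff.mp hv
    exact (MulEquiv.orderOf_eq (MulAut.conj g) t).trans ht.1
  have hdisj : Disjoint (conjugatesOf t).toFinset (conjugatesOf (c : G)).toFinset := by
    rw [Finset.disjoint_left]
    exact fun w h1 h2 => hne ((mem_class_finset.mp h2).trans
      (mem_class_finset.mp h1).symm)
  have hsub : (conjugatesOf t).toFinset ∪ (conjugatesOf (c : G)).toFinset ⊆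
      Finset.univ.filter fun w : G => orderOf w = 2 := by
    intro w hw
    rcases Finset.mem_union.mp hw with h1 | h1
    · exact Finset.mem_filter.mpr ⟨Finset.mem_univ _, hordt w (mem_class_finset.mp h1)⟩
    · exact Finset.mem_filter.mpr ⟨Finset.mem_univ _, hord w (mem_class_finset.mp h1)⟩
  have hinv : (Finset.univ.filter fun w : G => orderOf w = 2).card = 891 := by
    rw [← h.cnt_two, cnt, Nat.card_eq_fintype_card, Fintype.card_subtype]
  have hu : ((conjugatesOf t).toFinset ∪ (conjugatesOf (c : G)).toFinset).card = 396 + K := by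
    rw [Finset.card_union_of_disjoint hdisj, Set.toFinset_card, Set.toFinset_card, ← hKt]
    simp only [Nat.card_eq_fintype_card, K]
  have hle := Finset.card_le_card hsub
  rw [hu, hinv] at hle
  have hCK : K * Nat.card C = 95040 := (card_conjugatesOf_mul (c : G)).trans hG
  have hcC : Nat.card C = 192 := by
    obtain ⟨u, hu64⟩ := hc64
    change Nat.card C = 64 * u at hu64
    rw [hu64] at hcardC hCK ⊢
    have hu27 : u ∣ 27 := Nat.dvd_of_mul_dvd_mul_left (by norm_num) hcardC
    have hu' : u = 1 ∨ u = 3 ∨ u = 9 ∨ u = 27 := by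
      have key : ∀ u ∈ Finset.range 28, u ∣ 27 → u = 1 ∨ u = 3 ∨ u = 9 ∨ u = 27 := by decide
      exact key u (Finset.mem_range.mpr (Nat.lt_succ_of_le (Nat.le_of_dvd (by norm_num) hu27))) hu27
    rcases hu' with rfl | rfl | rfl | rfl <;> omega
  have hK495 : K = 495 := by rw [hcC] at hCK; omega
  have hcl : ∀ w : G, orderOf w = 2 → IsConj w t ∨ IsConj w c := by
    have heq := Finset.eq_of_subset_of_card_le hsub (by rw [hu, hinv, hK495])
    intro w hw
    have : w ∈ (conjugatesOf t).toFinset ∪ (conjugatesOf (c : G)).toFinset :=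
      heq ▸ Finset.mem_filter.mpr ⟨Finset.mem_univ _, hw⟩
    rcases Finset.mem_union.mp this with h1 | h1
    · exact Or.inl (mem_class_finset.mp h1).symm
    · exact Or.inr (mem_class_finset.mp h1).symm
  haveI : Fact (Nat.Prime 3) := ⟨by norm_num⟩
  have hthree : threeCount (c : G) = Nat.card (Sylow 3 C) * 2 := by
    have e : {y : G // orderOf y = 3 ∧ Commute y (c : G)} ≃ {x : C // orderOf x = 3} :=
      { toFun := fun y => ⟨⟨y.1, Subgroup.mem_centralizer_singleton_iff.mpr y.2.2⟩,
          by rw [Subgroup.orderOf_mk]; exact y.2.1⟩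
        invFun := fun x => ⟨x.1.1, by rw [Subgroup.orderOf_coe, x.2],
          Subgroup.mem_centralizer_singleton_iff.mp x.1.2⟩
        left_inv := fun y => rfl
        right_inv := fun x => rfl }
    rw [threeCount, Nat.card_congr e,
      SylowToolkit.card_orderOf_eq_prime (p := 3) (m := 64) (by rw [hcC]) (by norm_num)]
  have hsyl : Nat.card (Sylow 3 C) = 16 := by
    have h6 := six_split ht.1 hco hcl hne
    rw [hKt, hF.threeCount_t, show Nat.card (conjugatesOf (c : G)) = 495 from hK495, hthree] at h6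
    have hmem := h.hyp.mem 6 (by rw [h6]; omega)
    rw [h6] at hmem
    have hmem' : Nat.card (Sylow 3 C) ∈ ({16} : Finset ℕ) := by
      simp only [countValues, Finset.mem_insert, Finset.mem_singleton] at hmem ⊢
      have hpos : 0 < Nat.card (Sylow 3 C) := Nat.card_pos
      omega
    simpa using hmem'
  obtain ⟨b, hb, hbφ⟩ := hF.exists_lift b0_facts.2.1
  obtain ⟨hcb, htb⟩ := hF.lift_conj h64 hc hcz hb (by rw [hbφ]; exact b0_facts.2.1)
  refine ⟨c, ⟨ht.1, hco, h240, hcC, hcl, hne, hF.three_t, hsyl, hF.two, b, hF.card_two,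
    le_inf hF.two_le hTc, hF.t_mem_two, hcT, hF.mem_two.mpr ?_, ?_, hcb.symm,
    (htc.trans htb).symm⟩⟩
  · rw [hbφ]; exact b0_facts.2.2.2
  · intro e
    exact b0_facts.2.2.1 (by rw [← hbφ, show b = c from Subtype.ext e, hcz])

end CfsgLib.M12Count
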