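import Cfsg.Agent.M12Count.Basic
import Cfsg.Agent.M12Count.Large
import Cfsg.Agent.M12Count.Small
import Cfsg.Agent.M12Count.Middle

/-!
Transfer of the hypothesis on the counts and the case split on the centraliser order.
-/

set_option autoImplicit false

namespace CfsgLib.M12Count

universe u v

theorem countHyp_of_same {G : Type u} [Group G] {M : Type v} [Group M] (hM : CountHyp M)
    (hcard : Nat.card G = Nat.card M)
    (hnse : {c : ℕ | 0 < c ∧ ∃ n : ℕ, c = Nat.card {g : G // orderOf g = n}} =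
      {c : ℕ | 0 < c ∧ ∃ n : ℕ, c = Nat.card {g : M // orderOf g = n}}) : CountHyp G where
  card := hcard.trans hM.card
  mem n hn := by
    have h : cnt G n ∈ {c : ℕ | 0 < c ∧ ∃ n : ℕ, c = Nat.card {g : G // orderOf g = n}} :=
      ⟨Nat.pos_of_ne_zero hn, n, rfl⟩
    rw [hnse] at h
    obtain ⟨h0, m, hm⟩ := h
    rw [hm]
    exact hM.mem m (by
      show Nat.card {g : M // orderOf g = m} ≠ 0
      omega)
  has891 := by
    obtain ⟨m, hm⟩ := hM.has891
    have h : (891 : ℕ) ∈ {c : ℕ | 0 < c ∧ ∃ n : ℕ, c = Nat.card {g : M // orderOf g = n}} :=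
      ⟨by norm_num, m, hm.symm⟩
    rw [← hnse] at h
    obtain ⟨-, n, hn⟩ := h
    exact ⟨n, hn.symm⟩

/-- The only possible case leaves a centraliser of order 240. -/
theorem Setup.exists_local {G : Type u} [Group G] [Finite G] (h : Setup G) (hsix : SixCases.{u}) :
    ∃ t c : G, LocalFacts t c := by
  obtain ⟨t, ht⟩ := h.exists_fiveInv
  rcases h.fiveInv_cases t ht with h1 | h1 | h1
  · exact ⟨t, h.exists_localFacts ht h1⟩
  · exact absurd h1 (h.not_1440_of hsix ht)
  · exact absurd h1 (h.not_8640 ht)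

end CfsgLib.M12Count
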