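import Cfsg.Agent.M12Count.Defs
import Cfsg.Agent.M12Count.M12SideData
import Cfsg.Agent.Mathieu.Fast
import Cfsg.Agent.Mathieu.Simple

/-!
The element-order counts of the Mathieu group of degree 12.

By conjugation with the stabiliser of the points already fixed, the count is reduced to four
cosets of the stabiliser of two points, each with 720 elements.
-/

set_option autoImplicit false

open scoped Pointwise

namespace CfsgLib.M12Count

open Cfsg CfsgLib.Mathieu

/-- Splitting a conjugation-invariant finite set of permutations by the image of one point. -/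
theorem card_split {α : Type*} [DecidableEq α] [Fintype α] (S : Finset (Equiv.Perm α))
    (K : Subgroup (Equiv.Perm α)) (D : Finset α) (p a q : α)
    (hS : ∀ k ∈ K, ∀ g ∈ S, k * g * k⁻¹ ∈ S) (hp : ∀ k ∈ K, k p = p)
    (htr : ∀ x ∈ D, ∃ k ∈ K, k q = x) (ha : a ∉ D)
    (himg : ∀ g ∈ S, g p ∈ insert a D) :
    S.card = (S.filter fun g => g p = a).card + D.card * (S.filter fun g => g p = q).card := by
  rw [Finset.card_eq_sum_card_fiberwise himg, Finset.sum_insert ha,
    Finset.sum_const_nat (m := (S.filter fun g => g p = q).card)]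
  intro x hx
  obtain ⟨k, hk, rfl⟩ := htr x hx
  refine Finset.card_bij' (fun g _ => k⁻¹ * g * k) (fun g _ => k * g * k⁻¹) ?_ ?_ ?_ ?_
  · intro g hg
    rw [Finset.mem_filter] at hg ⊢
    refine ⟨by simpa using hS _ (inv_mem hk) g hg.1, ?_⟩
    simp [Equiv.Perm.mul_apply, hp k hk, hg.2]
  · intro g hg
    rw [Finset.mem_filter] at hg ⊢
    refine ⟨hS k hk g hg.1, ?_⟩
    have : k⁻¹ p = p := hp _ (inv_mem hk)
    simp only [Equiv.Perm.mul_apply, this, hg.2]
  · intro g _; group
  · intro g _; group

/-- The ten tables of the chain certificate. -/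
def gens12 : List (List ℕ) := chain12.flatMap fun l => l.2.1

/-- The table of a word. -/
def wtab (w : List ℕ) : List ℕ := w.foldr (fun i r => fcomp (gens12.getD i idTab) r) idTab

theorem rep_mul {H : Subgroup (Equiv.Perm GolayPt)} {s t : List ℕ} (hs : Rep H s) (ht : Rep H t) :
    Rep H (fcomp s t) := by
  obtain ⟨g, hg, rfl⟩ := hs
  obtain ⟨h, hh, rfl⟩ := ht
  exact ⟨g * h, mul_mem hg hh, (fcomp_toTab g h).symm⟩

theorem rep_gens12 (i : ℕ) : Rep Spor.M12 (gens12.getD i idTab) := by
  by_cases hi : i < gens12.length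
  · rw [List.getD_eq_getElem?_getD, List.getElem?_eq_getElem hi]
    obtain ⟨l, hl, ht⟩ := List.mem_flatMap.1 (List.getElem_mem hi)
    exact chain12_rep l hl _ ht
  · rw [List.getD_eq_getElem?_getD, List.getElem?_eq_none (by omega)]
    exact ⟨1, Subgroup.one_mem _, toTab_one⟩

theorem rep_wtab : ∀ w : List ℕ, Rep Spor.M12 (wtab w)
  | [] => ⟨1, Subgroup.one_mem _, toTab_one⟩
  | i :: w => rep_mul (rep_gens12 i) (rep_wtab w)

/-- The elements fixing the first two base points. -/
def pairFix : List (List ℕ) :=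
  (transW2.map wtab).flatMap fun u =>
    (transW3.map wtab).flatMap fun v => (transW4.map wtab).map fun w => fcomp u (fcomp v w)

theorem pairFix_rep {t : List ℕ} (ht : t ∈ pairFix) : Rep Spor.M12 t := by
  simp only [pairFix, List.mem_flatMap, List.mem_map] at ht
  obtain ⟨_, ⟨u, -, rfl⟩, _, ⟨v, -, rfl⟩, _, ⟨w, -, rfl⟩, rfl⟩ := ht
  exact rep_mul (rep_wtab u) (rep_mul (rep_wtab v) (rep_wtab w))

theorem pairFix_check : (pairFix.all fun t => app t 0 == 0 && app t 1 == 1) = true ∧
    (pairFix.map fun t => app t 2 * 576 + app t 3 * 24 + app t 4).Nodup ∧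
    pairFix.length = 720 := by
  decide +kernel

theorem pairFix_nodup : pairFix.Nodup := List.Nodup.of_map _ pairFix_check.2.1

theorem card_m12Fix_two : Nat.card (m12Fix 2) ≤ 720 := by
  have h4 := card_m12Fix_le 4 4 1 (by decide) (by norm_num) (by decide +kernel) (by decide)
    (by decide) card_m12Fix_five.le
  have h3 := card_m12Fix_le 3 3 _ (by decide) (by norm_num) (by decide +kernel) (by decide)
    (by decide) h4
  have h2 := card_m12Fix_le 2 2 _ (by decide) (by norm_num) (by decide +kernel) (by decide)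
    (by decide) h3
  exact le_of_le_of_eq h2 (by decide +kernel)

theorem mem_pairFix {g : Equiv.Perm GolayPt} (hg : g ∈ Spor.M12) (h0 : g (i2p 0) = i2p 0)
    (h1 : g (i2p 1) = i2p 1) : toTab g ∈ pairFix := by
  classical
  have hb : base7.take 2 = [0, 1] := rfl
  let A : Finset (Equiv.Perm GolayPt) := Finset.univ.filter fun x => x ∈ m12Fix 2
  have hA : A.card ≤ 720 := by
    rw [← Fintype.card_subtype, ← Nat.card_eq_fintype_card]
    exact card_m12Fix_two
  have hsub : pairFix.toFinset ⊆ A.image toTab := by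
    intro t ht
    rw [List.mem_toFinset] at ht
    obtain ⟨x, hx, rfl⟩ := pairFix_rep ht
    have := List.all_eq_true.1 pairFix_check.1 _ ht
    simp only [Bool.and_eq_true, beq_iff_eq, app_toTab x 0 (by norm_num),
      app_toTab x 1 (by norm_num)] at this
    refine Finset.mem_image.2 ⟨x, Finset.mem_filter.2 ⟨Finset.mem_univ _, mem_m12Fix.2 ⟨hx, ?_⟩⟩, rfl⟩
    intro b hbm
    simp only [hb, List.mem_cons, List.not_mem_nil, or_false] at hbm
    rcases hbm with rfl | rfl
    · rw [← i2p_p2i (x (i2p 0)), this.1]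
    · rw [← i2p_p2i (x (i2p 1)), this.2]
  have heq : pairFix.toFinset = A.image toTab :=
    Finset.eq_of_subset_of_card_le hsub (by
      rw [List.toFinset_card_of_nodup pairFix_nodup, pairFix_check.2.2]
      exact Finset.card_image_le.trans hA)
  rw [← List.mem_toFinset, heq]
  refine Finset.mem_image_of_mem _ (Finset.mem_filter.2 ⟨Finset.mem_univ _, mem_m12Fix.2 ⟨hg, ?_⟩⟩)
  intro b hbm
  simp only [hb, List.mem_cons, List.not_mem_nil, or_false] at hbm
  rcases hbm with rfl | rfl
  · exact h0
  · exact h1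

/-- Powers of a table, computed with packed composition. -/
def powF (t : List ℕ) : ℕ → List ℕ
  | 0 => idTab
  | n + 1 => fcomp t (powF t n)

theorem toTab_powF (g : Equiv.Perm GolayPt) : ∀ n, toTab (g ^ n) = powF (toTab g) n
  | 0 => by rw [pow_zero, toTab_one]; rfl
  | n + 1 => by rw [pow_succ', ← fcomp_toTab, toTab_powF g n]; rfl

/-- The order of a table, when it is at most eleven, and zero otherwise. -/
def ordTab (t : List ℕ) : ℕ :=
  match (List.range 11).find? fun m => powF t (m + 1) == idTab with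
  | some m => m + 1
  | none => 0

theorem orderOf_eq_ordTab {g : Equiv.Perm GolayPt} (h : ordTab (toTab g) ≠ 0) :
    orderOf g = ordTab (toTab g) := by
  unfold ordTab at h ⊢
  split at h
  · rename_i m hm
    obtain ⟨h1, h2, h3⟩ := List.find?_range_eq_some.1 hm
    have key : ∀ i, powF (toTab g) i = idTab ↔ g ^ i = 1 := fun i => by
      rw [← toTab_powF, ← toTab_one, toTab_injective.eq_iff]
    rw [beq_iff_eq, key] at h1
    refine (orderOf_eq_iff (Nat.succ_pos m)).2 ⟨h1, fun j hj hj0 e => ?_⟩
    have := h3 (j - 1) (by omega)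
    rw [show j - 1 + 1 = j by omega] at this
    simp [(key j).2 e] at this
  · exact absurd rfl h

theorem ords_check : pairFix.map (fun t => ordTab (fcomp (wtab pairWA) t)) = ordsA ∧
    pairFix.map (fun t => ordTab (fcomp (wtab pairWB) t)) = ordsB ∧
    pairFix.map (fun t => ordTab (fcomp (wtab pairWC) t)) = ordsC ∧
    pairFix.map (fun t => ordTab (fcomp (wtab pairWD) t)) = ordsD := by
  decide +kernel

/-- The group maps the first base points to any distinct points of the dodecad. -/
theorem exists_map_first (k : ℕ)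
    (hk : tupleOK ((chain12.take k).map fun l => (l.1, l.2.1)) listD0 = true) (xs : List GolayPt)
    (hlen : xs.length = (chain12.take k).length) (hnd : xs.Nodup)
    (hx : ∀ x ∈ xs, x ∈ Spor.squareDodecad) :
    ∃ g ∈ Spor.M12, (chain12.take k).map (fun l => g (i2p l.1)) = xs := by
  obtain ⟨g, hg, h⟩ := exists_map_tuple ((chain12.take k).map fun l => (l.1, l.2.1)) listD0
    Spor.M12
    (fun l hl t ht => by
      rw [List.mem_map] at hl
      obtain ⟨m, hm, rfl⟩ := hl
      exact chain12_rep m (List.mem_of_mem_take hm) t ht)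
    (List.nodup_range.filter _) (fun g hg p hp => mem_M12_listD0 hg p hp) hk xs
    (by simpa using hlen) hnd (fun x hx' => mem_squareDodecad.1 (hx x hx'))
  exact ⟨g, hg, by rw [← h, List.map_map]; rfl⟩

/-- The elements of the dodecad stabiliser of order `n`. -/
noncomputable def ordSet (n : ℕ) : Finset (Equiv.Perm GolayPt) := by
  classical exact Finset.univ.filter fun g => g ∈ Spor.M12 ∧ orderOf g = n

theorem mem_ordSet {n : ℕ} {g : Equiv.Perm GolayPt} :
    g ∈ ordSet n ↔ g ∈ Spor.M12 ∧ orderOf g = n := by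
  simp [ordSet]

/-- The count in one coset of the stabiliser of two points. -/
theorem card_coset (n a b : ℕ) (w : List ℕ) (os : List ℕ)
    (hwa : app (wtab w) 0 = a) (hwb : app (wtab w) 1 = b)
    (hos : pairFix.map (fun t => ordTab (fcomp (wtab w) t)) = os) (h0 : os.contains 0 = false) :
    (((ordSet n).filter fun g => g (i2p 0) = i2p a).filter fun g => g (i2p 1) = i2p b).card =
      os.count n := by
  classical
  obtain ⟨x, hx, hxw⟩ := rep_wtab w
  rw [← hxw, app_toTab x 0 (by norm_num)] at hwa
  rw [← hxw, app_toTab x 1 (by norm_num)] at hwb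
  have hxa : x (i2p 0) = i2p a := by rw [← hwa, i2p_p2i]
  have hxb : x (i2p 1) = i2p b := by rw [← hwb, i2p_p2i]
  have hord : ∀ y : Equiv.Perm GolayPt, toTab y ∈ pairFix →
      orderOf (x * y) = ordTab (fcomp (wtab w) (toTab y)) := by
    intro y hy
    have hmem : ordTab (fcomp (wtab w) (toTab y)) ∈ os := hos ▸ List.mem_map.2 ⟨_, hy, rfl⟩
    rw [orderOf_eq_ordTab, ← fcomp_toTab, hxw]
    rw [← fcomp_toTab, hxw]
    intro e
    rw [e] at hmem
    simp [List.contains_iff_mem, hmem] at h0
  have hcount : os.count n =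
      (pairFix.filter fun t => ordTab (fcomp (wtab w) t) == n).length := by
    rw [← hos, List.count, List.countP_map, List.countP_eq_length_filter]
    rfl
  rw [hcount, ← List.toFinset_card_of_nodup (pairFix_nodup.filter _)]
  refine Finset.card_bij (fun g _ => toTab (x⁻¹ * g)) ?_ ?_ ?_
  · intro g hg
    simp only [Finset.mem_filter, mem_ordSet] at hg
    obtain ⟨⟨⟨hg, hn⟩, ha⟩, hb⟩ := hg
    have hy : toTab (x⁻¹ * g) ∈ pairFix := mem_pairFix (mul_mem (inv_mem hx) hg)
      (by rw [Equiv.Perm.mul_apply, ha, ← hxa]; simp)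
      (by rw [Equiv.Perm.mul_apply, hb, ← hxb]; simp)
    have := hord _ hy
    rw [mul_inv_cancel_left, hn] at this
    simp [hy, ← this]
  · intro g _ g' _ e
    exact mul_left_cancel (toTab_injective e)
  · intro t ht
    simp only [List.mem_toFinset, List.mem_filter, beq_iff_eq] at ht
    obtain ⟨y, hy, rfl⟩ := pairFix_rep ht.1
    have hfix := List.all_eq_true.1 pairFix_check.1 _ ht.1
    simp only [Bool.and_eq_true, beq_iff_eq, app_toTab y 0 (by norm_num),
      app_toTab y 1 (by norm_num)] at hfix
    refine ⟨x * y, ?_, by rw [inv_mul_cancel_left]⟩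
    simp only [Finset.mem_filter, mem_ordSet, Equiv.Perm.mul_apply]
    refine ⟨⟨⟨mul_mem hx hy, (hord y ht.1).trans ht.2⟩, ?_⟩, ?_⟩
    · rw [← i2p_p2i (y (i2p 0)), hfix.1, hxa]
    · rw [← i2p_p2i (y (i2p 1)), hfix.2, hxb]

/-- The points of the dodecad other than those listed. -/
def dodRest (l : List ℕ) : Finset GolayPt := Spor.squareDodecad \ (l.map i2p).toFinset

/-- The count of elements of order `n`, read off the four lists. -/
def countOf (n : ℕ) : ℕ :=
  ordsA.count n + 10 * ordsB.count n + 11 * (ordsC.count n + 10 * ordsD.count n)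

theorem card_ordSet (n : ℕ) : (ordSet n).card = countOf n := by
  classical
  have hmap : ∀ g ∈ ordSet n, ∀ x ∈ Spor.squareDodecad, g x ∈ Spor.squareDodecad := by
    intro g hg x hx
    rw [← (show g • Spor.squareDodecad = _ from (mem_ordSet.1 hg).1.2)]
    exact Finset.smul_mem_smul_finset hx
  have hd : [i2p 0, i2p 1, i2p 2].all (fun x => decide (x ∈ Spor.squareDodecad)) = true := by
    decide +kernel
  simp only [List.all_eq_true, decide_eq_true_eq] at hd
  have h01 : (i2p 0 : GolayPt) ≠ i2p 1 := fun e => by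
    simpa using i2p_inj (by norm_num) (by norm_num) e
  -- transitivity of the stabilisers of one and two points
  have htr1 : ∀ x ∈ dodRest [0], ∃ k ∈ fixPt Spor.M12 (i2p 0), k (i2p 1) = x := by
    intro x hx
    simp only [dodRest, Finset.mem_sdiff, List.map_cons, List.map_nil, List.mem_toFinset,
      List.mem_singleton] at hx
    obtain ⟨g, hg, h⟩ := exists_map_first 2 (by decide +kernel) [i2p 0, x]
      (by simp [show chain12.length = 5 from rfl]) (by simpa using Ne.symm hx.2)
      (by simpa using ⟨hd _ (by simp), hx.1⟩)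
    simp only [chain12, List.take_succ_cons, List.take_zero, List.map_cons, List.map_nil,
      List.cons.injEq, and_true] at h
    obtain ⟨hg0, hg1⟩ := h
    exact ⟨g, ⟨hg, hg0⟩, hg1⟩
  have htr2 : ∀ x ∈ dodRest [0, 1],
      ∃ k ∈ fixPt (fixPt Spor.M12 (i2p 0)) (i2p 1), k (i2p 2) = x := by
    intro x hx
    simp only [dodRest, Finset.mem_sdiff, List.map_cons, List.map_nil, List.mem_toFinset,
      List.mem_cons, List.not_mem_nil, or_false, not_or] at hx
    obtain ⟨g, hg, h⟩ := exists_map_first 3 (by decide +kernel) [i2p 0, i2p 1, x]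
      (by simp [show chain12.length = 5 from rfl])
      (by simp [h01, Ne.symm hx.2.1, Ne.symm hx.2.2])
      (by simp [hd (i2p 0) (by simp), hd (i2p 1) (by simp), hx.1])
    simp only [chain12, List.take_succ_cons, List.take_zero, List.map_cons, List.map_nil,
      List.cons.injEq, and_true] at h
    obtain ⟨hg0, hg1, hg2⟩ := h
    exact ⟨g, ⟨⟨hg, hg0⟩, hg1⟩, hg2⟩
  have c0 : (dodRest [0]).card = 11 := by decide +kernel
  have c1 : (dodRest [0, 1]).card = 10 := by decide +kernel
  have hconj : ∀ k ∈ Spor.M12, ∀ g ∈ ordSet n, k * g * k⁻¹ ∈ ordSet n := by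
    intro k hk g hg
    rw [mem_ordSet] at hg ⊢
    exact ⟨mul_mem (mul_mem hk hg.1) (inv_mem hk),
      (MulEquiv.orderOf_eq (MulAut.conj k) g).trans hg.2⟩
  have hconjB : ∀ a : ℕ, (i2p a = (i2p 0 : GolayPt) ∨ i2p a = (i2p 1 : GolayPt)) →
      ∀ k ∈ fixPt (fixPt Spor.M12 (i2p 0)) (i2p 1),
        ∀ g ∈ (ordSet n).filter fun g => g (i2p 0) = i2p a,
          k * g * k⁻¹ ∈ (ordSet n).filter fun g => g (i2p 0) = i2p a := by
    intro a ha k hk g hg
    rw [Finset.mem_filter] at hg ⊢
    obtain ⟨⟨hk, hk0⟩, hk1⟩ := hk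
    refine ⟨hconj k hk g hg.1, ?_⟩
    have hk0' : k⁻¹ (i2p 0) = (i2p 0 : GolayPt) := Equiv.Perm.inv_eq_iff_eq.2 (Eq.symm hk0)
    simp only [Equiv.Perm.mul_apply, hk0', hg.2]
    rcases ha with e | e <;> rw [e]
    · exact hk0
    · exact hk1
  -- first point
  rw [card_split (ordSet n) (fixPt Spor.M12 (i2p 0)) (dodRest [0]) (i2p 0) (i2p 0) (i2p 1)
    (fun k hk => hconj k hk.1) (fun k hk => hk.2) htr1 (by simp [dodRest]) (fun g hg => by
      have := hmap g hg _ (hd _ (List.mem_cons_self ..))
      simp only [dodRest, Finset.mem_insert, Finset.mem_sdiff, List.map_cons, List.map_nil,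
        List.mem_toFinset, List.mem_singleton]
      tauto), c0]
  -- second point
  rw [card_split ((ordSet n).filter fun g => g (i2p 0) = i2p 0)
    (fixPt (fixPt Spor.M12 (i2p 0)) (i2p 1)) (dodRest [0, 1]) (i2p 1) (i2p 1) (i2p 2)
    (hconjB 0 (Or.inl rfl)) (fun k hk => hk.2) htr2 (by simp [dodRest]) (fun g hg => by
      rw [Finset.mem_filter] at hg
      have := hmap g hg.1 _ (hd (i2p 1) (by simp))
      have hne : g (i2p 1) ≠ i2p 0 := fun e => h01 (g.injective (hg.2.trans e.symm))
      simp only [dodRest, Finset.mem_insert, Finset.mem_sdiff, List.map_cons, List.map_nil,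
        List.mem_toFinset, List.mem_cons, List.not_mem_nil, or_false]
      tauto), c1]
  rw [card_split ((ordSet n).filter fun g => g (i2p 0) = i2p 1)
    (fixPt (fixPt Spor.M12 (i2p 0)) (i2p 1)) (dodRest [0, 1]) (i2p 1) (i2p 0) (i2p 2)
    (hconjB 1 (Or.inr rfl)) (fun k hk => hk.2) htr2 (by simp [dodRest]) (fun g hg => by
      rw [Finset.mem_filter] at hg
      have := hmap g hg.1 _ (hd (i2p 1) (by simp))
      have hne : g (i2p 1) ≠ i2p 1 := fun e => h01 (g.injective (hg.2.trans e.symm))
      simp only [dodRest, Finset.mem_insert, Finset.mem_sdiff, List.map_cons, List.map_nil,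
        List.mem_toFinset, List.mem_cons, List.not_mem_nil, or_false]
      tauto), c1]
  obtain ⟨hA, hB, hC, hD⟩ := ords_check
  rw [card_coset n 0 1 pairWA _ (by decide +kernel) (by decide +kernel) hA (by decide +kernel),
    card_coset n 0 2 pairWB _ (by decide +kernel) (by decide +kernel) hB (by decide +kernel),
    card_coset n 1 0 pairWC _ (by decide +kernel) (by decide +kernel) hC (by decide +kernel),
    card_coset n 1 2 pairWD _ (by decide +kernel) (by decide +kernel) hD (by decide +kernel)]
  rfl

theorem cnt_M12 (n : ℕ) : cnt ↥Spor.M12 n = countOf n := by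
  classical
  rw [← card_ordSet, cnt]
  refine Eq.trans (Nat.card_congr ?_) (Nat.card_eq_finsetCard (ordSet n))
  exact
    { toFun := fun g => ⟨g.1.1, mem_ordSet.2 ⟨g.1.2, by rw [Subgroup.orderOf_coe]; exact g.2⟩⟩
      invFun := fun g => ⟨⟨g.1, (mem_ordSet.1 g.2).1⟩, by
        rw [← Subgroup.orderOf_coe]; exact (mem_ordSet.1 g.2).2⟩
      left_inv := fun _ => rfl
      right_inv := fun _ => rfl }

theorem countOf_check : ((List.range 12).all fun n =>
    countOf n == 0 || decide (countOf n ∈ countValues)) = true := by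
  decide +kernel

theorem countOf_large {n : ℕ} (hn : 12 ≤ n) : countOf n = 0 := by
  have h : (ordsA ++ ordsB ++ ordsC ++ ordsD).all (fun x => decide (x < 12)) = true := by
    decide +kernel
  simp only [List.all_eq_true, decide_eq_true_eq, List.mem_append] at h
  have z : ∀ l : List ℕ, (∀ x ∈ l, x < 12) → l.count n = 0 := fun l hl =>
    List.count_eq_zero.2 fun hm => absurd (hl n hm) (by omega)
  rw [countOf, z ordsA (fun x hx => h x (by tauto)), z ordsB (fun x hx => h x (by tauto)),
    z ordsC (fun x hx => h x (by tauto)), z ordsD (fun x hx => h x (by tauto))]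

/-- The Mathieu group of degree 12 satisfies the counting hypothesis. -/
theorem countHyp_M12 : CountHyp ↥Cfsg.Spor.M12 where
  card := CfsgLib.Mathieu.card_M12
  mem n hn := by
    rw [cnt_M12] at hn ⊢
    rcases lt_or_ge n 12 with h | h
    · have := List.all_eq_true.1 countOf_check n (List.mem_range.2 h)
      simp only [Bool.or_eq_true, beq_iff_eq, decide_eq_true_eq] at this
      exact this.resolve_left hn
    · exact absurd (countOf_large h) hn
  has891 := ⟨2, (cnt_M12 2).trans (by decide +kernel)⟩

end CfsgLib.M12Count
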