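import Cfsg.Agent.M12Count.Middle
import Cfsg.Agent.SmallPerm.DegreeSix
import Cfsg.Agent.SimpleOrders.ThreeSixty
import Cfsg.Agent.S0496

/-!
Groups of order 720 with thirty-six self-centralising Sylow 5-subgroups.

Such a group has a subgroup `A ≅ A₆` of index two, and it is `S₆` as soon as some involution lies
outside `A`.
-/

set_option autoImplicit false
set_option linter.style.haveILetI false

universe u

namespace CfsgLib.M12Count.Six

open scoped Pointwise

section Actions

variable {X : Type u} [Group X] [Finite X]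

/-- An element of order five without fixed points on a subgroup: the order of the subgroup is
one modulo five. -/
theorem card_mod_five {g : X} (hg : orderOf g = 5) {R : Subgroup X}
    (hnorm : ∀ r ∈ R, g * r * g⁻¹ ∈ R) (hfix : ∀ r ∈ R, g * r * g⁻¹ = r → r = 1) :
    Nat.card R % 5 = 1 := by
  classical
  haveI := Fintype.ofFinite R
  haveI : Fact (Nat.Prime 5) := ⟨Nat.prime_five⟩
  have hinj : Function.Injective (fun r : R => (⟨g * (r : X) * g⁻¹, hnorm r r.2⟩ : R)) := by
    intro a b h
    exact Subtype.ext (mul_left_cancel (mul_right_cancel (congrArg Subtype.val h)))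
  set σ : Equiv.Perm R := Equiv.ofBijective _ (Finite.injective_iff_bijective.mp hinj) with hσ
  have hpow : ∀ (n : ℕ) (r : R), (((σ ^ n) r : R) : X) = g ^ n * (r : X) * (g ^ n)⁻¹ := by
    intro n
    induction n with
    | zero => intro r; simp
    | succ n ih =>
      intro r
      rw [pow_succ', Equiv.Perm.mul_apply]
      show g * (((σ ^ n) r : R) : X) * g⁻¹ = _
      rw [ih r, pow_succ']
      group
  have h5 : σ ^ 5 ^ 1 = 1 := by
    refine Equiv.ext fun r => Subtype.ext ?_
    rw [pow_one, hpow, ← hg, pow_orderOf_eq_one]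
    simp
  have hmod := Equiv.Perm.card_compl_support_modEq h5
  have hsupp : σ.supportᶜ = {1} := by
    ext r
    simp only [Finset.mem_compl, Equiv.Perm.mem_support, not_not, Finset.mem_singleton]
    constructor
    · intro h
      exact Subtype.ext (hfix r r.2 (congrArg Subtype.val h))
    · rintro rfl
      apply Subtype.ext
      show g * ((1 : R) : X) * g⁻¹ = _
      simp
  rw [hsupp, Finset.card_singleton, ← Nat.card_eq_fintype_card] at hmod
  have := hmod
  unfold Nat.ModEq at this
  omega

end Actions

section TwoSubgroups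

variable {G : Type u} [Group G] [Finite G]

/-- Two simple subgroups of order 60 and index 6 are conjugate or meet in a group of order ten. -/
theorem conj_or_card_inf {H L : Subgroup G} (hH : Nat.card H = 60) (hL : Nat.card L = 60)
    (hi : H.index = 6) [IsSimpleGroup L] :
    (∃ a : G, L = H.map (MulAut.conj a).toMonoidHom) ∨
      Nat.card (H ⊓ L : Subgroup G) = 10 := by
  classical
  have hnc : ¬ IsMulCommutative L :=
    SmallSimple.not_comm_of_card_not_prime (by rw [hL]; norm_num)
  by_cases hLH : L ≤ H
  · left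
    refine ⟨1, ?_⟩
    rw [Subgroup.eq_of_le_of_card_ge hLH (by rw [hH, hL])]
    ext x
    simp
  have htop : H.subgroupOf L ≠ ⊤ := fun h => hLH (Subgroup.subgroupOf_eq_top.mp h)
  have hle : (H.subgroupOf L).index ≤ 6 := by
    have h := Subgroup.relIndex_le_of_le_right (le_top : L ≤ (⊤ : Subgroup G))
      (show H.relIndex ⊤ ≠ 0 by rw [Subgroup.relIndex_top_right]; omega)
    rwa [Subgroup.relIndex_top_right, hi] at h
  have hdvd := SmallSimple.card_dvd_factorial_index hnc (H.subgroupOf L) htop
  rw [hL] at hdvd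
  have hmul := (H.subgroupOf L).card_mul_index
  rw [hL] at hmul
  have hD : Nat.card (H ⊓ L : Subgroup G) = Nat.card (H.subgroupOf L) := by
    rw [← Subgroup.inf_subgroupOf_right H L]
    exact (Nat.card_congr (Subgroup.subgroupOfEquivOfLe inf_le_right).toEquiv).symm
  have h56 : (H.subgroupOf L).index = 5 ∨ (H.subgroupOf L).index = 6 := by
    interval_cases hj : (H.subgroupOf L).index <;> simp [Nat.factorial] at hdvd ⊢
  rcases h56 with h5 | h6
  · left
    have hstab : MulAction.stabilizer L ((1 : G) : G ⧸ H) = H.subgroupOf L := by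
      ext l
      rw [MulAction.mem_stabilizer_iff, Subgroup.mem_subgroupOf]
      show (((l : G) * 1 : G) : G ⧸ H) = _ ↔ _
      rw [QuotientGroup.eq]
      simp
    have horb : (MulAction.orbit L ((1 : G) : G ⧸ H)).ncard = 5 := by
      rw [← MulAction.index_stabilizer, hstab, h5]
    have hone : (MulAction.orbit L ((1 : G) : G ⧸ H))ᶜ.ncard = 1 := by
      rw [Set.ncard_compl, horb, ← Subgroup.index_eq_card, hi]
    obtain ⟨q, hq⟩ := Set.ncard_eq_one.mp hone
    obtain ⟨a, rfl⟩ := QuotientGroup.mk_surjective q
    refine ⟨a, Subgroup.eq_of_le_of_card_ge (fun l hl => ?_)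
      (by rw [Subgroup.card_map_of_injective (f := (MulAut.conj a).toMonoidHom) (MulAut.conj a).injective, hH, hL])⟩
    have hmem : (⟨l, hl⟩ : L) • ((a : G) : G ⧸ H) ∈ (MulAction.orbit L ((1 : G) : G ⧸ H))ᶜ := by
      intro hmem
      have h1 : ((a : G) : G ⧸ H) ∈ MulAction.orbit L ((1 : G) : G ⧸ H) := by
        have := MulAction.mem_orbit_of_mem_orbit (⟨l, hl⟩ : L)⁻¹ hmem
        rwa [inv_smul_smul] at this
      have h2 : ((a : G) : G ⧸ H) ∈ (MulAction.orbit L ((1 : G) : G ⧸ H))ᶜ := by
        rw [hq]; rfl
      exact h2 h1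
    rw [hq, Set.mem_singleton_iff] at hmem
    have hmem' : (((l * a : G)) : G ⧸ H) = ((a : G) : G ⧸ H) := hmem
    rw [QuotientGroup.eq] at hmem'
    refine Subgroup.mem_map.mpr ⟨a⁻¹ * l * a, ?_, ?_⟩
    · have := H.inv_mem hmem'
      simpa [mul_assoc] using this
    · simp [mul_assoc]
  · right
    rw [hD]
    rw [h6] at hmul
    omega

end TwoSubgroups

section Order720

variable {X : Type u} [Group X] [Finite X]

/-- The Sylow 5-subgroups have order five. -/
theorem card_sylow_five (hX : Nat.card X = 720) [Fact (Nat.Prime 5)] (P : Sylow 5 X) :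
    Nat.card (P : Subgroup X) = 5 := by
  rw [P.card_eq_multiplicity, hX, show 720 = 2 ^ 4 * 3 ^ 2 * 5 by norm_num,
    Nat.factorization_mul (by norm_num) (by norm_num), Finsupp.add_apply,
    Nat.factorization_mul (by norm_num) (by norm_num), Finsupp.add_apply,
    Nat.factorization_pow, Finsupp.smul_apply, Nat.factorization_pow, Finsupp.smul_apply,
    Nat.prime_two.factorization, Nat.prime_three.factorization,
    Nat.prime_five.factorization]
  simp

/-- A nontrivial normal subgroup has order divisible by five. -/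
theorem five_dvd_normal (hX : Nat.card X = 720) (h36 : Nat.card (Sylow 5 X) = 36)
    (h5 : ∀ g : X, orderOf g = 5 → Nat.card (Subgroup.centralizer ({g} : Set X)) = 5)
    (M : Subgroup X) [M.Normal] (hM : M ≠ ⊥) : 5 ∣ Nat.card M := by
  classical
  haveI : Fact (Nat.Prime 5) := ⟨Nat.prime_five⟩
  haveI : Fact (Nat.Prime 3) := ⟨Nat.prime_three⟩
  by_contra hn5
  obtain ⟨g, hg⟩ := exists_prime_orderOf_dvd_card' 5 (show 5 ∣ Nat.card X by rw [hX]; norm_num)
  have hfix : ∀ r : X, g * r * g⁻¹ = r → ¬ 5 ∣ orderOf r → r = 1 := by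
    intro r hr hro
    have hmem : r ∈ Subgroup.centralizer ({g} : Set X) :=
      Subgroup.mem_centralizer_singleton_iff.mpr (mul_inv_eq_iff_eq_mul.mp hr).symm
    have hd : orderOf r ∣ 5 := by
      rw [← h5 g hg, ← Subgroup.orderOf_mk r hmem]
      exact orderOf_dvd_natCard _
    rcases (Nat.dvd_prime Nat.prime_five).mp hd with h | h
    · exact orderOf_eq_one_iff.mp h
    · exact absurd (h ▸ dvd_rfl) hro
  have hfixM : ∀ r ∈ M, g * r * g⁻¹ = r → r = 1 := fun r hr h => hfix r h fun hd =>
    hn5 (hd.trans (Subgroup.orderOf_dvd_natCard M hr))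
  have hmod := card_mod_five hg (fun r hr => ‹M.Normal›.conj_mem r hr g) hfixM
  have h144 : Nat.card M ∣ 144 := by
    have h := M.card_subgroup_dvd_card
    rw [hX, show 720 = 144 * 5 by norm_num] at h
    exact ((Nat.Prime.coprime_iff_not_dvd Nat.prime_five).mpr hn5).symm.dvd_of_dvd_mul_right h
  have hne1 : Nat.card M ≠ 1 := fun h => hM (Subgroup.card_eq_one.mp h)
  have hcases : Nat.card M = 16 ∨ Nat.card M = 6 ∨ Nat.card M = 36 := by
    have hle := Nat.le_of_dvd (by norm_num) h144
    obtain ⟨k, hk⟩ := h144
    interval_cases h : Nat.card M <;> omega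
  by_cases h16 : Nat.card M = 16
  · -- the preimage of the Sylow 5-subgroup of the quotient is too small
    have hq : Nat.card (X ⧸ M) = 45 := by
      have := M.card_mul_index
      rw [h16, hX, Subgroup.index_eq_card] at this
      omega
    obtain ⟨Qb⟩ : Nonempty (Sylow 5 (X ⧸ M)) := inferInstance
    have hQc : Nat.card (Qb : Subgroup (X ⧸ M)) = 5 := by
      rw [Qb.card_eq_multiplicity, hq, show 45 = 3 ^ 2 * 5 by norm_num,
        Nat.factorization_mul (by norm_num) (by norm_num), Finsupp.add_apply,
        Nat.factorization_pow, Finsupp.smul_apply, Nat.prime_three.factorization,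
        Nat.prime_five.factorization]
      simp
    have hn1 : Nat.card (Sylow 5 (X ⧸ M)) = 1 := by
      have hd : Nat.card (Sylow 5 (X ⧸ M)) ∣ 9 := by
        have h := Qb.card_dvd_index
        have hi := (Qb : Subgroup (X ⧸ M)).card_mul_index
        rw [hQc, hq] at hi
        rwa [show (Qb : Subgroup (X ⧸ M)).index = 9 by omega] at h
      have hmod5 := card_sylow_modEq_one 5 (X ⧸ M)
      unfold Nat.ModEq at hmod5
      have hle := Nat.le_of_dvd (by norm_num) hd
      interval_cases h : Nat.card (Sylow 5 (X ⧸ M)) <;> omega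
    haveI : Subsingleton (Sylow 5 (X ⧸ M)) := (Nat.card_eq_one_iff_unique.mp hn1).1
    set K := (Qb : Subgroup (X ⧸ M)).comap (QuotientGroup.mk' M) with hK
    have hmem : ∀ P : Sylow 5 X, (P : Subgroup X) ≤ K := by
      intro P x hx
      obtain ⟨Q', hQ'⟩ := (P.2.map (QuotientGroup.mk' M)).exists_le_sylow
      rw [Subsingleton.elim Q' Qb] at hQ'
      exact hQ' (Subgroup.mem_map_of_mem _ hx)
    have hKc : Nat.card K ≤ 80 := by
      have hi : K.index = (Qb : Subgroup (X ⧸ M)).index :=
        Subgroup.index_comap_of_surjective _ (QuotientGroup.mk'_surjective M)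
      have h1 := K.card_mul_index
      have h2 := (Qb : Subgroup (X ⧸ M)).card_mul_index
      rw [hQc, hq] at h2
      rw [hi, hX, show (Qb : Subgroup (X ⧸ M)).index = 9 by omega] at h1
      omega
    have hall : ∀ P : Sylow 5 X, Nat.card (P : Subgroup X) = 5 := card_sylow_five hX
    -- four elements of order five in each Sylow subgroup
    have h144' : 144 ≤ Nat.card K := by
      have hgen : ∀ P : Sylow 5 X, ∀ y : {x : (P : Subgroup X) // x ≠ 1},
          Subgroup.zpowers ((y.1 : (P : Subgroup X)) : X) = (P : Subgroup X) := by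
        intro P y
        refine Subgroup.eq_of_le_of_card_ge (Subgroup.zpowers_le.mpr y.1.2) ?_
        rw [hall P, Nat.card_zpowers, Subgroup.orderOf_coe]
        have hd : orderOf y.1 ∣ 5 := (orderOf_dvd_natCard _).trans (dvd_of_eq (hall P))
        rcases (Nat.dvd_prime Nat.prime_five).mp hd with h | h
        · exact absurd (orderOf_eq_one_iff.mp h) y.2
        · rw [h]
      let f : (Σ P : Sylow 5 X, {x : (P : Subgroup X) // x ≠ 1}) → K :=
        fun z => ⟨((z.2.1 : (z.1 : Subgroup X)) : X), hmem z.1 z.2.1.2⟩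
      have hinj : Function.Injective f := by
        rintro ⟨P, y⟩ ⟨Q, z⟩ h
        have hv : ((y.1 : (P : Subgroup X)) : X) = ((z.1 : (Q : Subgroup X)) : X) :=
          congrArg Subtype.val h
        obtain rfl : P = Q := Sylow.ext (by rw [← hgen P y, ← hgen Q z, hv])
        exact congrArg (Sigma.mk P) (Subtype.ext (Subtype.ext hv))
      have hcard := Nat.card_le_card_of_injective f hinj
      haveI := Fintype.ofFinite (Sylow 5 X)
      rw [Nat.card_sigma] at hcard
      have h4 : ∀ P : Sylow 5 X, Nat.card {x : (P : Subgroup X) // x ≠ 1} = 4 := by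
        intro P
        haveI := Fintype.ofFinite (P : Subgroup X)
        rw [Nat.card_eq_fintype_card, Fintype.card_subtype_compl, Fintype.card_subtype_eq,
          ← Nat.card_eq_fintype_card, hall P]
      rw [Finset.sum_congr rfl fun P _ => h4 P, Finset.sum_const, Finset.card_univ,
        ← Nat.card_eq_fintype_card, h36, smul_eq_mul] at hcard
      omega
    omega
  · -- a Sylow 3-subgroup of `M` is normalised by `g`
    obtain ⟨R⟩ : Nonempty (Sylow 3 M) := inferInstance
    have hR : (Nat.card M = 6 ∧ Nat.card (R : Subgroup M) = 3) ∨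
        (Nat.card M = 36 ∧ Nat.card (R : Subgroup M) = 9) := by
      rcases hcases with h | h | h
      · exact absurd h h16
      · left
        refine ⟨h, ?_⟩
        rw [R.card_eq_multiplicity, h, show 6 = 2 * 3 by norm_num,
          Nat.factorization_mul (by norm_num) (by norm_num), Finsupp.add_apply,
          Nat.prime_two.factorization, Nat.prime_three.factorization]
        simp
      · right
        refine ⟨h, ?_⟩
        rw [R.card_eq_multiplicity, h, show 36 = 2 ^ 2 * 3 ^ 2 by norm_num,
          Nat.factorization_mul (by norm_num) (by norm_num), Finsupp.add_apply,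
          Nat.factorization_pow, Finsupp.smul_apply, Nat.factorization_pow, Finsupp.smul_apply,
          Nat.prime_two.factorization, Nat.prime_three.factorization]
        simp
    have hlt : Nat.card (Sylow 3 M) < 5 := by
      have h := R.card_dvd_index
      have hi := (R : Subgroup M).card_mul_index
      have := Nat.le_of_dvd (Nat.pos_of_ne_zero Subgroup.index_ne_zero_of_finite) h
      rcases hR with ⟨h', hR⟩ | ⟨h', hR⟩ <;> rw [hR, h'] at hi <;> omega
    letI : MulAction X (Sylow 3 M) := MulAction.compHom _ (MulAut.conjNormal : X →* MulAut M)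
    have hgR : (MulAut.conjNormal g : MulAut M) • R = R := by
      have horb : Nat.card (MulAction.orbit (Subgroup.zpowers g) R) ∣ 5 := by
        rw [← hg, ← Nat.card_zpowers, Nat.card_coe_set_eq, ← MulAction.index_stabilizer]
        exact Subgroup.index_dvd_card _
      have hle : Nat.card (MulAction.orbit (Subgroup.zpowers g) R) ≤ Nat.card (Sylow 3 M) :=
        Nat.card_le_card_of_injective Subtype.val Subtype.val_injective
      have h1 : Nat.card (MulAction.orbit (Subgroup.zpowers g) R) = 1 := by
        rcases (Nat.dvd_prime Nat.prime_five).mp horb with h | h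
        · exact h
        · omega
      have hmem : (⟨g, Subgroup.mem_zpowers g⟩ : Subgroup.zpowers g) • R ∈
          MulAction.orbit (Subgroup.zpowers g) R := MulAction.mem_orbit _ _
      haveI := (Nat.card_eq_one_iff_unique.mp h1).1
      exact congrArg Subtype.val (Subsingleton.elim
        (⟨_, hmem⟩ : MulAction.orbit (Subgroup.zpowers g) R) ⟨R, MulAction.mem_orbit_self R⟩)
    have hnR : ∀ r ∈ (R : Subgroup M).map M.subtype, g * r * g⁻¹ ∈ (R : Subgroup M).map M.subtype := by
      rintro _ ⟨r, hr, rfl⟩
      refine ⟨MulAut.conjNormal g r, ?_, MulAut.conjNormal_apply g r⟩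
      have h' : (MulAut.conjNormal g : MulAut M) r ∈
          (((MulAut.conjNormal g : MulAut M) • R : Sylow 3 M) : Subgroup M) :=
        Subgroup.smul_mem_pointwise_smul r _ _ hr
      rwa [hgR] at h'
    have hmodR := card_mod_five hg hnR fun r hr h => hfixM r (Subgroup.map_subtype_le _ hr) h
    rw [Subgroup.card_map_of_injective M.subtype_injective] at hmodR
    rcases hR with ⟨-, h⟩ | ⟨-, h⟩ <;> rw [h] at hmodR <;> omega

/-- A proper nontrivial normal subgroup has order 360. -/
theorem card_normal (hX : Nat.card X = 720) (h36 : Nat.card (Sylow 5 X) = 36)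
    (h5 : ∀ g : X, orderOf g = 5 → Nat.card (Subgroup.centralizer ({g} : Set X)) = 5)
    (M : Subgroup X) [hMn : M.Normal] (hM : M ≠ ⊥) (hM' : M ≠ ⊤) : Nat.card M = 360 := by
  classical
  haveI : Fact (Nat.Prime 5) := ⟨Nat.prime_five⟩
  have h5M := five_dvd_normal hX h36 h5 M hM
  obtain ⟨x, hx⟩ := exists_prime_orderOf_dvd_card' 5 h5M
  have hxo : orderOf (x : X) = 5 := by rw [Subgroup.orderOf_coe, hx]
  obtain ⟨P, hP⟩ := (IsPGroup.of_card (p := 5) (n := 1) (G := Subgroup.zpowers (x : X))
    (by rw [Nat.card_zpowers, hxo, pow_one])).exists_le_sylow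
  have hPc : Nat.card (P : Subgroup X) = 5 := card_sylow_five hX P
  have hPx : Subgroup.zpowers (x : X) = (P : Subgroup X) :=
    Subgroup.eq_of_le_of_card_ge hP (by rw [Nat.card_zpowers, hxo, hPc])
  have hPM : (P : Subgroup X) ≤ M := hPx ▸ Subgroup.zpowers_le.mpr x.2
  set PM := P.subtype hPM with hPMdef
  have hPMc : Nat.card (PM : Subgroup M) = 5 :=
    (Nat.card_congr (Subgroup.subgroupOfEquivOfLe hPM).toEquiv).trans hPc
  -- all the Sylow subgroups of `X` lie in `M`
  have hcount : Nat.card (Sylow 5 M) = 36 := by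
    rw [← h36]
    have hall : ∀ Q : Sylow 5 X, (Q : Subgroup X) ≤ M := by
      intro Q
      obtain ⟨a, rfl⟩ := MulAction.exists_smul_eq X P Q
      intro y hy
      obtain ⟨p, hp, rfl⟩ := hy
      exact hMn.conj_mem p (hPM hp) a
    refine le_antisymm ?_ ?_
    · refine Nat.card_le_card_of_injective (fun Q : Sylow 5 M =>
        (⟨(Q : Subgroup M).map M.subtype, Q.2.map _, ?_⟩ : Sylow 5 X)) ?_
      · intro R hR hle
        refine (Subgroup.eq_of_le_of_card_ge hle ?_).symm
        obtain ⟨S, hS⟩ := hR.exists_le_sylow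
        refine (Subgroup.card_le_of_le hS).trans ?_
        have hQc : Nat.card (Q : Subgroup M) = Nat.card (PM : Subgroup M) := by
          rw [Q.card_eq_multiplicity, PM.card_eq_multiplicity]
        rw [Subgroup.card_map_of_injective M.subtype_injective, hQc, hPMc, card_sylow_five hX S]
      · intro Q Q' h
        exact Sylow.ext (Subgroup.map_injective M.subtype_injective (congrArg (·.1) h))
    · refine Nat.card_le_card_of_injective (fun Q : Sylow 5 X => Q.subtype (hall Q)) ?_
      intro Q Q' h
      exact Sylow.subtype_injective h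
  -- the normaliser in `M`
  set N := Subgroup.normalizer ((PM : Subgroup M) : Set M) with hN
  have hMN : Nat.card M = 36 * Nat.card N := by
    rw [← hcount, PM.card_eq_index_normalizer, mul_comm]
    exact (Subgroup.card_mul_index _).symm
  have hPN : 5 ∣ Nat.card N := by
    rw [← hPMc]
    exact Subgroup.card_dvd_of_le Subgroup.le_normalizer
  have hlt : Nat.card M < 720 := by
    have := M.card_mul_index
    have h1 : M.index ≠ 1 := fun h => hM' (Subgroup.index_eq_one.mp h)
    have h0 : M.index ≠ 0 := Subgroup.index_ne_zero_of_finite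
    have h2 : Nat.card M * 2 ≤ Nat.card M * M.index := Nat.mul_le_mul_left _ (by omega)
    have h3 : 0 < Nat.card M := Nat.card_pos
    omega
  have hdvd := M.card_subgroup_dvd_card
  rw [hX] at hdvd
  obtain ⟨j, hj⟩ := hPN
  rcases Nat.lt_or_ge j 2 with hj2 | hj2
  · -- Burnside transfer gives a normal subgroup of order 36
    exfalso
    have hj1 : j = 1 := by
      have : 0 < Nat.card N := Nat.card_pos
      omega
    subst hj1
    have hNP : N = (PM : Subgroup M) := by
      refine (Subgroup.eq_of_le_of_card_ge Subgroup.le_normalizer ?_).symm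
      rw [hj, hPMc]
    have hcyc : IsMulCommutative (PM : Subgroup M) := by
      haveI : IsCyclic (PM : Subgroup M) := isCyclic_of_prime_card (p := 5)
        hPMc
      infer_instance
    have hle : N ≤ Subgroup.centralizer ((PM : Subgroup M) : Set M) := by
      rw [hNP]
      exact Subgroup.le_centralizer (PM : Subgroup M)
    have hcompl := MonoidHom.ker_transferSylow_isComplement' PM hle
    set K := (MonoidHom.transferSylow PM hle).ker with hK
    have hKc : Nat.card K = 36 := by
      have := hcompl.card_mul_card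
      rw [hPMc, hMN, hj] at this
      omega
    have hKX : (K.map M.subtype).Normal := by
      refine ⟨fun y hy a => ?_⟩
      obtain ⟨k, hk, rfl⟩ := hy
      refine ⟨MulAut.conjNormal a k, ?_, MulAut.conjNormal_apply a k⟩
      have hd : orderOf (QuotientGroup.mk' K (MulAut.conjNormal a k)) ∣ Nat.gcd 36 5 := by
        refine Nat.dvd_gcd ((orderOf_map_dvd _ _).trans ?_) ?_
        · rw [MulEquiv.orderOf_eq]
          exact hKc ▸ Subgroup.orderOf_dvd_natCard K hk
        · have hq : Nat.card (M ⧸ K) = 5 := by
            have := K.card_mul_index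
            rw [hKc, hMN, hj, Subgroup.index_eq_card] at this
            omega
          exact (orderOf_dvd_natCard _).trans (dvd_of_eq hq)
      rw [show Nat.gcd 36 5 = 1 by norm_num, Nat.dvd_one, orderOf_eq_one_iff] at hd
      exact (QuotientGroup.eq_one_iff _).mp hd
    have hKne : K.map M.subtype ≠ ⊥ := fun h => by
      have := Subgroup.card_map_of_injective (K := K) M.subtype_injective
      rw [h, Subgroup.card_bot, hKc] at this
      omega
    have := five_dvd_normal hX h36 h5 (K.map M.subtype) hKne
    rw [Subgroup.card_map_of_injective M.subtype_injective, hKc] at this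
    omega
  · have hjle : j ≤ 3 := by omega
    interval_cases j
    · omega
    · exfalso
      rw [hMN, hj] at hdvd
      norm_num at hdvd

omit [Finite X] in
/-- The order of a product of two normal subgroups meeting trivially. -/
theorem card_eq_mul_of_normal (L L' : Subgroup X) [L.Normal] [L'.Normal] (hinf : L ⊓ L' = ⊥)
    (hsup : L ⊔ L' = ⊤) : Nat.card X = Nat.card L * Nat.card L' := by
  have hd : Disjoint L L' := disjoint_iff.mpr hinf
  have hc : L.IsComplement' L' := by
    refine Subgroup.isComplement'_of_disjoint_and_mul_eq_univ hd ?_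
    rw [← Subgroup.normal_mul, hsup, Subgroup.coe_top]
  exact hc.card_mul_card.symm

/-- There is a simple normal subgroup of order 360. -/
theorem exists_simple_half (hX : Nat.card X = 720) (h36 : Nat.card (Sylow 5 X) = 36)
    (h5 : ∀ g : X, orderOf g = 5 → Nat.card (Subgroup.centralizer ({g} : Set X)) = 5) :
    ∃ A : Subgroup X, A.Normal ∧ A.index = 2 ∧ Nat.card A = 360 ∧ IsSimpleGroup A ∧
      ∀ M : Subgroup X, M.Normal → M ≠ ⊥ → M ≠ ⊤ → Nat.card M = 360 := by
  classical
  have hcard : ∀ M : Subgroup X, M.Normal → M ≠ ⊥ → M ≠ ⊤ → Nat.card M = 360 :=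
    fun M hM h1 h2 => by haveI := hM; exact card_normal hX h36 h5 M h1 h2
  haveI : Nontrivial X := Finite.one_lt_card_iff_nontrivial.mp (by omega)
  obtain ⟨A, hA, hA1, hA2⟩ : ∃ A : Subgroup X, A.Normal ∧ A ≠ ⊥ ∧ A ≠ ⊤ := by
    by_contra hno
    push Not at hno
    haveI : IsSimpleGroup X := ⟨fun H hH => or_iff_not_imp_left.mpr (hno H hH)⟩
    have hnc : ¬ IsMulCommutative X :=
      SmallSimple.not_comm_of_card_not_prime (by rw [hX]; norm_num)
    have := Cfsg.Agent.S0496.result hnc (by omega)
    omega
  haveI := hA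
  have hAc := hcard A hA hA1 hA2
  have hAi : A.index = 2 := by
    have := A.card_mul_index
    rw [hAc, hX] at this
    omega
  refine ⟨A, hA, hAi, hAc, ?_, hcard⟩
  haveI : Nontrivial A := Finite.one_lt_card_iff_nontrivial.mp (by omega)
  refine ⟨fun L hL => ?_⟩
  by_contra hne
  push Not at hne
  haveI := hL
  obtain ⟨e, he⟩ : ∃ e : X, e ∉ A := by
    by_contra h
    push Not at h
    exact hA2 (eq_top_iff.mpr fun x _ => h x)
  set ε : MulAut A := MulAut.conjNormal e with hε
  set L' := L.map ε.toMonoidHom with hL'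
  haveI : L'.Normal := Subgroup.Normal.map hL _ ε.surjective
  have hee : e * e ∈ A := Subgroup.mul_self_mem_of_index_two hAi e
  have hswap : L'.map ε.toMonoidHom = L := by
    refine Subgroup.eq_of_le_of_card_ge ?_ (by
      rw [Subgroup.card_map_of_injective (f := ε.toMonoidHom) ε.injective, Subgroup.card_map_of_injective (f := ε.toMonoidHom) ε.injective])
    rintro _ ⟨_, ⟨l, hl, rfl⟩, rfl⟩
    have h1 : ε.toMonoidHom (ε.toMonoidHom l) = ⟨e * e, hee⟩ * l * (⟨e * e, hee⟩)⁻¹ := by
      apply Subtype.ext
      show (MulAut.conjNormal e (MulAut.conjNormal e l) : X) = e * e * (l : X) * (e * e)⁻¹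
      rw [MulAut.conjNormal_apply, MulAut.conjNormal_apply]
      group
    rw [h1]
    exact hL.conj_mem l hl _
  -- a normal subgroup of `A` stable under `e` is trivial or `A`
  have hstab : ∀ J : Subgroup A, J.Normal → J.map ε.toMonoidHom = J → J = ⊥ ∨ J = ⊤ := by
    intro J hJ hJe
    by_contra hne'
    push Not at hne'
    have hJn : (J.map A.subtype).Normal := by
      refine ⟨fun y hy x => ?_⟩
      obtain ⟨j, hj, rfl⟩ := hy
      refine ⟨MulAut.conjNormal x j, ?_, MulAut.conjNormal_apply x j⟩
      by_cases hxA : x ∈ A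
      · have h1 : MulAut.conjNormal x j = (⟨x, hxA⟩ : A) * j * (⟨x, hxA⟩ : A)⁻¹ :=
          Subtype.ext (MulAut.conjNormal_apply x j)
        rw [h1]
        exact hJ.conj_mem j hj _
      · have hxe : x * e⁻¹ ∈ A :=
          (Subgroup.mul_mem_iff_of_index_two hAi).mpr (by simp [hxA, he])
        have h1 : MulAut.conjNormal x j = (⟨x * e⁻¹, hxe⟩ : A) * ε.toMonoidHom j *
            (⟨x * e⁻¹, hxe⟩ : A)⁻¹ := by
          apply Subtype.ext
          show (MulAut.conjNormal x j : X) = x * e⁻¹ * (MulAut.conjNormal e j : X) * (x * e⁻¹)⁻¹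
          rw [MulAut.conjNormal_apply, MulAut.conjNormal_apply]
          group
        rw [h1]
        refine hJ.conj_mem _ ?_ _
        exact hJe.le (Subgroup.mem_map_of_mem _ hj)
    have hb : J.map A.subtype ≠ ⊥ := fun h =>
      hne'.1 ((Subgroup.map_eq_bot_iff_of_injective _ A.subtype_injective).mp h)
    have ht : J.map A.subtype ≠ ⊤ := fun h => hA2 (top_le_iff.mp (h ▸ Subgroup.map_subtype_le J))
    have hc := hcard _ hJn hb ht
    rw [Subgroup.card_map_of_injective A.subtype_injective, ← hAc] at hc
    exact hne'.2 (Subgroup.card_eq_iff_eq_top J |>.mp hc)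
  have hinf : L ⊓ L' = ⊥ := by
    rcases hstab (L ⊓ L') inferInstance (by
      rw [Subgroup.map_inf L L' ε.toMonoidHom ε.injective, hswap, inf_comm]) with h | h
    · exact h
    · exact absurd (top_le_iff.mp (h ▸ inf_le_left)) hne.2
  have hsup : L ⊔ L' = ⊤ := by
    rcases hstab (L ⊔ L') inferInstance (by rw [Subgroup.map_sup L L' ε.toMonoidHom, hswap, sup_comm]) with h | h
    · exact absurd (le_bot_iff.mp (h ▸ le_sup_left)) hne.1
    · exact h
  have hcL : Nat.card L' = Nat.card L :=
    Subgroup.card_map_of_injective (K := L) (f := ε.toMonoidHom) ε.injective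
  have hsq : Nat.card A = Nat.card L * Nat.card L := by
    have h := card_eq_mul_of_normal L L' hinf hsup
    rwa [hcL] at h
  rw [hAc] at hsq
  have hle : Nat.card L ≤ 19 := by nlinarith
  interval_cases h : Nat.card L <;> omega

/-- A simple group of order 360 is `A₆`. -/
theorem nonempty_equiv_alt {A : Type u} [Group A] [Finite A] [IsSimpleGroup A]
    (hA : Nat.card A = 360) : Nonempty (A ≃* alternatingGroup (Fin 6)) := by
  haveI : IsSimpleGroup (alternatingGroup (Fin 6)) := alternatingGroup.isSimpleGroup (by simp)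
  have h6 : Nat.card (alternatingGroup (Fin 6)) = 360 := by
    rw [nat_card_alternatingGroup, Nat.card_eq_fintype_card, Fintype.card_fin]
    rfl
  obtain ⟨e₁⟩ := SimpleOrders.ThreeSixty.nonempty_equiv_model hA
  obtain ⟨e₂⟩ := SimpleOrders.ThreeSixty.nonempty_equiv_model h6
  exact ⟨e₁.trans e₂.symm⟩

end Order720

end CfsgLib.M12Count.Six

namespace CfsgLib.M12Count

open Six

/-- The groups of order 720 with thirty-six self-centralising Sylow 5-subgroups. -/
theorem six_cases : SixCases.{u} := by
  intro X _ _ hX h36 h5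
  classical
  haveI : Fact (Nat.Prime 5) := ⟨Nat.prime_five⟩
  haveI : Fact (Nat.Prime 2) := ⟨Nat.prime_two⟩
  obtain ⟨A, hAn, hAi, hAc, hAs, hnorm⟩ := exists_simple_half hX h36 h5
  haveI := hAn
  haveI := hAs
  obtain ⟨φ⟩ := nonempty_equiv_alt (A := A) hAc
  refine ⟨A, hAi, ⟨φ⟩, ?_⟩
  by_cases hall : ∀ x : X, orderOf x = 2 → x ∈ A
  · exact Or.inl hall
  push Not at hall
  obtain ⟨e, he2, heA⟩ := hall
  have hee : e * e = 1 := by rw [← pow_two, ← he2, pow_orderOf_eq_one]
  right
  -- a subgroup of `A` isomorphic to `A₅`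
  obtain ⟨η⟩ := SmallPerm.alt_stabilizer_equiv (n := 5) (by norm_num) (0 : Fin 6)
  set S0 : Subgroup (alternatingGroup (Fin 6)) :=
    (MulAction.stabilizer (Equiv.Perm (Fin 6)) (0 : Fin 6)).subgroupOf (alternatingGroup (Fin 6))
    with hS0
  set H : Subgroup A := S0.map φ.symm.toMonoidHom with hHdef
  have hHS : Nonempty (alternatingGroup (Fin 5) ≃* H) :=
    ⟨η.symm.trans (S0.equivMapOfInjective _ φ.symm.injective)⟩
  obtain ⟨ι⟩ := hHS
  have hH : Nat.card H = 60 := by
    rw [← Nat.card_congr ι.toEquiv, nat_card_alternatingGroup, Nat.card_eq_fintype_card,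
      Fintype.card_fin]
    rfl
  have hHi : H.index = 6 := by
    have := H.card_mul_index
    rw [hH, hAc] at this
    omega
  have hncA : ¬ IsMulCommutative A := SimpleOrders.ThreeSixty.not_comm hAc
  -- the image of `H` under `e`
  set ε : MulAut A := MulAut.conjNormal e with hε
  set L : Subgroup A := H.map ε.toMonoidHom with hLdef
  have hL : Nat.card L = 60 := by rw [hLdef, Subgroup.card_map_of_injective (f := ε.toMonoidHom) ε.injective, hH]
  haveI : IsSimpleGroup (alternatingGroup (Fin 5)) := alternatingGroup.isSimpleGroup (by simp)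
  haveI : IsSimpleGroup L :=
    (ι.trans (H.equivMapOfInjective _ ε.injective)).symm.isSimpleGroup
  rcases conj_or_card_inf hH hL hHi with ⟨a, ha⟩ | hten
  · -- the normaliser of `H` has index six
    set HX := H.map A.subtype with hHX
    set N := Subgroup.normalizer (HX : Set X) with hNdef
    set y := (a : X)⁻¹ * e with hy
    have hyA : y ∉ A := fun h => heA (by
      have := mul_mem a.2 h
      rwa [hy, mul_inv_cancel_left] at this)
    have hyconj : ∀ h ∈ HX, y * h * y⁻¹ ∈ HX := by
      rintro _ ⟨h, hh, rfl⟩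
      have h1 : ε.toMonoidHom h ∈ L := Subgroup.mem_map_of_mem _ hh
      rw [ha] at h1
      obtain ⟨k, hk, hka⟩ := h1
      refine ⟨k, hk, ?_⟩
      have hka' : (a : X) * (k : X) * (a : X)⁻¹ = e * (h : X) * e⁻¹ := by
        have := congrArg Subtype.val hka
        simpa [hε, MulAut.conjNormal_apply] using this
      show (k : X) = y * (h : X) * y⁻¹
      calc (k : X) = (a : X)⁻¹ * ((a : X) * (k : X) * (a : X)⁻¹) * (a : X) := by group
        _ = (a : X)⁻¹ * (e * (h : X) * e⁻¹) * (a : X) := by rw [hka']
        _ = y * (h : X) * y⁻¹ := by rw [hy]; group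
    have hyN : y ∈ N := by
      have hmap : HX.map (MulAut.conj y).toMonoidHom = HX :=
        Subgroup.eq_of_le_of_card_ge (by rintro _ ⟨h, hh, rfl⟩; exact hyconj h hh)
          (by rw [Subgroup.card_map_of_injective (f := (MulAut.conj y).toMonoidHom) (MulAut.conj y).injective])
      rw [hNdef, Subgroup.mem_normalizer_iff]
      refine fun h => ⟨hyconj h, fun hh => ?_⟩
      rw [← hmap] at hh
      obtain ⟨k, hk, hk'⟩ := hh
      exact (MulAut.conj y).injective hk' ▸ hk
    have hNA : N.subgroupOf A = H := by
      have hle : H ≤ N.subgroupOf A := fun h hh =>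
        Subgroup.mem_subgroupOf.mpr (Subgroup.le_normalizer (Subgroup.mem_map_of_mem A.subtype hh))
      by_contra hne
      have htop : N.subgroupOf A = ⊤ := by
        by_contra hnt
        have hd := SmallSimple.card_dvd_factorial_index hncA _ hnt
        have hi : (N.subgroupOf A).index ∣ 6 := hHi ▸ Subgroup.index_dvd_of_le hle
        have hi6 : (N.subgroupOf A).index ≠ 6 := fun h6 => hne
          (Subgroup.eq_of_le_of_card_ge hle (by
            have := (N.subgroupOf A).card_mul_index
            rw [h6, hAc] at this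
            omega)).symm
        have hile := Nat.le_of_dvd (by norm_num) hi
        rw [hAc] at hd
        interval_cases h : (N.subgroupOf A).index <;>
          first | exact hi6 rfl | simp [Nat.factorial] at hd ⊢
      have hHn : H.Normal := by
        refine ⟨fun h hh b => ?_⟩
        have hb : (b : X) ∈ N := Subgroup.subgroupOf_eq_top.mp htop b.2
        obtain ⟨k, hk, hk'⟩ :=
          (Subgroup.mem_normalizer_iff.mp hb (h : X)).mp (Subgroup.mem_map_of_mem A.subtype hh)
        have hkk : k = b * h * b⁻¹ := Subtype.ext (by simpa using hk')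
        exact hkk ▸ hk
      rcases hHn.eq_bot_or_eq_top with h | h
      · rw [h, Subgroup.card_bot] at hH; omega
      · rw [h, Subgroup.index_top] at hHi; omega
    have hNi : N.index = 6 := by
      have h2 : A.relIndex N = 2 := by
        refine le_antisymm ?_ ?_
        · have h := Subgroup.relIndex_le_of_le_right (le_top : N ≤ (⊤ : Subgroup X))
            (show A.relIndex ⊤ ≠ 0 by rw [Subgroup.relIndex_top_right]; omega)
          rwa [Subgroup.relIndex_top_right, hAi] at h
        · have h1 : A.relIndex N ≠ 1 := fun h => hyA (Subgroup.relIndex_eq_one.mp h hyN)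
          have h0 : A.relIndex N ≠ 0 := Subgroup.index_ne_zero_of_finite
          omega
      have hA' : N.relIndex A = 6 := by
        rw [Subgroup.relIndex, hNA, hHi]
      have e1 := (A ⊓ N).card_mul_index
      have e2 : A.relIndex N * Nat.card (A ⊓ N : Subgroup X) = Nat.card N := by
        rw [← (A.subgroupOf N).card_mul_index, mul_comm]
        congr 1
        rw [← Subgroup.inf_subgroupOf_right A N]
        exact (Nat.card_congr (Subgroup.subgroupOfEquivOfLe inf_le_right).toEquiv).symm
      have e3 : Nat.card (A ⊓ N : Subgroup X) = 60 := by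
        rw [inf_comm, ← hH, ← hNA]
        exact (Nat.card_congr (Subgroup.subgroupOfEquivOfLe inf_le_right).toEquiv).symm.trans
          (by rw [Subgroup.inf_subgroupOf_right])
      have e4 := N.card_mul_index
      rw [← e2, h2, e3, hX] at e4
      omega
    obtain ⟨ψ, pt, hker, -⟩ := SmallPerm.exists_coset_hom N hNi
    have hψ : Function.Injective ψ := by
      rw [← MonoidHom.ker_eq_bot_iff]
      by_contra hne
      have hkt : ψ.ker ≠ ⊤ := fun h => by
        rw [h, top_le_iff] at hker
        rw [hker, Subgroup.index_top] at hNi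
        omega
      have hc := hnorm ψ.ker inferInstance hne hkt
      have hd := Subgroup.card_dvd_of_le hker
      have hN120 := N.card_mul_index
      rw [hNi, hX] at hN120
      rw [hc, show Nat.card N = 120 by omega] at hd
      omega
    exact ⟨MulEquiv.ofBijective ψ ((Nat.bijective_iff_injective_and_card _).mpr ⟨hψ, by
      rw [hX, Nat.card_perm, Nat.card_fin]; rfl⟩)⟩
  · -- the involution would normalise a Sylow 5-subgroup
    exfalso
    set D : Subgroup A := H ⊓ L with hD
    have hεε : ∀ x : A, ε.toMonoidHom (ε.toMonoidHom x) = x := by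
      intro x
      apply Subtype.ext
      show (MulAut.conjNormal e (MulAut.conjNormal e x) : X) = (x : X)
      rw [MulAut.conjNormal_apply, MulAut.conjNormal_apply]
      have hinv : e⁻¹ = e := inv_eq_of_mul_eq_one_right hee
      rw [hinv]
      calc e * (e * (x : X) * e) * e = (e * e) * (x : X) * (e * e) := by group
        _ = (x : X) := by rw [hee, one_mul, mul_one]
    have hDε : ∀ x ∈ D, ε.toMonoidHom x ∈ D := by
      rintro x ⟨hxH, hxL⟩
      obtain ⟨k, hk, hk'⟩ := hxL
      exact ⟨by rw [← hk', hεε]; exact hk, Subgroup.mem_map_of_mem _ hxH⟩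
    obtain ⟨g, hg⟩ := exists_prime_orderOf_dvd_card' 5 (show 5 ∣ Nat.card D by rw [hten]; norm_num)
    obtain ⟨f, hf⟩ := exists_prime_orderOf_dvd_card' 2 (show 2 ∣ Nat.card D by rw [hten]; norm_num)
    have hgi : (Subgroup.zpowers g).index = 2 := by
      have := (Subgroup.zpowers g).card_mul_index
      rw [Nat.card_zpowers, hg, hten] at this
      omega
    have hfive : ∀ x : D, x ^ 5 = 1 → x ∈ Subgroup.zpowers g := by
      intro x hx
      have h2 := Subgroup.mul_self_mem_of_index_two hgi x
      have hx3 : x = (x * x) ^ 3 := by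
        rw [← pow_two, ← pow_mul, show 2 * 3 = 5 + 1 by norm_num, pow_succ, hx, one_mul]
      rw [hx3]
      exact pow_mem h2 3
    have hinv : ∀ z : X, z * z = 1 → z * ((g : A) : X) * z⁻¹ ∈ Subgroup.zpowers ((g : A) : X) →
        z * ((g : A) : X) * z⁻¹ = ((g : A) : X) ∨ z * ((g : A) : X) * z⁻¹ = ((g : A) : X)⁻¹ := by
      intro z hz hmem
      set w := ((g : A) : X) with hw
      have hwo : orderOf w = 5 := by rw [hw, Subgroup.orderOf_coe, Subgroup.orderOf_coe, hg]
      have hw5 : w ^ 5 = 1 := hwo ▸ pow_orderOf_eq_one w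
      obtain ⟨i, hi5, hi'⟩ : ∃ i, i < 5 ∧ w ^ i = z * w * z⁻¹ := by
        obtain ⟨i, hi, hi'⟩ := (isOfFinOrder_of_finite w).mem_zpowers_iff_mem_range_orderOf.mp hmem
          |> Finset.mem_image.mp
        exact ⟨i, hwo ▸ Finset.mem_range.mp hi, hi'⟩
      have hinvz : z⁻¹ = z := inv_eq_of_mul_eq_one_right hz
      have h2 : w ^ (i * i) = w := by
        rw [pow_mul, hi', conj_pow, hi', hinvz]
        calc z * (z * w * z) * z = (z * z) * w * (z * z) := by group
          _ = w := by rw [hz, one_mul, mul_one]
      have h3 : i * i % 5 = 1 % 5 := by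
        have h4 : w ^ (i * i) = w ^ 1 := by rw [h2, pow_one]
        rw [pow_inj_mod, hwo] at h4
        exact h4
      have hi14 : i = 1 ∨ i = 4 := by interval_cases i <;> omega
      rcases hi14 with rfl | rfl
      · exact Or.inl (by rw [← hi', pow_one])
      · refine Or.inr ?_
        rw [← hi']
        exact (inv_eq_of_mul_eq_one_right (by rw [← pow_succ', hw5])).symm
    have hmemz : ∀ x : D, x ∈ Subgroup.zpowers g →
        ((x : A) : X) ∈ Subgroup.zpowers ((g : A) : X) := by
      intro x hx
      obtain ⟨i, rfl⟩ := Subgroup.mem_zpowers_iff.mp hx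
      exact Subgroup.mem_zpowers_iff.mpr ⟨i, by simp⟩
    have hw5 : orderOf ((g : A) : X) = 5 := by
      rw [Subgroup.orderOf_coe, Subgroup.orderOf_coe, hg]
    have hcent : ∀ z : X, z * ((g : A) : X) * z⁻¹ = ((g : A) : X) → z ∈ A ∧ z ^ 5 = 1 := by
      intro z hz
      have hzc : z ∈ Subgroup.centralizer ({((g : A) : X)} : Set X) :=
        Subgroup.mem_centralizer_singleton_iff.mpr (mul_inv_eq_iff_eq_mul.mp hz)
      have hzeq : Subgroup.zpowers ((g : A) : X) =
          Subgroup.centralizer ({((g : A) : X)} : Set X) :=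
        Subgroup.eq_of_le_of_card_ge
          (Subgroup.zpowers_le.mpr (Subgroup.mem_centralizer_singleton_iff.mpr rfl))
          (by rw [h5 _ hw5, Nat.card_zpowers, hw5])
      refine ⟨?_, ?_⟩
      · rw [← hzeq] at hzc
        obtain ⟨i, rfl⟩ := Subgroup.mem_zpowers_iff.mp hzc
        exact zpow_mem (g : A).2 i
      · have hd : orderOf z ∣ 5 := h5 _ hw5 ▸ Subgroup.orderOf_dvd_natCard _ hzc
        exact orderOf_dvd_iff_pow_eq_one.mp hd
    have hge : e * ((g : A) : X) * e⁻¹ ∈ Subgroup.zpowers ((g : A) : X) := by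
      have hmem := hmemz ⟨ε.toMonoidHom (g : A), hDε _ g.2⟩ (hfive _ (by
        apply Subtype.ext
        show (ε.toMonoidHom (g : A)) ^ 5 = 1
        rw [← map_pow, ← Subgroup.coe_pow, ← hg, pow_orderOf_eq_one, OneMemClass.coe_one, map_one]))
      have hval : ((ε.toMonoidHom (g : A) : A) : X) = e * ((g : A) : X) * e⁻¹ :=
        MulAut.conjNormal_apply e (g : A)
      rwa [← hval]
    have hff : ((f : A) : X) * ((f : A) : X) = 1 := by
      have : f * f = 1 := by rw [← pow_two, ← hf, pow_orderOf_eq_one]
      exact congrArg (fun x : D => ((x : A) : X)) this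
    have hgf : ((f : A) : X) * ((g : A) : X) * ((f : A) : X)⁻¹ ∈
        Subgroup.zpowers ((g : A) : X) := by
      have hg5 : g ^ 5 = 1 := hg ▸ pow_orderOf_eq_one g
      simpa using hmemz (f * g * f⁻¹) (hfive _ (by rw [conj_pow, hg5, mul_one, mul_inv_cancel]))
    have hno : ∀ z : X, z * z = 1 → z ≠ 1 → z * ((g : A) : X) * z⁻¹ ≠ ((g : A) : X) := by
      intro z hz hz1 hc
      obtain ⟨-, h5z⟩ := hcent z hc
      apply hz1
      calc z = z * ((z * z) * (z * z)) := by rw [hz, one_mul, mul_one]
        _ = z ^ 5 := by simp only [pow_succ, pow_zero, one_mul, mul_assoc]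
        _ = 1 := h5z
    have he1 : e ≠ 1 := fun h => by rw [h, orderOf_one] at he2; omega
    have hf1 : ((f : A) : X) ≠ 1 := fun h => by
      have hfo : orderOf ((f : A) : X) = 2 := by
        rw [Subgroup.orderOf_coe, Subgroup.orderOf_coe, hf]
      rw [h, orderOf_one] at hfo
      omega
    rcases hinv e hee hge with h | h
    · exact hno e hee he1 h
    rcases hinv _ hff hgf with h' | h'
    · exact hno _ hff hf1 h'
    have hprod : ((f : A) : X) * e * ((g : A) : X) * (((f : A) : X) * e)⁻¹ = ((g : A) : X) := by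
      calc ((f : A) : X) * e * ((g : A) : X) * (((f : A) : X) * e)⁻¹
          = ((f : A) : X) * (e * ((g : A) : X) * e⁻¹) * ((f : A) : X)⁻¹ := by group
        _ = (((f : A) : X) * ((g : A) : X) * ((f : A) : X)⁻¹)⁻¹ := by rw [h]; group
        _ = _ := by rw [h', inv_inv]
    have hmem := mul_mem (inv_mem (f : A).2) (hcent _ hprod).1
    rw [inv_mul_cancel_left] at hmem
    exact heA hmem

variable {G : Type u} [Group G] [Finite G]

/-- The centraliser of `t` does not have order 1440. -/
theorem Setup.not_1440 (h : Setup G) {t : G} (ht : IsFiveInv t) :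
    Nat.card (Subgroup.centralizer ({t} : Set G)) ≠ 1440 :=
  Setup.not_1440_of six_cases h ht

end CfsgLib.M12Count
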