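import Cfsg.Agent.M12Count.SmallPhi

/-!
The derived part of a five frame and the central involution of a Sylow 2-subgroup.
-/

set_option autoImplicit false
set_option linter.style.haveILetI false

namespace CfsgLib.M12Count

open FiveData
open scoped commutatorElement

variable {G : Type*} [Group G] [Finite G] {t : G}
  {φ : Subgroup.centralizer ({t} : Set G) →* Equiv.Perm (Fin 5)}

namespace FiveFrame

variable (hF : FiveFrame t φ)

include hF

theorem mem_t : t ∈ Subgroup.centralizer ({t} : Set G) :=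
  Subgroup.mem_centralizer_singleton_iff.mpr rfl

theorem tt : t * t = 1 := by rw [← pow_two, ← hF.ord, pow_orderOf_eq_one]

theorem t_ne : t ≠ 1 := fun e => by simpa [e] using hF.ord

theorem comm (x : Subgroup.centralizer ({t} : Set G)) : (x : G) * t = t * x :=
  Subgroup.mem_centralizer_singleton_iff.mp x.2

theorem fiber {x y : Subgroup.centralizer ({t} : Set G)} (e : φ x = φ y) :
    (x : G) = y ∨ (x : G) = y * t := by
  have h1 : φ (y⁻¹ * x) = 1 := by rw [map_mul, map_inv, e, inv_mul_cancel]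
  rcases (hF.ker _).mp h1 with h | h <;>
    rw [Subgroup.coe_mul, Subgroup.coe_inv, inv_mul_eq_iff_eq_mul] at h
  · exact Or.inl (by simpa using h)
  · exact Or.inr h

theorem card_fiber_set (S : Set (Equiv.Perm (Fin 5))) :
    Nat.card {x : Subgroup.centralizer ({t} : Set G) // φ x ∈ S} = 2 * Nat.card S := by
  classical
  haveI := Fintype.ofFinite (Subgroup.centralizer ({t} : Set G))
  set τ : Subgroup.centralizer ({t} : Set G) := ⟨t, hF.mem_t⟩
  have hτ : φ τ = 1 := (hF.ker _).mpr (Or.inr rfl)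
  choose g hg using fun s : S => hF.surj (s : Equiv.Perm (Fin 5))
  rw [show 2 * Nat.card S = Nat.card (Bool × S) by simp [Nat.card_prod]]
  refine (Nat.card_eq_of_bijective (fun a : Bool × S =>
    (⟨if a.1 then g a.2 * τ else g a.2, ?_⟩ : {x // φ x ∈ S})) ⟨?_, ?_⟩).symm
  · split_ifs
    · rw [map_mul, hg, hτ, mul_one]; exact a.2.2
    · rw [hg]; exact a.2.2
  · rintro ⟨a, s⟩ ⟨b, r⟩ e
    have e' : (if a then g s * τ else g s) = (if b then g r * τ else g r) := congrArg Subtype.val e
    have hsr : s = r := by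
      have := congrArg φ e'
      split_ifs at this <;> simp only [map_mul, hg, hτ, mul_one] at this <;> exact Subtype.ext this
    subst hsr
    cases a <;> cases b <;> simp at e' ⊢
    all_goals exact hF.t_ne (by simpa [τ] using congrArg Subtype.val e')
  · rintro ⟨x, hx⟩
    rcases hF.fiber (show φ x = φ (g ⟨_, hx⟩) by rw [hg]) with e | e
    · exact ⟨⟨false, ⟨_, hx⟩⟩, Subtype.ext (Subtype.ext e.symm)⟩
    · exact ⟨⟨true, ⟨_, hx⟩⟩, Subtype.ext (Subtype.ext e.symm)⟩

/-- The Sylow 2-subgroup used: the elements mapping into the centraliser of `z0`. -/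
noncomputable def two (_ : FiveFrame t φ) : Subgroup G :=
  ((Subgroup.centralizer ({z0} : Set (Equiv.Perm (Fin 5)))).comap φ).map
    (Subgroup.centralizer ({t} : Set G)).subtype

theorem mem_two {x : Subgroup.centralizer ({t} : Set G)} :
    (x : G) ∈ hF.two ↔ φ x * z0 = z0 * φ x := by
  rw [two]
  constructor
  · rintro ⟨y, hy, e⟩
    rw [← show y = x from Subtype.ext e]
    exact Subgroup.mem_centralizer_singleton_iff.mp hy
  · exact fun h => ⟨x, Subgroup.mem_centralizer_singleton_iff.mpr h, rfl⟩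

theorem two_le : hF.two ≤ Subgroup.centralizer ({t} : Set G) := Subgroup.map_subtype_le _

theorem t_mem_two : t ∈ hF.two := by
  have := (hF.mem_two (x := ⟨t, hF.mem_t⟩)).mpr (by
    rw [(hF.ker _).mpr (Or.inr rfl), one_mul, mul_one])
  exact this

theorem card_two : Nat.card hF.two = 16 := by
  rw [two, Subgroup.card_map_of_injective (Subgroup.subtype_injective _)]
  rw [show Nat.card ((Subgroup.centralizer ({z0} : Set (Equiv.Perm (Fin 5)))).comap φ) =
    Nat.card {x : Subgroup.centralizer ({t} : Set G) //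
      φ x ∈ ((Subgroup.centralizer ({z0} : Set (Equiv.Perm (Fin 5)))) : Set _)} from rfl,
    hF.card_fiber_set]
  rw [show Nat.card ((Subgroup.centralizer ({z0} : Set (Equiv.Perm (Fin 5))) : Set _)) =
    Nat.card {x : S5 // x * z0 = z0 * x} from Nat.card_congr (Equiv.subtypeEquivRight fun x =>
      Subgroup.mem_centralizer_singleton_iff), Nat.card_eq_fintype_card, Fintype.card_subtype,
    card_cent_z0]

theorem isPGroup_two : IsPGroup 2 hF.two := IsPGroup.of_card (n := 4) (by rw [hF.card_two]; rfl)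

/-- A `2`-element outside `two` normalising it, necessarily outside the centraliser of `t`. -/
theorem exists_mover (hG : 64 ∣ Nat.card G) :
    ∃ g : G, g ∈ Subgroup.normalizer (hF.two : Set G) ∧ g * t * g⁻¹ ≠ t := by
  obtain ⟨S, hS⟩ := hF.isPGroup_two.exists_le_sylow
  have hcS : 64 ∣ Nat.card (S : Subgroup G) := S.pow_dvd_card_of_pow_dvd_card (n := 6) hG
  haveI : Group.IsNilpotent (S : Subgroup G) := S.2.isNilpotent
  set T' := hF.two.subgroupOf (S : Subgroup G)
  have hlt : T' < ⊤ := by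
    refine lt_top_iff_ne_top.mpr fun e => ?_
    have := Subgroup.card_top (G := (S : Subgroup G))
    rw [← e, Nat.card_congr (Subgroup.subgroupOfEquivOfLe hS).toEquiv, hF.card_two] at this
    rw [← this] at hcS
    norm_num at hcS
  obtain ⟨g, hgN, hgT⟩ := SetLike.exists_of_lt (normalizerCondition_of_isNilpotent T' hlt)
  have hgn : (g : G) ∈ Subgroup.normalizer (hF.two : Set G) := by
    rw [Subgroup.mem_normalizer_iff]
    intro x
    constructor
    · intro hx
      exact (Subgroup.mem_normalizer_iff.mp hgN ⟨x, hS hx⟩).mp hx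
    · intro hx
      have hxS : x ∈ (S : Subgroup G) := by
        have := mul_mem (mul_mem ((S : Subgroup G).inv_mem g.2) (hS hx)) g.2
        simpa [mul_assoc] using this
      exact (Subgroup.mem_normalizer_iff.mp hgN ⟨x, hxS⟩).mpr hx
  refine ⟨g, hgn, fun hfix => hgT ?_⟩
  -- otherwise `⟨g, T⟩` is a larger 2-subgroup of the centraliser
  have hgH : (g : G) ∈ Subgroup.centralizer ({t} : Set G) :=
    Subgroup.mem_centralizer_singleton_iff.mpr (mul_inv_eq_iff_eq_mul.mp hfix)
  set W := ((S : Subgroup G) ⊓ Subgroup.centralizer ({t} : Set G))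
  have hW2 : IsPGroup 2 W := S.2.to_le inf_le_left
  obtain ⟨n, hn⟩ := IsPGroup.iff_card.mp hW2
  have hdvd : Nat.card W ∣ 240 := hF.card ▸ Subgroup.card_dvd_of_le inf_le_right
  have hle : hF.two ≤ W := le_inf hS hF.two_le
  have hn4 : n ≤ 4 := by
    by_contra hn5
    rw [hn] at hdvd
    have := dvd_trans (pow_dvd_pow 2 (show 5 ≤ n by omega)) hdvd
    norm_num at this
  have : hF.two = W := Subgroup.eq_of_le_of_card_ge hle (by
    rw [hn, hF.card_two]; exact (Nat.pow_le_pow_right (by norm_num) hn4).trans le_rfl)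
  show (g : G) ∈ hF.two
  rw [this]
  exact ⟨g.2, hgH⟩

theorem comm_two {a b : Subgroup.centralizer ({t} : Set G)} (ha : (a : G) ∈ hF.two)
    (hb : (b : G) ∈ hF.two) : φ ⁅a, b⁆ = 1 ∨ φ ⁅a, b⁆ = z0 := by
  rw [map_commutatorElement, commutatorElement_def]
  exact comm_cent_z0 _ (hF.mem_two.mp ha) _ (hF.mem_two.mp hb)

/-- The lifts of double transpositions are involutions. -/
theorem sq_lift (hG : 64 ∣ Nat.card G) {x : Subgroup.centralizer ({t} : Set G)}
    (hx : IsDouble (φ x)) : (x : G) * x = 1 := by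
  -- it is enough to treat one lift of `z0`
  suffices hz : ∀ y : Subgroup.centralizer ({t} : Set G), φ y = z0 → (y : G) * y = 1 by
    obtain ⟨h, hh⟩ := double_conj _ hx
    obtain ⟨k, rfl⟩ := hF.surj h
    have h1 : φ (k⁻¹ * x * k) = z0 := by
      rw [map_mul, map_mul, map_inv, ← hh]; group
    have h2 := hz _ h1
    simp only [Subgroup.coe_mul, Subgroup.coe_inv] at h2
    calc (x : G) * x = k * (((k : G)⁻¹ * x * k) * ((k : G)⁻¹ * x * k)) * (k : G)⁻¹ := by group
      _ = 1 := by rw [h2]; group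
  intro y hy
  by_contra hne
  have hy2 : (y : G) * y = t := by
    have : φ (y * y) = 1 := by
      rw [map_mul, hy]; exact b0_facts.1.1
    rcases (hF.ker _).mp this with e | e
    · exact absurd e hne
    · exact e
  obtain ⟨σ, τ, hσ, hτ, hστ⟩ := exists_comm_z0
  obtain ⟨a, rfl⟩ := hF.surj σ
  obtain ⟨b, rfl⟩ := hF.surj τ
  have hab : φ ⁅a, b⁆ = z0 := by rw [map_commutatorElement, commutatorElement_def, hστ]
  have hsq : ∀ w : Subgroup.centralizer ({t} : Set G), φ w = z0 → (w : G) * w = t := by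
    intro w hw
    rcases hF.fiber (hw.trans hy.symm) with e | e
    · rw [e]; exact hy2
    · rw [e, show (y : G) * t * (y * t) = y * (t * y) * t by group, ← hF.comm y,
        show (y : G) * (y * t) * t = y * y * (t * t) by group, hF.tt, mul_one, hy2]
  obtain ⟨g, hgN, hgt⟩ := hF.exists_mover hG
  apply hgt
  have ga := (Subgroup.mem_normalizer_iff.mp hgN (a : G)).mp (hF.mem_two.mpr hσ)
  have gb := (Subgroup.mem_normalizer_iff.mp hgN (b : G)).mp (hF.mem_two.mpr hτ)
  set a' : Subgroup.centralizer ({t} : Set G) := ⟨_, hF.two_le ga⟩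
  set b' : Subgroup.centralizer ({t} : Set G) := ⟨_, hF.two_le gb⟩
  have hc : ((⁅a', b'⁆ : Subgroup.centralizer ({t} : Set G)) : G) =
      g * ((⁅a, b⁆ : Subgroup.centralizer ({t} : Set G)) : G) * g⁻¹ := by
    simp only [commutatorElement_def, Subgroup.coe_mul, Subgroup.coe_inv, a', b']
    group
  set w : G := ((⁅a, b⁆ : Subgroup.centralizer ({t} : Set G)) : G)
  rcases hF.comm_two (a := a') (b := b') ga gb with e | e
  · exfalso
    have h4 : w * w = t := hsq _ hab
    have hk : g * w * g⁻¹ * (g * w * g⁻¹) = g * t * g⁻¹ := by rw [← h4]; group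
    rcases (hF.ker _).mp e with e' | e'
    · rw [hc] at e'
      rw [e', one_mul] at hk
      exact hF.t_ne (conj_eq_one_iff.mp hk.symm)
    · rw [hc] at e'
      rw [e', hF.tt] at hk
      exact hF.t_ne (conj_eq_one_iff.mp hk.symm)
  · have := hsq _ e
    rw [hc] at this
    calc g * t * g⁻¹ = g * (w * w) * g⁻¹ := by rw [hsq _ hab]
      _ = g * w * g⁻¹ * (g * w * g⁻¹) := by rw [conj_mul]
      _ = t := this

/-- The even part and its commutator subgroup. -/
noncomputable def evenPart (_ : FiveFrame t φ) : Subgroup (Subgroup.centralizer ({t} : Set G)) :=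
  (Equiv.Perm.sign.comp φ).ker

/-- The perfect subgroup of index four. -/
noncomputable def core (h : FiveFrame t φ) : Subgroup (Subgroup.centralizer ({t} : Set G)) :=
  ⁅h.evenPart, h.evenPart⁆

theorem mem_even {x : Subgroup.centralizer ({t} : Set G)} :
    x ∈ hF.evenPart ↔ Equiv.Perm.sign (φ x) = 1 := Iff.rfl

theorem core_normal : (hF.core).Normal := by
  haveI : hF.evenPart.Normal := MonoidHom.normal_ker _
  exact Subgroup.commutator_normal _ _

theorem card_even : Nat.card hF.evenPart = 120 := by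
  rw [show Nat.card hF.evenPart = Nat.card {x : Subgroup.centralizer ({t} : Set G) //
      φ x ∈ (alternatingGroup (Fin 5) : Set (Equiv.Perm (Fin 5)))} from
    Nat.card_congr (Equiv.subtypeEquivRight fun x => Iff.rfl), hF.card_fiber_set,
    show Nat.card ((alternatingGroup (Fin 5) : Set (Equiv.Perm (Fin 5)))) =
      Nat.card (alternatingGroup (Fin 5)) from rfl, nat_card_alternatingGroup, Nat.card_fin]
  decide

theorem t_not_mem_core (hG : 64 ∣ Nat.card G) :
    (⟨t, hF.mem_t⟩ : Subgroup.centralizer ({t} : Set G)) ∉ hF.core := by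
  haveI : Fact (Nat.Prime 2) := ⟨Nat.prime_two⟩
  set M := hF.evenPart
  set τ : Subgroup.centralizer ({t} : Set G) := ⟨t, hF.mem_t⟩
  have hτ1 : φ τ = 1 := (hF.ker _).mpr (Or.inr rfl)
  have hτM : τ ∈ M := by rw [mem_even, hτ1, map_one]
  have hcen : ∀ u : M, u * ⟨τ, hτM⟩ = ⟨τ, hτM⟩ * u := fun u =>
    Subtype.ext (Subtype.ext (hF.comm (u : Subgroup.centralizer ({t} : Set G))))
  obtain ⟨P⟩ : Nonempty (Sylow 2 M) := inferInstance
  have hsq : ∀ u ∈ (P : Subgroup M), u * u = 1 := by
    intro u hu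
    obtain ⟨n, hn⟩ := IsPGroup.iff_card.mp P.2
    have h8 : Nat.card (P : Subgroup M) ∣ 8 := by
      have hd : Nat.card (P : Subgroup M) ∣ 2 ^ 3 * 15 := by
        have := Subgroup.card_subgroup_dvd_card (P : Subgroup M)
        rwa [hF.card_even] at this
      rw [hn] at hd ⊢
      exact ((Nat.Coprime.pow_left n (by norm_num)).dvd_mul_right).mp hd
    have hu8 : u ^ 8 = 1 := orderOf_dvd_iff_pow_eq_one.mp
      ((Subgroup.orderOf_dvd_natCard _ hu).trans h8)
    have hφ8 : (φ (u : Subgroup.centralizer ({t} : Set G))) ^ 8 = 1 := by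
      rw [← map_pow, ← Subgroup.coe_pow, hu8, Subgroup.coe_one, map_one]
    set d := φ (u : Subgroup.centralizer ({t} : Set G))
    have hd : Equiv.Perm.sign d = 1 := u.2
    have hd4 : (d * d) * (d * d) = 1 := by
      have h2 := sq_double (d * d) (by rw [map_mul, hd, one_mul]) (by
        rw [show d * d * (d * d) * (d * d * (d * d)) = d ^ 8 by simp [pow_succ, mul_assoc], hφ8])
      exact h2
    have hd2 := sq_double d hd hd4
    refine Subtype.ext (Subtype.ext ?_)
    simp only [Subgroup.coe_mul, Subgroup.coe_one]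
    by_cases h1 : d = 1
    · rcases (hF.ker _).mp h1 with e | e <;> rw [e]
      · exact mul_one _
      · exact hF.tt
    · exact hF.sq_lift hG ⟨hd2, h1, hd⟩
  haveI : IsMulCommutative (P : Subgroup M) := ⟨⟨fun a b => by
    have hinv : ∀ c : (P : Subgroup M), c⁻¹ = c := fun c =>
      inv_eq_of_mul_eq_one_right (Subtype.ext (hsq c.1 c.2))
    rw [← hinv (a * b), mul_inv_rev, hinv, hinv]⟩⟩
  have hτP : (⟨τ, hτM⟩ : M) ∈ (P : Subgroup M) := by
    obtain ⟨Q, hQ⟩ := (IsPGroup.of_card (p := 2) (n := 1)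
      (G := Subgroup.zpowers (⟨τ, hτM⟩ : M)) (by
        rw [Nat.card_zpowers, Subgroup.orderOf_mk, Subgroup.orderOf_mk, hF.ord, pow_one])).exists_le_sylow
    obtain ⟨k, hk⟩ := MulAction.exists_smul_eq M Q P
    rw [← hk, Sylow.coe_subgroup_smul]
    exact ⟨_, hQ (Subgroup.mem_zpowers _), mul_inv_eq_iff_eq_mul.mpr (hcen k)⟩
  let ι : (P : Subgroup M) →* (P : Subgroup M) := MonoidHom.id _
  intro hτc
  have hmem : (⟨τ, hτM⟩ : M) ∈ commutator M := by
    have : τ ∈ (commutator M).map M.subtype := by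
      rw [Subgroup.map_subtype_commutator]; exact hτc
    obtain ⟨u, hu, hu'⟩ := this
    exact (show u = ⟨τ, hτM⟩ from Subtype.ext hu') ▸ hu
  letI : CommGroup (P : Subgroup M) := { mul_comm := fun a b => mul_comm' a b }
  have h0 : MonoidHom.transfer ι (⟨τ, hτM⟩ : M) = 1 :=
    Abelianization.commutator_subset_ker _ hmem
  have key : ∀ (k : ℕ) (g₀ : M), g₀⁻¹ * (⟨τ, hτM⟩ : M) ^ k * g₀ ∈ (P : Subgroup M) →
      g₀⁻¹ * (⟨τ, hτM⟩ : M) ^ k * g₀ = (⟨τ, hτM⟩ : M) ^ k := fun k g₀ _ => by
    rw [mul_assoc, ← (show Commute g₀ (⟨τ, hτM⟩ : M) from hcen g₀).pow_right k |>.eq,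
      inv_mul_cancel_left]
  rw [MonoidHom.transfer_eq_pow ι _ key] at h0
  have h1 : (⟨τ, hτM⟩ : M) ^ (P : Subgroup M).index = 1 := congrArg Subtype.val h0
  have hodd : ¬ 2 ∣ (P : Subgroup M).index := P.not_dvd_index
  have := orderOf_dvd_of_pow_eq_one h1
  rw [Subgroup.orderOf_mk, Subgroup.orderOf_mk, hF.ord] at this
  exact hodd this

theorem core_map : hF.core.map φ = alternatingGroup (Fin 5) := by
  refine le_antisymm ?_ ?_
  · haveI : hF.evenPart.Normal := MonoidHom.normal_ker _
    refine (Subgroup.map_mono (Subgroup.commutator_le_left _ _ : hF.core ≤ hF.evenPart)).trans ?_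
    rintro _ ⟨x, hx, rfl⟩
    exact hx
  · rw [← Equiv.Perm.closure_three_cycles_eq_alternating, Subgroup.closure_le]
    intro σ hσ
    have h3 : σ * (σ * σ) = 1 := by
      have := pow_orderOf_eq_one σ
      rwa [hσ.orderOf, pow_succ', pow_two] at this
    obtain ⟨a, ha, b, hb, hab⟩ := three_comm σ h3
    obtain ⟨x, rfl⟩ := hF.surj a
    obtain ⟨y, rfl⟩ := hF.surj b
    exact ⟨⁅x, y⁆, Subgroup.commutator_mem_commutator ha hb, by
      rw [map_commutatorElement, commutatorElement_def, hab]⟩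

theorem core_inj (hG : 64 ∣ Nat.card G) {x : Subgroup.centralizer ({t} : Set G)} (hx : x ∈ hF.core)
    (h1 : φ x = 1) : x = 1 := by
  rcases (hF.ker _).mp h1 with e | e
  · exact Subtype.ext e
  · exact absurd (show (⟨t, hF.mem_t⟩ : Subgroup.centralizer ({t} : Set G)) ∈ hF.core from
      (show x = ⟨t, hF.mem_t⟩ from Subtype.ext e) ▸ hx) (hF.t_not_mem_core hG)

theorem card_core (hG : 64 ∣ Nat.card G) : Nat.card hF.core = 60 := by
  have : Nat.card hF.core = Nat.card (hF.core.map φ) := by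
    refine Nat.card_eq_of_bijective (fun x : hF.core => (⟨φ x, x, x.2, rfl⟩ : hF.core.map φ))
      ⟨fun x y e => ?_, fun y => ?_⟩
    · have e' : φ (x : Subgroup.centralizer ({t} : Set G)) = φ y := congrArg Subtype.val e
      have := hF.core_inj hG (mul_mem (inv_mem x.2) y.2) (by
        rw [map_mul, map_inv, e', inv_mul_cancel])
      exact Subtype.ext (inv_mul_eq_one.mp this)
    · obtain ⟨x, hx, e⟩ := y.2
      exact ⟨⟨x, hx⟩, Subtype.ext e⟩
  rw [this, hF.core_map, nat_card_alternatingGroup, Nat.card_fin]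
  decide

theorem commutator_le_core (hG : 64 ∣ Nat.card G) :
    commutator (Subgroup.centralizer ({t} : Set G)) ≤ hF.core := by
  haveI := hF.core_normal
  have h4 : Nat.card ((Subgroup.centralizer ({t} : Set G)) ⧸ hF.core) = 2 ^ 2 := by
    have h1 := Subgroup.card_eq_card_quotient_mul_card_subgroup hF.core
    rw [hF.card, hF.card_core hG] at h1
    omega
  haveI : Fact (Nat.Prime 2) := ⟨Nat.prime_two⟩
  have hc := IsPGroup.isMulCommutative_of_card_eq_prime_sq h4
  rw [commutator_def, Subgroup.commutator_le]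
  intro x _ y _
  rw [← QuotientGroup.eq_one_iff, ← QuotientGroup.mk'_apply, map_commutatorElement,
    commutatorElement_eq_one_iff_commute]
  exact hc.is_comm.comm _ _

theorem ne_one_of_map {x : Subgroup.centralizer ({t} : Set G)} (h : φ x ≠ 1) : (x : G) ≠ 1 :=
  fun e => h ((hF.ker x).mpr (Or.inl e))

/-- The central involution `c` of the chosen Sylow 2-subgroup. -/
theorem exists_c (hG : 64 ∣ Nat.card G) : ∃ c : Subgroup.centralizer ({t} : Set G),
    c ∈ hF.core ∧ φ c = z0 ∧ orderOf (c : G) = 2 ∧ (c : G) ∈ ⁅hF.two, hF.two⁆ ∧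
      hF.two ≤ Subgroup.centralizer ({(c : G)} : Set G) ∧ IsConj t (t * c) ∧
      64 ∣ Nat.card (Subgroup.centralizer ({(c : G)} : Set G)) := by
  obtain ⟨σ, τ, hσ, hτ, hστ⟩ := exists_comm_z0
  obtain ⟨a, rfl⟩ := hF.surj σ
  obtain ⟨b, rfl⟩ := hF.surj τ
  have hz1 : z0 ≠ 1 := b0_facts.1.2.1
  set c := ⁅a, b⁆ with hc
  have hab : φ c = z0 := by rw [hc, map_commutatorElement, commutatorElement_def, hστ]
  have hcomm : ∀ x y : Subgroup.centralizer ({t} : Set G), ⁅x, y⁆ ∈ hF.core := fun x y =>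
    hF.commutator_le_core hG (Subgroup.commutator_mem_commutator (Subgroup.mem_top x)
      (Subgroup.mem_top y))
  have hcc : c ∈ hF.core := hcomm a b
  have hc2 : (c : G) * c = 1 := hF.sq_lift hG (hab ▸ b0_facts.1)
  have hcne : (c : G) ≠ 1 := hF.ne_one_of_map (hab ▸ hz1)
  have hord : orderOf (c : G) = 2 := orderOf_eq_prime (by rw [pow_two]; exact hc2) hcne
  have haT := hF.mem_two.mpr hσ
  have hbT := hF.mem_two.mpr hτ
  have hcT : (c : G) ∈ ⁅hF.two, hF.two⁆ := Subgroup.commutator_mem_commutator haT hbT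
  have hTc : hF.two ≤ Subgroup.centralizer ({(c : G)} : Set G) := by
    intro x hx
    set x' : Subgroup.centralizer ({t} : Set G) := ⟨x, hF.two_le hx⟩
    have h1 : φ ⁅x', c⁆ = 1 := by
      rw [map_commutatorElement, hab, commutatorElement_eq_one_iff_commute]
      exact hF.mem_two.mp hx
    have h2 := hF.core_inj hG (hcomm x' c) h1
    exact Subgroup.mem_centralizer_singleton_iff.mpr
      (congrArg Subtype.val (commutatorElement_eq_one_iff_commute.mp h2).eq)
  -- the centre of the Sylow subgroup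
  have hcen : ∀ z ∈ hF.two, (∀ w ∈ hF.two, z * w = w * z) →
      z = 1 ∨ z = t ∨ z = c ∨ z = c * t := by
    intro z hz hzc
    set z' : Subgroup.centralizer ({t} : Set G) := ⟨z, hF.two_le hz⟩
    rcases center_cent_z0 (φ z') (hF.mem_two.mp hz) (fun s hs => by
      obtain ⟨w, rfl⟩ := hF.surj s
      rw [← map_mul, ← map_mul]
      exact congrArg φ (Subtype.ext (hzc w (hF.mem_two.mpr hs)))) with h | h
    · rcases (hF.ker z').mp h with e | e
      · exact Or.inl e
      · exact Or.inr (Or.inl e)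
    · rcases hF.fiber (h.trans hab.symm) with e | e
      · exact Or.inr (Or.inr (Or.inl e))
      · exact Or.inr (Or.inr (Or.inr e))
  have hctc : (c : G) * t = t * c := hF.comm c
  obtain ⟨g, hgN, hgt⟩ := hF.exists_mover hG
  have hgc : g * (c : G) * g⁻¹ = c := by
    have ga := (Subgroup.mem_normalizer_iff.mp hgN (a : G)).mp haT
    have gb := (Subgroup.mem_normalizer_iff.mp hgN (b : G)).mp hbT
    set a' : Subgroup.centralizer ({t} : Set G) := ⟨_, hF.two_le ga⟩
    set b' : Subgroup.centralizer ({t} : Set G) := ⟨_, hF.two_le gb⟩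
    have hval : ((⁅a', b'⁆ : Subgroup.centralizer ({t} : Set G)) : G) = g * (c : G) * g⁻¹ := by
      rw [hc]
      simp only [commutatorElement_def, Subgroup.coe_mul, Subgroup.coe_inv, a', b']
      group
    rcases hF.comm_two (a := a') (b := b') ga gb with e | e
    · have := hF.core_inj hG (hcomm a' b') e
      rw [this, Subgroup.coe_one] at hval
      exact absurd (conj_eq_one_iff.mp hval.symm) hcne
    · have h1 : ⁅a', b'⁆⁻¹ * c = 1 := hF.core_inj hG (mul_mem (inv_mem (hcomm a' b')) hcc) (by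
        rw [map_mul, map_inv, e, hab, inv_mul_cancel])
      rw [← hval, inv_mul_eq_one.mp h1]
  have hmove : g * t * g⁻¹ = t * c := by
    have hgtT := (Subgroup.mem_normalizer_iff.mp hgN t).mp hF.t_mem_two
    rcases hcen _ hgtT (fun w hw => by
      have hw' : g⁻¹ * w * g ∈ hF.two := (Subgroup.mem_normalizer_iff.mp hgN _).mpr
        (by rwa [show g * (g⁻¹ * w * g) * g⁻¹ = w by group])
      have hx := hF.comm ⟨_, hF.two_le hw'⟩
      calc g * t * g⁻¹ * w = g * (t * (g⁻¹ * w * g)) * g⁻¹ := by group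
        _ = g * ((g⁻¹ * w * g) * t) * g⁻¹ := by rw [← hx]
        _ = w * (g * t * g⁻¹) := by group) with e | e | e | e
    · exact absurd (conj_eq_one_iff.mp e) hF.t_ne
    · exact absurd e hgt
    · rw [← hgc] at e
      exfalso
      have e' : t = (c : G) := by simpa using e
      refine hz1 ?_
      rw [← hab]
      exact (hF.ker c).mpr (Or.inr e'.symm)
    · rw [e, hctc]
  refine ⟨c, hcc, hab, hord, hcT, hTc, isConj_iff.mpr ⟨g, hmove⟩, ?_⟩
  -- a Sylow subgroup of `G` above `two` has `c` in its centre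
  haveI : Fact (Nat.Prime 2) := ⟨Nat.prime_two⟩
  obtain ⟨S, hS⟩ := hF.isPGroup_two.exists_le_sylow
  have hcS : 64 ∣ Nat.card (S : Subgroup G) := S.pow_dvd_card_of_pow_dvd_card (n := 6) hG
  haveI : Nontrivial (S : Subgroup G) := Finite.one_lt_card_iff_nontrivial.mp
    (lt_of_lt_of_le (by norm_num) (Nat.le_of_dvd Nat.card_pos hcS))
  haveI := S.2.center_nontrivial
  obtain ⟨w, hw⟩ := exists_ne (1 : Subgroup.center (S : Subgroup G))
  obtain ⟨n, hn⟩ := IsPGroup.iff_card.mp (S.2.to_subgroup (Subgroup.center (S : Subgroup G)))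
  have h2 : 2 ∣ Nat.card (Subgroup.center (S : Subgroup G)) := by
    rw [hn]; refine dvd_pow_self 2 fun e => ?_
    rw [e, pow_zero] at hn
    exact hw (Subgroup.eq_bot_iff_card _ |>.mpr hn |>.le w.2 |> fun h => Subtype.ext h)
  obtain ⟨⟨z, hzZ⟩, hzo⟩ := exists_prime_orderOf_dvd_card' (G := Subgroup.center (S : Subgroup G)) 2 h2
  have hzo' : orderOf (z : G) = 2 := by
    rw [Subgroup.orderOf_coe]; rwa [Subgroup.orderOf_mk] at hzo
  have hzS : ∀ s ∈ (S : Subgroup G), s * (z : G) = z * s := fun s hs =>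
    congrArg Subtype.val (Subgroup.mem_center_iff.mp hzZ ⟨s, hs⟩)
  have hzt : (z : G) ∈ Subgroup.centralizer ({t} : Set G) :=
    Subgroup.mem_centralizer_singleton_iff.mpr (hzS t (hS hF.t_mem_two)).symm
  have hzT : (z : G) ∈ hF.two := by
    have hW : (hF.two ⊔ Subgroup.zpowers (z : G)) ≤
        (S : Subgroup G) ⊓ Subgroup.centralizer ({t} : Set G) :=
      sup_le (le_inf hS hF.two_le) (Subgroup.zpowers_le.mpr ⟨z.2, hzt⟩)
    obtain ⟨m, hm⟩ := IsPGroup.iff_card.mp (S.2.to_le (hW.trans inf_le_left))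
    have hm4 : Nat.card ↥(hF.two ⊔ Subgroup.zpowers (z : G)) ≤ 16 := by
      have hd : Nat.card ↥(hF.two ⊔ Subgroup.zpowers (z : G)) ∣ 2 ^ 4 * 15 := by
        have := Subgroup.card_dvd_of_le (hW.trans inf_le_right)
        rw [hF.card] at this
        exact this
      rw [hm] at hd ⊢
      exact Nat.le_of_dvd (by norm_num)
        (((Nat.Coprime.pow_left m (by norm_num)).dvd_mul_right).mp hd)
    have heq : hF.two = hF.two ⊔ Subgroup.zpowers (z : G) :=
      Subgroup.eq_of_le_of_card_ge le_sup_left (by rw [hF.card_two]; exact hm4)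
    rw [heq]
    exact Subgroup.mem_sup_right (Subgroup.mem_zpowers _)
  have hconj : ∀ v : G, IsConj t v → ¬ 64 ∣ Nat.card (Subgroup.centralizer ({v} : Set G)) := by
    intro v hv h64
    obtain ⟨k, rfl⟩ := isConj_iff.mp hv
    have : Nat.card (Subgroup.centralizer ({k * t * k⁻¹} : Set G)) = 240 := by
      rw [← hF.card]
      refine Nat.card_congr ((MulAut.conj k⁻¹).toEquiv.subtypeEquiv fun x => ?_)
      simp only [Subgroup.mem_centralizer_singleton_iff, MulEquiv.toEquiv_eq_coe, EquivLike.coe_coe,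
        MulAut.conj_apply, inv_inv]
      constructor
      · intro e
        calc k⁻¹ * x * k * t = k⁻¹ * (x * (k * t * k⁻¹)) * k := by group
          _ = k⁻¹ * (k * t * k⁻¹ * x) * k := by rw [e]
          _ = t * (k⁻¹ * x * k) := by group
      · intro e
        calc x * (k * t * k⁻¹) = k * (k⁻¹ * x * k * t) * k⁻¹ := by group
          _ = k * (t * (k⁻¹ * x * k)) * k⁻¹ := by rw [e]
          _ = k * t * k⁻¹ * x := by group
    rw [this] at h64
    norm_num at h64
  have hSz : (S : Subgroup G) ≤ Subgroup.centralizer ({(z : G)} : Set G) := fun s hs =>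
    Subgroup.mem_centralizer_singleton_iff.mpr (hzS s hs)
  have h64z := hcS.trans (Subgroup.card_dvd_of_le hSz)
  rcases hcen _ hzT (fun w hw => (hzS w (hS hw)).symm) with e | e | e | e
  · rw [e, orderOf_one] at hzo'; omega
  · exact absurd h64z (hconj _ (e ▸ IsConj.refl t))
  · exact e ▸ h64z
  · exact absurd h64z (hconj _ (by rw [e, hctc]; exact isConj_iff.mpr ⟨g, hmove⟩))

end FiveFrame

end CfsgLib.M12Count
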