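import Cfsg.Agent.M12Count.Defs
import Cfsg.Agent.M12Count.FiveData
import Cfsg.Agent.SmallPerm.SymSixIndexSix
import Mathlib.GroupTheory.Transfer

/-!
The centraliser of order 240 of an involution centralising an element of order five:
it maps onto the symmetric group of degree five.
-/

set_option autoImplicit false
set_option linter.style.haveILetI false

namespace CfsgLib.M12Count

open Equiv

variable {G : Type*} [Group G] [Finite G]

/-- The centraliser `H` of `t` with its map onto the symmetric group of degree five. -/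
structure FiveFrame (t : G) (φ : Subgroup.centralizer ({t} : Set G) →* Equiv.Perm (Fin 5)) :
    Prop where
  ord : orderOf t = 2
  card : Nat.card (Subgroup.centralizer ({t} : Set G)) = 240
  surj : Function.Surjective φ
  ker : ∀ x, φ x = 1 ↔ (x : G) = 1 ∨ (x : G) = t

theorem card_normalizer_map_five (h : Setup G) {H : Subgroup G} (P : Sylow 5 H)
    (hP : Nat.card (P : Subgroup H) = 5) :
    ∃ g : G, orderOf g = 5 ∧ (P : Subgroup H).map H.subtype = Subgroup.zpowers g ∧
      Nat.card (Subgroup.normalizer (Subgroup.zpowers g : Set G)) = 40 := by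
  haveI : Fact (Nat.Prime 5) := ⟨by norm_num⟩
  haveI : IsCyclic (P : Subgroup H) := isCyclic_of_prime_card hP
  obtain ⟨x, hx⟩ := IsCyclic.exists_generator (α := (P : Subgroup H))
  have hxo : orderOf x = 5 := (orderOf_eq_card_of_forall_mem_zpowers hx).trans hP
  have hgo : orderOf (((x : H) : G)) = 5 := by
    rw [Subgroup.orderOf_coe, Subgroup.orderOf_coe, hxo]
  refine ⟨_, hgo, ?_, h.norm_five _ hgo⟩
  refine (Subgroup.eq_of_le_of_card_ge ?_ ?_).symm
  · exact Subgroup.zpowers_le.mpr ⟨_, x.2, rfl⟩
  · rw [Subgroup.card_map_of_injective H.subtype_injective, Nat.card_zpowers, hgo, hP]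

theorem Setup.exists_frame (h : Setup G) {t : G} (ht : IsFiveInv t)
    (h240 : Nat.card (Subgroup.centralizer ({t} : Set G)) = 240) :
    ∃ φ, FiveFrame t φ := by
  classical
  haveI : Fact (Nat.Prime 5) := ⟨by norm_num⟩
  obtain ⟨hto, g0, hg0, hc0⟩ := ht
  set H := Subgroup.centralizer ({t} : Set G) with hH
  have htH : t ∈ H := Subgroup.mem_centralizer_singleton_iff.mpr rfl
  -- the Sylow 5-subgroups
  have hcardP : ∀ P : Sylow 5 H, Nat.card (P : Subgroup H) = 5 := fun P => by
    rw [P.card_eq_multiplicity, h240, show (240 : ℕ).factorization 5 = 1 by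
      rw [show (240 : ℕ) = 5 ^ 1 * 48 by norm_num]
      simp only [Nat.factorization_mul (show (5 : ℕ) ^ 1 ≠ 0 by norm_num) (show (48 : ℕ) ≠ 0 by
        norm_num)]
      simp [Nat.Prime.factorization_self (show Nat.Prime 5 by norm_num),
        Nat.factorization_eq_zero_of_not_dvd (show ¬ 5 ∣ 48 by norm_num)], pow_one]
  have hg0H : g0 ∈ H := Subgroup.mem_centralizer_singleton_iff.mpr hc0
  obtain ⟨P, hPz⟩ : ∃ P : Sylow 5 H, (P : Subgroup H).map H.subtype = Subgroup.zpowers g0 := by
    have hp : IsPGroup 5 (Subgroup.zpowers (⟨g0, hg0H⟩ : H)) := by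
      refine IsPGroup.of_card (n := 1) ?_
      rw [Nat.card_zpowers, Subgroup.orderOf_mk, hg0, pow_one]
    obtain ⟨P, hP⟩ := hp.exists_le_sylow
    refine ⟨P, ?_⟩
    have := Subgroup.eq_of_le_of_card_ge hP (by
      rw [Nat.card_zpowers, Subgroup.orderOf_mk, hg0, hcardP P])
    rw [← this, MonoidHom.map_zpowers]; rfl
  have hNH : Subgroup.normalizer (Subgroup.zpowers g0 : Set G) ≤ H := h.fiveInv_norm g0 t hg0 hto hc0
  have hidx : (Subgroup.normalizer ((P : Subgroup H) : Set H)).index = 6 := by
    have hmap : (Subgroup.normalizer ((P : Subgroup H) : Set H)).map H.subtype =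
        Subgroup.normalizer (Subgroup.zpowers g0 : Set G) := by
      rw [← hPz]
      apply le_antisymm
      · exact Subgroup.le_normalizer_map _
      · intro x hx
        have hxH : x ∈ H := hNH (hPz ▸ hx)
        refine ⟨⟨x, hxH⟩, ?_, rfl⟩
        rw [SetLike.mem_coe, Subgroup.mem_normalizer_iff]
        intro y
        have := Subgroup.mem_normalizer_iff.mp hx (y : G)
        constructor
        · intro hy
          obtain ⟨z, hz, hz'⟩ := this.mp ⟨y, hy, rfl⟩
          have : z = ⟨x, hxH⟩ * y * ⟨x, hxH⟩⁻¹ := Subtype.ext hz'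
          exact this ▸ hz
        · intro hy
          obtain ⟨z, hz, hz'⟩ := this.mpr ⟨_, hy, rfl⟩
          have : z = y := Subtype.ext hz'
          exact this ▸ hz
    have hc : Nat.card (Subgroup.normalizer ((P : Subgroup H) : Set H)) = 40 := by
      rw [← Subgroup.card_map_of_injective H.subtype_injective, hmap, h.norm_five g0 hg0]
    have := Subgroup.card_mul_index (Subgroup.normalizer ((P : Subgroup H) : Set H))
    rw [hc, h240] at this
    omega
  have hn6 : Nat.card (Sylow 5 H) = 6 := by
    exact P.card_eq_index_normalizer.trans hidx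
  obtain ⟨e6⟩ : Nonempty (Sylow 5 H ≃ Fin 6) := ⟨(Finite.equivFinOfCardEq hn6)⟩
  set ψ : H →* Equiv.Perm (Fin 6) :=
    e6.permCongrHom.toMonoidHom.comp (MulAction.toPermHom H (Sylow 5 H)) with hψ
  have hker : ∀ x : H, ψ x = 1 ↔ (x : G) = 1 ∨ (x : G) = t := by
    have htc : (⟨t, htH⟩ : H) ∈ Subgroup.center H := Subgroup.mem_center_iff.mpr fun y =>
      Subtype.ext (Subgroup.mem_centralizer_singleton_iff.mp y.2)
    intro x
    have hx1 : ψ x = 1 ↔ ∀ Q : Sylow 5 H, x • Q = Q := by
      rw [hψ, MonoidHom.comp_apply]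
      constructor
      · intro h1 Q
        have h2 : MulAction.toPermHom H (Sylow 5 H) x = 1 := e6.permCongrHom.injective
          (h1.trans (map_one _).symm)
        simpa using DFunLike.congr_fun h2 Q
      · intro h1
        rw [show MulAction.toPermHom H (Sylow 5 H) x = 1 from Equiv.ext fun Q => by simpa using h1 Q]
        exact map_one _
    rw [hx1]
    constructor
    · intro hall
      set K := (MulAction.toPermHom H (Sylow 5 H)).ker
      have hxK : x ∈ K := MonoidHom.mem_ker.mpr (Equiv.ext fun Q => by simpa using hall Q)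
      have hKN : K ≤ Subgroup.normalizer ((P : Subgroup H) : Set H) := fun k hk => by
        exact Sylow.smul_eq_iff_mem_normalizer.mp
          (by simpa using DFunLike.congr_fun (MonoidHom.mem_ker.mp hk) P)
      have hKP : K ⊓ (P : Subgroup H) = ⊥ := by
        by_contra hne
        have hd : Nat.card (K ⊓ (P : Subgroup H) : Subgroup H) = 5 := by
          have hdvd := Subgroup.card_dvd_of_le (inf_le_right : K ⊓ (P : Subgroup H) ≤ _)
          rw [hcardP P] at hdvd
          rcases (Nat.dvd_prime (by norm_num)).mp hdvd with e | e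
          · exact absurd (Subgroup.card_eq_one.mp e) hne
          · exact e
        have hPK : (P : Subgroup H) ≤ K := (Subgroup.eq_of_le_of_card_ge inf_le_right
          (by rw [hd, hcardP P])).symm.le.trans inf_le_left
        have hall' : ∀ Q : Sylow 5 H, (Q : Subgroup H) ≤ K := fun Q => by
          obtain ⟨g, rfl⟩ := MulAction.exists_smul_eq H P Q
          intro y hy
          rw [Sylow.coe_subgroup_smul] at hy
          obtain ⟨z, hz, rfl⟩ := hy
          exact (MonoidHom.normal_ker _).conj_mem z (hPK hz) g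
        haveI : Subsingleton (Sylow 5 H) := ⟨fun Q R => by
          have hQ := hKN
          have hfix : ∀ Q : Sylow 5 H, Q = P := fun Q => by
            refine Sylow.ext (Subgroup.eq_of_le_of_card_ge ?_ (by rw [hcardP, hcardP]))
            intro y hy
            exact ((Q.2.inf_normalizer_sylow P).le ⟨hy, ((hall' Q).trans hKN) hy⟩).2
          rw [hfix Q, hfix R]⟩
        have := Finite.card_le_one_iff_subsingleton.mpr this
        omega
      obtain ⟨g', hg', hgz, hg'n⟩ := card_normalizer_map_five h P (hcardP P)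
      have hcomm : ∀ p ∈ (P : Subgroup H), p * x = x * p := by
        intro p hp
        have h1 : x * p * x⁻¹ * p⁻¹ ∈ K ⊓ (P : Subgroup H) := by
          refine ⟨?_, mul_mem ((Subgroup.mem_normalizer_iff.mp (hKN hxK) p).mp hp)
            ((P : Subgroup H).inv_mem hp)⟩
          rw [show x * p * x⁻¹ * p⁻¹ = x * (p * x⁻¹ * p⁻¹) by group]
          exact mul_mem hxK ((MonoidHom.normal_ker _).conj_mem _ (inv_mem hxK) p)
        rw [hKP, Subgroup.mem_bot] at h1
        calc p * x = (x * p * x⁻¹ * p⁻¹)⁻¹ * (x * p) := by group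
          _ = x * p := by rw [h1, inv_one, one_mul]
      have hxC : (x : G) ∈ Subgroup.centralizer ({g0} : Set G) := by
        obtain ⟨p, hp, hpg⟩ : g0 ∈ (P : Subgroup H).map H.subtype :=
          hPz ▸ Subgroup.mem_zpowers g0
        refine Subgroup.mem_centralizer_singleton_iff.mpr ?_
        rw [← hpg]
        exact (congrArg Subtype.val (hcomm p hp)).symm
      -- `C(g0) = <g0> × <t>`
      have hd := Subgroup.orderOf_dvd_natCard _ hxC
      rw [h.cent_five g0 hg0] at hd
      have hx5 : ¬ 5 ∣ orderOf x := by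
        intro h5
        have hP' := hKP
        set y := x ^ (orderOf x / 5) with hy
        have hyo : orderOf y = 5 := by
          rw [hy, orderOf_pow_of_dvd (Nat.div_pos (Nat.le_of_dvd (orderOf_pos x) h5)
            (by norm_num)).ne' (Nat.div_dvd_of_dvd h5), Nat.div_div_self h5 (orderOf_pos x).ne']
        have hyN : y ∈ Subgroup.normalizer ((P : Subgroup H) : Set H) := hKN (pow_mem hxK _)
        have hyP : y ∈ (P : Subgroup H) := by
          have hq : IsPGroup 5 (Subgroup.zpowers y) :=
            IsPGroup.of_card (n := 1) (by rw [Nat.card_zpowers, hyo, pow_one])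
          have := hq.inf_normalizer_sylow P
          exact (this.le ⟨Subgroup.mem_zpowers y, hyN⟩).2
        have : y ∈ K ⊓ (P : Subgroup H) := ⟨pow_mem hxK _, hyP⟩
        rw [hKP, Subgroup.mem_bot] at this
        simp [this] at hyo
      rw [Subgroup.orderOf_coe] at hd
      have h2 : orderOf x ∣ 2 :=
        ((Nat.Prime.coprime_iff_not_dvd (by norm_num)).mpr hx5).symm.dvd_of_dvd_mul_left
          (show orderOf x ∣ 5 * 2 from hd)
      rcases (Nat.dvd_prime Nat.prime_two).mp h2 with e | e
      · exact Or.inl (by rw [orderOf_eq_one_iff.mp e]; rfl)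
      · refine Or.inr (h.fiveInv_unique g0 (x : G) t hg0 (by rw [Subgroup.orderOf_coe, e]) hto
          (Subgroup.mem_centralizer_singleton_iff.mp hxC).symm hc0)
    · rintro (e | e) Q
      · rw [show x = 1 from Subtype.ext e, one_smul]
      · rw [show x = (⟨t, htH⟩ : H) from Subtype.ext e]
        refine Sylow.smul_eq_iff_mem_normalizer.mpr (Subgroup.mem_normalizer_iff.mpr fun y => ?_)
        rw [← Subgroup.mem_center_iff.mp htc y, mul_inv_cancel_right]
  have hkc : Nat.card ψ.ker = 2 := by
    have : ψ.ker = Subgroup.zpowers (⟨t, htH⟩ : H) := by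
      refine le_antisymm (fun x hx => ?_) (Subgroup.zpowers_le.mpr ((hker _).mpr (Or.inr rfl)))
      rcases (hker x).mp hx with e | e
      · rw [show x = 1 from Subtype.ext e]; exact one_mem _
      · rw [show x = (⟨t, htH⟩ : H) from Subtype.ext e]; exact Subgroup.mem_zpowers _
    rw [this, Nat.card_zpowers, Subgroup.orderOf_mk, hto]
  have hidx6 : ψ.range.index = 6 := by
    have h1 := Subgroup.card_mul_index ψ.ker
    rw [Subgroup.index_ker, hkc, h240] at h1
    have h2 := Subgroup.card_mul_index ψ.range
    rw [SmallPerm.SymSix.card_S6] at h2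
    have h3 : Nat.card ψ.range = 120 := by omega
    rw [h3] at h2
    omega
  obtain ⟨e5⟩ := SmallPerm.SymSix.isoS5 hidx6
  refine ⟨e5.toMonoidHom.comp ψ.rangeRestrict,
    ⟨hto, h240, e5.surjective.comp ψ.rangeRestrict_surjective, fun x => ?_⟩⟩
  rw [← hker x]
  constructor
  · intro hx
    have := e5.injective (hx.trans (map_one e5).symm)
    exact congrArg Subtype.val this
  · intro hx
    show e5 (ψ.rangeRestrict x) = 1
    rw [show ψ.rangeRestrict x = 1 from Subtype.ext hx, map_one]

end CfsgLib.M12Count
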